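import Mathlib

namespace Cfsg.Agent.Lib.Helper2

theorem carm_inv_of_sq {G : Type*} [Group G] {a b : G} (h : (a * b) ^ 2 = 1) (hb : b * b = 1) :
    b * a = a⁻¹ * b := by
  have h' : a * b * (a * b) = 1 := by rw [← pow_two]; exact h
  have hbi : b⁻¹ = b := inv_eq_of_mul_eq_one_right hb
  have h'' : a * b * a * b = 1 := by
    rw [← h']
    simp only [mul_assoc]
  have h2 : a * b * a = b⁻¹ := eq_inv_of_mul_eq_one_left h''
  rw [hbi] at h2
  calc b * a = a⁻¹ * (a * b * a) := by simp only [mul_assoc, inv_mul_cancel_left]
    _ = a⁻¹ * b := by rw [h2]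

theorem carm_h5_of_cube {G : Type*} [Group G] {a b : G} (h : (a * b) ^ 3 = 1) (hb : b * b = 1) :
    b * a * b = a⁻¹ * b * a⁻¹ := by
  have hbi : b⁻¹ = b := inv_eq_of_mul_eq_one_right hb
  have h' : a * b * a * (b * a * b) = 1 := by
    rw [← h, pow_succ, pow_succ, pow_one]
    simp only [mul_assoc]
  have h2 : b * a * b = (a * b * a)⁻¹ := eq_inv_of_mul_eq_one_right h'
  rw [h2, mul_inv_rev, mul_inv_rev, hbi, mul_assoc]

theorem carm_perm_adj {G : Type*} [Group G] {a b c : G} (m : ℕ) (haa : a * a = 1)
    (hab : a * b = b * a) (h : (b * c) ^ m = 1) : (a * b * (a * c)) ^ m = 1 := by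
  have e : a * b * (a * c) = b * c := by
    calc a * b * (a * c) = b * (a * a) * c := by
          rw [hab]
          simp only [mul_assoc]
      _ = b * c := by rw [haa, mul_one]
  rw [e]
  exact h

theorem carm_perm_P4 {G : Type*} [Group G] {a b c : G} (haa : a * a = 1) (hbb : b * b = 1)
    (hcc : c * c = 1) (hac : a * c = c * a) (hbcb : b * c * b = c * b * c) :
    (a * b * (a * c)) ^ 3 = 1 := by
  have hb' : a * b * a * (a * b * a) = 1 := by
    calc a * b * a * (a * b * a) = a * (b * ((a * a) * b)) * a := by simp only [mul_assoc]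
      _ = 1 := by rw [haa, one_mul, hbb, mul_one, haa]
  have hbr : a * b * a * c * (a * b * a) = c * (a * b * a) * c := by
    calc a * b * a * c * (a * b * a) = a * (b * ((a * c) * a) * b) * a := by
          simp only [mul_assoc]
      _ = a * (b * (c * (a * a)) * b) * a := by
          rw [hac]
          simp only [mul_assoc]
      _ = a * (b * c * b) * a := by rw [haa, mul_one]
      _ = a * (c * b * c) * a := by rw [hbcb]
      _ = a * (c * (b * (c * a))) := by simp only [mul_assoc]
      _ = c * (a * (b * (c * a))) := by rw [← mul_assoc a c, hac, mul_assoc]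
      _ = c * (a * (b * (a * c))) := by rw [← hac]
      _ = c * (a * b * a) * c := by simp only [mul_assoc]
  have e : a * b * (a * c) = a * b * a * c := by simp only [mul_assoc]
  rw [e]
  obtain ⟨B, hB⟩ : ∃ B : G, B = a * b * a := ⟨_, rfl⟩
  rw [← hB] at hb' hbr ⊢
  calc (B * c) ^ 3 = (B * c * B) * (c * B * c) := by
        rw [pow_succ, pow_succ, pow_one]
        simp only [mul_assoc]
    _ = (c * B * c) * (c * B * c) := by rw [hbr]
    _ = c * (B * ((c * c) * B)) * c := by simp only [mul_assoc]
    _ = 1 := by rw [hcc, one_mul, hb', mul_one, hcc]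

theorem carm_perm_P6 {G : Type*} [Group G] {a b c : G} (haa : a * a = 1) (hbb : b * b = 1)
    (hcc : c * c = 1) (hac : a * c = c * a) (hbc : b * c = c * b) :
    (a * b * (a * c)) ^ 2 = 1 := by
  have hca' : ∀ X, c * (a * X) = a * (c * X) := fun X => by
    rw [← mul_assoc, ← hac, mul_assoc]
  have hcb' : ∀ X, c * (b * X) = b * (c * X) := fun X => by
    rw [← mul_assoc, ← hbc, mul_assoc]
  have haa' : ∀ X, a * (a * X) = X := fun X => by rw [← mul_assoc, haa, one_mul]
  have hbb' : ∀ X, b * (b * X) = X := fun X => by rw [← mul_assoc, hbb, one_mul]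
  rw [pow_two]
  simp only [mul_assoc, hca', hcb', haa', hbb', haa, hcc, mul_one]

theorem carm_card_le {G : Type*} [Group G] (s : ℕ → G) (n : ℕ)
    (h0 : 0 < n → s 0 * s 0 * s 0 = 1)
    (h1 : ∀ i, 1 ≤ i → i < n → s i * s i = 1)
    (h2 : ∀ i, 1 ≤ i → i + 1 < n → s i * s (i + 1) * s i = s (i + 1) * s i * s (i + 1))
    (h3 : ∀ i j, 1 ≤ i → i + 2 ≤ j → j < n → s i * s j = s j * s i)
    (h4 : ∀ j, 2 ≤ j → j < n → s j * s 0 = (s 0)⁻¹ * s j)
    (h5 : 1 < n → s 1 * s 0 * s 1 = (s 0)⁻¹ * s 1 * (s 0)⁻¹) :
    Finite (Subgroup.closure (s '' Set.Iio n)) ∧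
      2 * Nat.card (Subgroup.closure (s '' Set.Iio n)) ≤ (n + 2).factorial := by
  induction n with
  | zero =>
    have hb : Subgroup.closure (s '' Set.Iio 0) = ⊥ := by
      rw [Subgroup.closure_eq_bot_iff]
      rintro x ⟨i, hi, rfl⟩
      exact absurd hi (Nat.not_lt_zero i)
    rw [hb]
    refine ⟨inferInstance, ?_⟩
    rw [Subgroup.card_bot]
    decide
  | succ n ih =>
    obtain ⟨hHfin, hHcard⟩ := ih (fun h => h0 (by omega)) (fun i hi hin => h1 i hi (by omega))
      (fun i hi hin => h2 i hi (by omega)) (fun i j hi hij hj => h3 i j hi hij (by omega))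
      (fun j hj hjn => h4 j hj (by omega)) (fun h => h5 (by omega))
    obtain ⟨H, hH⟩ : ∃ H : Subgroup G, H = Subgroup.closure (s '' Set.Iio n) := ⟨_, rfl⟩
    rw [← hH] at hHfin hHcard
    have hsH : ∀ i, i < n → s i ∈ H := fun i hi => by
      rw [hH]
      exact Subgroup.subset_closure ⟨i, hi, rfl⟩
    have h03 : s 0 * s 0 * s 0 = 1 := h0 (by omega)
    have h0inv : (s 0)⁻¹ = s 0 * s 0 :=
      inv_eq_of_mul_eq_one_right (by rw [← mul_assoc]; exact h03)
    have h4' : ∀ j, 2 ≤ j → j ≤ n → s j * (s 0)⁻¹ = s 0 * s j := by
      intro j hj hjn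
      have h := h4 j hj (by omega)
      calc s j * (s 0)⁻¹ = s 0 * ((s 0)⁻¹ * s j) * (s 0)⁻¹ := by
            simp only [mul_assoc, mul_inv_cancel_left]
        _ = s 0 * (s j * s 0) * (s 0)⁻¹ := by rw [h]
        _ = s 0 * s j := by simp only [mul_assoc, mul_inv_cancel, mul_one]
    have h5' : 1 ≤ n → s 1 * (s 0)⁻¹ * s 1 = s 0 * s 1 * s 0 := by
      intro hn
      have h := h5 (by omega)
      have h11 : s 1 * s 1 = 1 := h1 1 le_rfl (by omega)
      have h1inv : (s 1)⁻¹ = s 1 := inv_eq_of_mul_eq_one_right h11
      have h' := congrArg (fun z => z⁻¹) h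
      simp only [mul_inv_rev, inv_inv, h1inv] at h'
      rw [mul_assoc, mul_assoc]
      exact h'
    obtain ⟨c, hc0, hcs⟩ : ∃ c : ℕ → G, c 0 = 1 ∧ ∀ k, c (k + 1) = c k * s (n - k) :=
      ⟨fun k => Nat.rec 1 (fun k ck => ck * s (n - k)) k, rfl, fun k => rfl⟩
    have hA : ∀ k j, 1 ≤ j → j + k + 1 ≤ n → c k * s j = s j * c k := by
      intro k
      induction k with
      | zero =>
        intro j _ _
        rw [hc0, one_mul, mul_one]
      | succ k ihk =>
        intro j hj1 hj
        rw [hcs, mul_assoc, ← h3 j (n - k) hj1 (by omega) (by omega), ← mul_assoc,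
          ihk j hj1 (by omega), mul_assoc]
    have hB : ∀ k j, n + 2 ≤ j + k → j ≤ n → k ≤ n → c k * s j = s (j - 1) * c k := by
      intro k
      induction k with
      | zero =>
        intro j hjk hj _
        omega
      | succ k ihk =>
        intro j hjk hj hk
        rcases Nat.eq_or_lt_of_le hjk with heq | hgt
        · cases k with
          | zero => omega
          | succ k' =>
            have e1 : n - k' = j := by omega
            have e2 : n - (k' + 1) = j - 1 := by omega
            have hbr : s (j - 1) * s j * s (j - 1) = s j * s (j - 1) * s j := by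
              have h := h2 (j - 1) (by omega) (by omega)
              rwa [show j - 1 + 1 = j by omega] at h
            have hcm : c k' * s (j - 1) = s (j - 1) * c k' :=
              hA k' (j - 1) (by omega) (by omega)
            have hck : c (k' + 1 + 1) = c k' * s j * s (j - 1) := by
              rw [hcs, hcs, e1, e2]
            calc c (k' + 1 + 1) * s j = c k' * (s j * s (j - 1) * s j) := by
                  rw [hck]
                  simp only [mul_assoc]
              _ = c k' * (s (j - 1) * s j * s (j - 1)) := by rw [hbr]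
              _ = c k' * s (j - 1) * (s j * s (j - 1)) := by simp only [mul_assoc]
              _ = s (j - 1) * c k' * (s j * s (j - 1)) := by rw [hcm]
              _ = s (j - 1) * c (k' + 1 + 1) := by
                  rw [hck]
                  simp only [mul_assoc]
        · rw [hcs, mul_assoc, h3 (n - k) j (by omega) (by omega) (by omega), ← mul_assoc,
            ihk j (by omega) hj (by omega), mul_assoc]
    have hC : ∀ k, k + 1 ≤ n →
        (c k * s 0 = s 0 * c k ∧ c k * (s 0)⁻¹ = (s 0)⁻¹ * c k) ∨
        (c k * s 0 = (s 0)⁻¹ * c k ∧ c k * (s 0)⁻¹ = s 0 * c k) := by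
      intro k
      induction k with
      | zero =>
        intro _
        left
        constructor
        · rw [hc0, one_mul, mul_one]
        · rw [hc0, one_mul, mul_one]
      | succ k ihk =>
        intro hk
        have hj2 : 2 ≤ n - k := by omega
        have e4 := h4 (n - k) hj2 (by omega)
        have e4' := h4' (n - k) hj2 (by omega)
        rcases ihk (by omega) with ⟨ha, hb⟩ | ⟨ha, hb⟩
        · right
          constructor
          · rw [hcs, mul_assoc, e4, ← mul_assoc, hb, mul_assoc]
          · rw [hcs, mul_assoc, e4', ← mul_assoc, ha, mul_assoc]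
        · left
          constructor
          · rw [hcs, mul_assoc, e4, ← mul_assoc, hb, mul_assoc]
          · rw [hcs, mul_assoc, e4', ← mul_assoc, ha, mul_assoc]
    have e1 : c (n + 1) = c n * s 0 := by
      have h := hcs n
      rwa [Nat.sub_self] at h
    have e2 : c (n + 2) = c n * s 0 * s 0 := by
      have h := hcs (n + 1)
      rw [show n - (n + 1) = 0 by omega, e1] at h
      exact h
    obtain ⟨T, hT⟩ : ∃ T : G → Prop, ∀ g, T g ↔ ∃ h ∈ H, ∃ m, m ≤ n + 2 ∧ g = h * c m :=
      ⟨fun g => ∃ h ∈ H, ∃ m, m ≤ n + 2 ∧ g = h * c m, fun g => Iff.rfl⟩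
    have hstep0 : ∀ g, T g → T (g * s 0) := by
      intro g hg
      rw [hT] at hg ⊢
      obtain ⟨h, hh, m, hm, rfl⟩ := hg
      rcases Nat.lt_or_ge m n with hlt | hge
      · rcases hC m (by omega) with ⟨ha, _⟩ | ⟨ha, _⟩
        · exact ⟨h * s 0, H.mul_mem hh (hsH 0 (by omega)), m, hm, by
            rw [mul_assoc, ha, mul_assoc]⟩
        · exact ⟨h * (s 0)⁻¹, H.mul_mem hh (H.inv_mem (hsH 0 (by omega))), m, hm, by
            rw [mul_assoc, ha, mul_assoc]⟩
      · rcases Nat.eq_or_lt_of_le hge with heq | hgt
        · subst heq
          exact ⟨h, hh, n + 1, by omega, by rw [mul_assoc, e1]⟩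
        · rcases Nat.eq_or_lt_of_le (Nat.succ_le_of_lt hgt) with heq | hgt2
          · subst heq
            exact ⟨h, hh, n + 2, le_rfl, by rw [mul_assoc, e2, e1]⟩
          · have hm2 : m = n + 2 := by omega
            subst hm2
            refine ⟨h, hh, n, by omega, ?_⟩
            calc h * c (n + 2) * s 0 = h * c n * (s 0 * s 0 * s 0) := by
                  rw [e2]
                  simp only [mul_assoc]
              _ = h * c n := by rw [h03, mul_one]
    have hstepj : ∀ j, 1 ≤ j → j ≤ n → ∀ g, T g → T (g * s j) := by
      intro j hj1 hj g hg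
      rw [hT] at hg ⊢
      obtain ⟨h, hh, m, hm, rfl⟩ := hg
      rcases Nat.lt_or_ge (j + m) n with hlt | hge
      · exact ⟨h * s j, H.mul_mem hh (hsH j (by omega)), m, hm, by
          rw [mul_assoc, hA m j hj1 (by omega), mul_assoc]⟩
      · rcases Nat.eq_or_lt_of_le hge with heq | hgt
        · exact ⟨h, hh, m + 1, by omega, by
            rw [mul_assoc, hcs, show n - m = j by omega]⟩
        · rcases Nat.eq_or_lt_of_le (Nat.succ_le_of_lt hgt) with heq | hgt2
          · obtain ⟨m', rfl⟩ : ∃ m', m = m' + 1 := ⟨m - 1, by omega⟩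
            refine ⟨h, hh, m', by omega, ?_⟩
            rw [hcs, show n - m' = j by omega, mul_assoc, mul_assoc, h1 j hj1 (by omega),
              mul_one]
          · rcases Nat.lt_or_ge n m with hmn | hmn
            · -- m = n + 1 or m = n + 2
              have hn1 : 1 ≤ n := by omega
              have ecn : c n = c (n - 1) * s 1 := by
                have h := hcs (n - 1)
                rw [show n - 1 + 1 = n by omega, show n - (n - 1) = 1 by omega] at h
                exact h
              rcases Nat.eq_or_lt_of_le (Nat.succ_le_of_lt hmn) with hm1 | hm1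
              · -- m = n + 1
                have hm1' : m = n + 1 := hm1.symm
                subst hm1'
                rcases Nat.eq_or_lt_of_le hj1 with hj1' | hj2
                · -- j = 1
                  have hj1'' : j = 1 := hj1'.symm
                  subst hj1''
                  obtain ⟨e, heH, hed⟩ : ∃ e ∈ H, c (n - 1) * (s 0)⁻¹ = e * c (n - 1) := by
                    rcases hC (n - 1) (by omega) with ⟨_, hb⟩ | ⟨_, hb⟩
                    · exact ⟨(s 0)⁻¹, H.inv_mem (hsH 0 (by omega)), hb⟩
                    · exact ⟨s 0, hsH 0 (by omega), hb⟩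
                  refine ⟨h * e, H.mul_mem hh heH, n + 2, le_rfl, ?_⟩
                  calc h * c (n + 1) * s 1 = h * (c (n - 1) * (s 1 * s 0 * s 1)) := by
                        rw [e1, ecn]
                        simp only [mul_assoc]
                    _ = h * (c (n - 1) * ((s 0)⁻¹ * s 1 * (s 0)⁻¹)) := by rw [h5 (by omega)]
                    _ = h * (c (n - 1) * (s 0)⁻¹ * (s 1 * (s 0)⁻¹)) := by
                        simp only [mul_assoc]
                    _ = h * (e * c (n - 1) * (s 1 * (s 0 * s 0))) := by rw [hed, h0inv]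
                    _ = h * e * c (n + 2) := by
                        rw [e2, ecn]
                        simp only [mul_assoc]
                · -- j ≥ 2
                  have hj2' : 2 ≤ j := hj2
                  refine ⟨h * s (j - 1), H.mul_mem hh (hsH (j - 1) (by omega)), n + 2,
                    le_rfl, ?_⟩
                  calc h * c (n + 1) * s j = h * (c n * (s 0 * s j)) := by
                        rw [e1]
                        simp only [mul_assoc]
                    _ = h * (c n * (s j * (s 0)⁻¹)) := by rw [← h4' j hj2' hj]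
                    _ = h * (c n * s j * (s 0)⁻¹) := by simp only [mul_assoc]
                    _ = h * (s (j - 1) * c n * (s 0 * s 0)) := by
                        rw [hB n j (by omega) hj le_rfl, h0inv]
                    _ = h * s (j - 1) * c (n + 2) := by
                        rw [e2]
                        simp only [mul_assoc]
              · -- m = n + 2
                have hm2 : m = n + 2 := by omega
                subst hm2
                rcases Nat.eq_or_lt_of_le hj1 with hj1' | hj2
                · have hj1'' : j = 1 := hj1'.symm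
                  subst hj1''
                  obtain ⟨e, heH, hed⟩ : ∃ e ∈ H, c (n - 1) * s 0 = e * c (n - 1) := by
                    rcases hC (n - 1) (by omega) with ⟨ha, _⟩ | ⟨ha, _⟩
                    · exact ⟨s 0, hsH 0 (by omega), ha⟩
                    · exact ⟨(s 0)⁻¹, H.inv_mem (hsH 0 (by omega)), ha⟩
                  refine ⟨h * e, H.mul_mem hh heH, n + 1, by omega, ?_⟩
                  calc h * c (n + 2) * s 1
                      = h * (c (n - 1) * (s 1 * (s 0 * s 0) * s 1)) := by
                        rw [e2, ecn]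
                        simp only [mul_assoc]
                    _ = h * (c (n - 1) * (s 1 * (s 0)⁻¹ * s 1)) := by rw [h0inv]
                    _ = h * (c (n - 1) * (s 0 * s 1 * s 0)) := by rw [h5' (by omega)]
                    _ = h * (c (n - 1) * s 0 * (s 1 * s 0)) := by simp only [mul_assoc]
                    _ = h * (e * c (n - 1) * (s 1 * s 0)) := by rw [hed]
                    _ = h * e * c (n + 1) := by
                        rw [e1, ecn]
                        simp only [mul_assoc]
                · have hj2' : 2 ≤ j := hj2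
                  refine ⟨h * s (j - 1), H.mul_mem hh (hsH (j - 1) (by omega)), n + 1,
                    by omega, ?_⟩
                  calc h * c (n + 2) * s j = h * (c n * ((s 0 * s 0) * s j)) := by
                        rw [e2]
                        simp only [mul_assoc]
                    _ = h * (c n * ((s 0)⁻¹ * s j)) := by rw [h0inv]
                    _ = h * (c n * (s j * s 0)) := by rw [h4 j hj2' (by omega)]
                    _ = h * (c n * s j * s 0) := by simp only [mul_assoc]
                    _ = h * (s (j - 1) * c n * s 0) := by rw [hB n j (by omega) hj le_rfl]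
                    _ = h * s (j - 1) * c (n + 1) := by
                        rw [e1]
                        simp only [mul_assoc]
            · exact ⟨h * s (j - 1), H.mul_mem hh (hsH (j - 1) (by omega)), m, hm, by
                rw [mul_assoc, hB m j (by omega) hj hmn, mul_assoc]⟩
    have hT1 : T 1 := by
      rw [hT]
      exact ⟨1, H.one_mem, 0, by omega, by rw [hc0, mul_one]⟩
    obtain ⟨K, hK⟩ : ∃ K : Subgroup G, K = Subgroup.closure (s '' Set.Iio (n + 1)) := ⟨_, rfl⟩
    rw [← hK]
    have hstep : ∀ j, j < n + 1 → ∀ g, T g → T (g * s j) := by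
      intro j hj
      rcases Nat.eq_zero_or_pos j with hj0 | hjpos
      · subst hj0
        exact hstep0
      · exact hstepj j hjpos (by omega)
    have hall : ∀ w ∈ Subgroup.closure (s '' Set.Iio (n + 1)), ∀ g, T g → T (g * w) := by
      intro w hw
      induction hw using Subgroup.closure_induction'' with
      | mem a ha =>
        obtain ⟨j, hj, rfl⟩ := ha
        exact hstep j hj
      | inv_mem a ha =>
        obtain ⟨j, hj, rfl⟩ := ha
        rcases Nat.eq_zero_or_pos j with hj0 | hjpos
        · subst hj0
          intro g hg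
          rw [h0inv, ← mul_assoc]
          exact hstep0 _ (hstep0 _ hg)
        · have hinv : (s j)⁻¹ = s j := inv_eq_of_mul_eq_one_right (h1 j hjpos hj)
          rw [hinv]
          exact hstep j hj
      | one =>
        intro g hg
        rwa [mul_one]
      | mul a b _ _ iha ihb =>
        intro g hg
        rw [← mul_assoc]
        exact ihb _ (iha _ hg)
    have hTall : ∀ w ∈ K, T w := by
      intro w hw
      rw [hK] at hw
      have h := hall w hw 1 hT1
      rwa [one_mul] at h
    have hex : ∀ w : K, ∃ p : H × Fin (n + 3), (w : G) = (p.1 : G) * c p.2.val := by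
      intro w
      obtain ⟨h, hh, k, hk, hw⟩ := (hT _).mp (hTall w.1 w.2)
      exact ⟨(⟨h, hh⟩, ⟨k, by omega⟩), hw⟩
    choose f hf using hex
    have hinj : Function.Injective f := by
      intro a b hab
      apply Subtype.ext
      rw [hf a, hf b, hab]
    have hKfin : Finite K := Finite.of_injective f hinj
    refine ⟨hKfin, ?_⟩
    have hle : Nat.card K ≤ Nat.card (H × Fin (n + 3)) := Nat.card_le_card_of_injective f hinj
    have hfin2 : Nat.card (Fin (n + 3)) = n + 3 := by
      rw [Nat.card_eq_fintype_card, Fintype.card_fin]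
    rw [Nat.card_prod, hfin2] at hle
    calc 2 * Nat.card K ≤ 2 * (Nat.card H * (n + 3)) := Nat.mul_le_mul_left 2 hle
      _ = 2 * Nat.card H * (n + 3) := by ring
      _ ≤ (n + 2).factorial * (n + 3) := Nat.mul_le_mul_right _ hHcard
      _ = (n + 1 + 2).factorial := by
          rw [show n + 1 + 2 = (n + 2) + 1 by ring, Nat.factorial_succ (n + 2)]
          ring

end Cfsg.Agent.Lib.Helper2
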