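import Mathlib

namespace Cfsg.Agent.Lib.Helper2

set_option linter.unusedSimpArgs false in
set_option maxHeartbeats 3200000 in
theorem l27pres_card_le {G : Type*} [Group G] (x y : G)
    (hR0 : x * x = 1)
    (hR1 : y * y * y * y * y * y * y = 1)
    (hR2 : x * y * x * y * x * y = 1)
    (hR3 : y * x * y * y * y * y * y * y * x * y * x * y * y * y * y * y * y * x * y * x * y * y * y * y * y * y * x * y * x * y * y * y * y * y * y * x = 1)
    (hgen : Subgroup.closure ({x, y} : Set G) = ⊤) :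
    Finite G ∧ Nat.card G ≤ 168 := by
  have d_0x : 1 * x * (1 * (x))⁻¹ = 1 := by
    simp only [mul_assoc, mul_inv_rev, inv_inv, mul_inv_cancel_left, inv_mul_cancel_left, mul_one, one_mul, inv_one, mul_inv_cancel, inv_mul_cancel]
  have d_1y : x * y * (1 * (x * y))⁻¹ = 1 := by
    simp only [mul_assoc, mul_inv_rev, inv_inv, mul_inv_cancel_left, inv_mul_cancel_left, mul_one, one_mul, inv_one, mul_inv_cancel, inv_mul_cancel]
  have d_2x : x * y * x * (1 * (x * y * x))⁻¹ = 1 := by
    simp only [mul_assoc, mul_inv_rev, inv_inv, mul_inv_cancel_left, inv_mul_cancel_left, mul_one, one_mul, inv_one, mul_inv_cancel, inv_mul_cancel]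
  have d_2y : x * y * y * (1 * (x * y * y))⁻¹ = 1 := by
    simp only [mul_assoc, mul_inv_rev, inv_inv, mul_inv_cancel_left, inv_mul_cancel_left, mul_one, one_mul, inv_one, mul_inv_cancel, inv_mul_cancel]
  have d_4x : x * y * y * x * (1 * (x * y * y * x))⁻¹ = 1 := by
    simp only [mul_assoc, mul_inv_rev, inv_inv, mul_inv_cancel_left, inv_mul_cancel_left, mul_one, one_mul, inv_one, mul_inv_cancel, inv_mul_cancel]
  have d_4y : x * y * y * y * (1 * (x * y * y * y))⁻¹ = 1 := by
    simp only [mul_assoc, mul_inv_rev, inv_inv, mul_inv_cancel_left, inv_mul_cancel_left, mul_one, one_mul, inv_one, mul_inv_cancel, inv_mul_cancel]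
  have d_5y : x * y * y * x * y * (1 * (x * y * y * x * y))⁻¹ = 1 := by
    simp only [mul_assoc, mul_inv_rev, inv_inv, mul_inv_cancel_left, inv_mul_cancel_left, mul_one, one_mul, inv_one, mul_inv_cancel, inv_mul_cancel]
  have d_6x : x * y * y * y * x * (1 * (x * y * y * y * x))⁻¹ = 1 := by
    simp only [mul_assoc, mul_inv_rev, inv_inv, mul_inv_cancel_left, inv_mul_cancel_left, mul_one, one_mul, inv_one, mul_inv_cancel, inv_mul_cancel]
  have d_6y : x * y * y * y * y * (1 * (x * y * y * y * y))⁻¹ = 1 := by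
    simp only [mul_assoc, mul_inv_rev, inv_inv, mul_inv_cancel_left, inv_mul_cancel_left, mul_one, one_mul, inv_one, mul_inv_cancel, inv_mul_cancel]
  have d_7x : x * y * y * x * y * x * (1 * (x * y * y * x * y * x))⁻¹ = 1 := by
    simp only [mul_assoc, mul_inv_rev, inv_inv, mul_inv_cancel_left, inv_mul_cancel_left, mul_one, one_mul, inv_one, mul_inv_cancel, inv_mul_cancel]
  have d_7y : x * y * y * x * y * y * (1 * (x * y * y * x * y * y))⁻¹ = 1 := by
    simp only [mul_assoc, mul_inv_rev, inv_inv, mul_inv_cancel_left, inv_mul_cancel_left, mul_one, one_mul, inv_one, mul_inv_cancel, inv_mul_cancel]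
  have d_8y : x * y * y * y * x * y * (1 * (x * y * y * y * x * y))⁻¹ = 1 := by
    simp only [mul_assoc, mul_inv_rev, inv_inv, mul_inv_cancel_left, inv_mul_cancel_left, mul_one, one_mul, inv_one, mul_inv_cancel, inv_mul_cancel]
  have d_9x : x * y * y * y * y * x * (1 * (x * y * y * y * y * x))⁻¹ = 1 := by
    simp only [mul_assoc, mul_inv_rev, inv_inv, mul_inv_cancel_left, inv_mul_cancel_left, mul_one, one_mul, inv_one, mul_inv_cancel, inv_mul_cancel]
  have d_11x : x * y * y * x * y * y * x * (1 * (x * y * y * x * y * y * x))⁻¹ = 1 := by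
    simp only [mul_assoc, mul_inv_rev, inv_inv, mul_inv_cancel_left, inv_mul_cancel_left, mul_one, one_mul, inv_one, mul_inv_cancel, inv_mul_cancel]
  have d_11y : x * y * y * x * y * y * y * (1 * (x * y * y * x * y * y * y))⁻¹ = 1 := by
    simp only [mul_assoc, mul_inv_rev, inv_inv, mul_inv_cancel_left, inv_mul_cancel_left, mul_one, one_mul, inv_one, mul_inv_cancel, inv_mul_cancel]
  have d_12x : x * y * y * y * x * y * x * (1 * (x * y * y * y * x * y * x))⁻¹ = 1 := by
    simp only [mul_assoc, mul_inv_rev, inv_inv, mul_inv_cancel_left, inv_mul_cancel_left, mul_one, one_mul, inv_one, mul_inv_cancel, inv_mul_cancel]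
  have d_13y : x * y * y * y * y * x * y * (1 * (x * y * y * y * y * x * y))⁻¹ = 1 := by
    simp only [mul_assoc, mul_inv_rev, inv_inv, mul_inv_cancel_left, inv_mul_cancel_left, mul_one, one_mul, inv_one, mul_inv_cancel, inv_mul_cancel]
  have d_15x : x * y * y * x * y * y * y * x * (1 * (x * y * y * x * y * y * y * x))⁻¹ = 1 := by
    simp only [mul_assoc, mul_inv_rev, inv_inv, mul_inv_cancel_left, inv_mul_cancel_left, mul_one, one_mul, inv_one, mul_inv_cancel, inv_mul_cancel]
  have d_15y : x * y * y * x * y * y * y * y * (1 * (x * y * y * x * y * y * y * y))⁻¹ = 1 := by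
    simp only [mul_assoc, mul_inv_rev, inv_inv, mul_inv_cancel_left, inv_mul_cancel_left, mul_one, one_mul, inv_one, mul_inv_cancel, inv_mul_cancel]
  have d_17x : x * y * y * y * y * x * y * x * (1 * (x * y * y * y * y * x * y * x))⁻¹ = 1 := by
    simp only [mul_assoc, mul_inv_rev, inv_inv, mul_inv_cancel_left, inv_mul_cancel_left, mul_one, one_mul, inv_one, mul_inv_cancel, inv_mul_cancel]
  have d_17y : x * y * y * y * y * x * y * y * (1 * (x * y * y * y * y * x * y * y))⁻¹ = 1 := by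
    simp only [mul_assoc, mul_inv_rev, inv_inv, mul_inv_cancel_left, inv_mul_cancel_left, mul_one, one_mul, inv_one, mul_inv_cancel, inv_mul_cancel]
  have d_19x : x * y * y * x * y * y * y * y * x * (1 * (x * y * y * x * y * y * y * y * x))⁻¹ = 1 := by
    simp only [mul_assoc, mul_inv_rev, inv_inv, mul_inv_cancel_left, inv_mul_cancel_left, mul_one, one_mul, inv_one, mul_inv_cancel, inv_mul_cancel]
  have d_21x : x * y * y * y * y * x * y * y * x * (1 * (x * y * y * y * y * x * y * y * x))⁻¹ = 1 := by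
    simp only [mul_assoc, mul_inv_rev, inv_inv, mul_inv_cancel_left, inv_mul_cancel_left, mul_one, one_mul, inv_one, mul_inv_cancel, inv_mul_cancel]
  have d_0y : 1 * y * (y * (1))⁻¹ = 1 := by
    simp only [mul_assoc, mul_inv_rev, inv_inv, mul_inv_cancel_left, inv_mul_cancel_left, mul_one, one_mul, inv_one, mul_inv_cancel, inv_mul_cancel]
  have d_1x : x * x * (1 * (1))⁻¹ = 1 := by
    calc x * x * (1 * (1))⁻¹
        = (1)⁻¹
          * ((1 * (1 * x * (1 * (x))⁻¹) * (1)⁻¹))⁻¹
          * (1 * (x * x) * (1)⁻¹)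
          * 1 := by
          simp only [mul_assoc, mul_inv_rev, inv_inv, mul_inv_cancel_left, inv_mul_cancel_left, mul_one, one_mul, inv_one, mul_inv_cancel, inv_mul_cancel]
      _ = 1 := by
        rw [hR0, d_0x]
        simp only [mul_assoc, mul_inv_rev, inv_inv, mul_inv_cancel_left, inv_mul_cancel_left, mul_one, one_mul, inv_one, mul_inv_cancel, inv_mul_cancel]
  have d_3y : x * y * x * y * (y⁻¹ * (x))⁻¹ = 1 := by
    calc x * y * x * y * (y⁻¹ * (x))⁻¹
        = (1)⁻¹
          * ((1 * (1 * x * (1 * (x))⁻¹) * (1)⁻¹) * (1 * (x * y * (1 * (x * y))⁻¹) * (1)⁻¹) * (1 * (x * y * x * (1 * (x * y * x))⁻¹) * (1)⁻¹))⁻¹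
          * (1 * (x * y * x * y * x * y) * (1)⁻¹)
          * ((y⁻¹ * (x * x * (1 * (1))⁻¹) * (y⁻¹)⁻¹) * (y⁻¹ * (1 * y * (y * (1))⁻¹) * (y⁻¹)⁻¹))⁻¹
          * 1 := by
          simp only [mul_assoc, mul_inv_rev, inv_inv, mul_inv_cancel_left, inv_mul_cancel_left, mul_one, one_mul, inv_one, mul_inv_cancel, inv_mul_cancel]
      _ = 1 := by
        rw [hR2, d_0x, d_1y, d_2x, d_1x, d_0y]
        simp only [mul_assoc, mul_inv_rev, inv_inv, mul_inv_cancel_left, inv_mul_cancel_left, mul_one, one_mul, inv_one, mul_inv_cancel, inv_mul_cancel]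
  have d_3x : x * y * x * x * (1 * (x * y))⁻¹ = 1 := by
    calc x * y * x * x * (1 * (x * y))⁻¹
        = (1)⁻¹
          * ((1 * (x * y * x * (1 * (x * y * x))⁻¹) * (1)⁻¹))⁻¹
          * (x * y * (x * x) * (x * y)⁻¹)
          * 1 := by
          simp only [mul_assoc, mul_inv_rev, inv_inv, mul_inv_cancel_left, inv_mul_cancel_left, mul_one, one_mul, inv_one, mul_inv_cancel, inv_mul_cancel]
      _ = 1 := by
        rw [hR0, d_2x]
        simp only [mul_assoc, mul_inv_rev, inv_inv, mul_inv_cancel_left, inv_mul_cancel_left, mul_one, one_mul, inv_one, mul_inv_cancel, inv_mul_cancel]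
  have d_10y : x * y * y * x * y * x * y * (1 * (x * y * x))⁻¹ = 1 := by
    calc x * y * y * x * y * x * y * (1 * (x * y * x))⁻¹
        = (1)⁻¹
          * ((1 * (x * y * x * x * (1 * (x * y))⁻¹) * (1)⁻¹) * (1 * (x * y * y * (1 * (x * y * y))⁻¹) * (1)⁻¹) * (1 * (x * y * y * x * (1 * (x * y * y * x))⁻¹) * (1)⁻¹) * (1 * (x * y * y * x * y * (1 * (x * y * y * x * y))⁻¹) * (1)⁻¹) * (1 * (x * y * y * x * y * x * (1 * (x * y * y * x * y * x))⁻¹) * (1)⁻¹))⁻¹
          * (x * y * x * (x * y * x * y * x * y) * (x * y * x)⁻¹)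
          * 1 := by
          simp only [mul_assoc, mul_inv_rev, inv_inv, mul_inv_cancel_left, inv_mul_cancel_left, mul_one, one_mul, inv_one, mul_inv_cancel, inv_mul_cancel]
      _ = 1 := by
        rw [hR2, d_3x, d_2y, d_4x, d_5y, d_7x]
        simp only [mul_assoc, mul_inv_rev, inv_inv, mul_inv_cancel_left, inv_mul_cancel_left, mul_one, one_mul, inv_one, mul_inv_cancel, inv_mul_cancel]
  have d_5x : x * y * y * x * x * (1 * (x * y * y))⁻¹ = 1 := by
    calc x * y * y * x * x * (1 * (x * y * y))⁻¹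
        = (1)⁻¹
          * ((1 * (x * y * y * x * (1 * (x * y * y * x))⁻¹) * (1)⁻¹))⁻¹
          * (x * y * y * (x * x) * (x * y * y)⁻¹)
          * 1 := by
          simp only [mul_assoc, mul_inv_rev, inv_inv, mul_inv_cancel_left, inv_mul_cancel_left, mul_one, one_mul, inv_one, mul_inv_cancel, inv_mul_cancel]
      _ = 1 := by
        rw [hR0, d_4x]
        simp only [mul_assoc, mul_inv_rev, inv_inv, mul_inv_cancel_left, inv_mul_cancel_left, mul_one, one_mul, inv_one, mul_inv_cancel, inv_mul_cancel]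
  have d_9y : x * y * y * y * y * y * (y * (x * y * y * x * y * x))⁻¹ = 1 := by
    calc x * y * y * y * y * y * (y * (x * y * y * x * y * x))⁻¹
        = (1)⁻¹
          * ((1 * (x * y * y * y * (1 * (x * y * y * y))⁻¹) * (1)⁻¹) * (1 * (x * y * y * y * y * (1 * (x * y * y * y * y))⁻¹) * (1)⁻¹))⁻¹
          * (x * y * y * (y * y * y * y * y * y * y) * (x * y * y)⁻¹)
          * ((y * (x * y * y * x * y * x * y * (1 * (x * y * x))⁻¹) * (y)⁻¹) * (y * (x * y * x * y * (y⁻¹ * (x))⁻¹) * (y)⁻¹) * (1 * (x * y * (1 * (x * y))⁻¹) * (1)⁻¹) * (1 * (x * y * y * (1 * (x * y * y))⁻¹) * (1)⁻¹))⁻¹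
          * 1 := by
          simp only [mul_assoc, mul_inv_rev, inv_inv, mul_inv_cancel_left, inv_mul_cancel_left, mul_one, one_mul, inv_one, mul_inv_cancel, inv_mul_cancel]
      _ = 1 := by
        rw [hR1, d_4y, d_6y, d_10y, d_3y, d_1y, d_2y]
        simp only [mul_assoc, mul_inv_rev, inv_inv, mul_inv_cancel_left, inv_mul_cancel_left, mul_one, one_mul, inv_one, mul_inv_cancel, inv_mul_cancel]
  have d_16y : x * y * y * y * x * y * x * y * (1 * (x * y * y * x))⁻¹ = 1 := by
    calc x * y * y * y * x * y * x * y * (1 * (x * y * y * x))⁻¹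
        = (1)⁻¹
          * ((1 * (x * y * y * x * x * (1 * (x * y * y))⁻¹) * (1)⁻¹) * (1 * (x * y * y * y * (1 * (x * y * y * y))⁻¹) * (1)⁻¹) * (1 * (x * y * y * y * x * (1 * (x * y * y * y * x))⁻¹) * (1)⁻¹) * (1 * (x * y * y * y * x * y * (1 * (x * y * y * y * x * y))⁻¹) * (1)⁻¹) * (1 * (x * y * y * y * x * y * x * (1 * (x * y * y * y * x * y * x))⁻¹) * (1)⁻¹))⁻¹
          * (x * y * y * x * (x * y * x * y * x * y) * (x * y * y * x)⁻¹)
          * 1 := by
          simp only [mul_assoc, mul_inv_rev, inv_inv, mul_inv_cancel_left, inv_mul_cancel_left, mul_one, one_mul, inv_one, mul_inv_cancel, inv_mul_cancel]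
      _ = 1 := by
        rw [hR2, d_5x, d_4y, d_6x, d_8y, d_12x]
        simp only [mul_assoc, mul_inv_rev, inv_inv, mul_inv_cancel_left, inv_mul_cancel_left, mul_one, one_mul, inv_one, mul_inv_cancel, inv_mul_cancel]
  have d_8x : x * y * y * y * x * x * (1 * (x * y * y * y))⁻¹ = 1 := by
    calc x * y * y * y * x * x * (1 * (x * y * y * y))⁻¹
        = (1)⁻¹
          * ((1 * (x * y * y * y * x * (1 * (x * y * y * y * x))⁻¹) * (1)⁻¹))⁻¹
          * (x * y * y * y * (x * x) * (x * y * y * y)⁻¹)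
          * 1 := by
          simp only [mul_assoc, mul_inv_rev, inv_inv, mul_inv_cancel_left, inv_mul_cancel_left, mul_one, one_mul, inv_one, mul_inv_cancel, inv_mul_cancel]
      _ = 1 := by
        rw [hR0, d_6x]
        simp only [mul_assoc, mul_inv_rev, inv_inv, mul_inv_cancel_left, inv_mul_cancel_left, mul_one, one_mul, inv_one, mul_inv_cancel, inv_mul_cancel]
  have d_10x : x * y * y * x * y * x * x * (1 * (x * y * y * x * y))⁻¹ = 1 := by
    calc x * y * y * x * y * x * x * (1 * (x * y * y * x * y))⁻¹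
        = (1)⁻¹
          * ((1 * (x * y * y * x * y * x * (1 * (x * y * y * x * y * x))⁻¹) * (1)⁻¹))⁻¹
          * (x * y * y * x * y * (x * x) * (x * y * y * x * y)⁻¹)
          * 1 := by
          simp only [mul_assoc, mul_inv_rev, inv_inv, mul_inv_cancel_left, inv_mul_cancel_left, mul_one, one_mul, inv_one, mul_inv_cancel, inv_mul_cancel]
      _ = 1 := by
        rw [hR0, d_7x]
        simp only [mul_assoc, mul_inv_rev, inv_inv, mul_inv_cancel_left, inv_mul_cancel_left, mul_one, one_mul, inv_one, mul_inv_cancel, inv_mul_cancel]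
  have d_20y : x * y * y * y * y * x * y * x * y * (1 * (x * y * y * y * x))⁻¹ = 1 := by
    calc x * y * y * y * y * x * y * x * y * (1 * (x * y * y * y * x))⁻¹
        = (1)⁻¹
          * ((1 * (x * y * y * y * x * x * (1 * (x * y * y * y))⁻¹) * (1)⁻¹) * (1 * (x * y * y * y * y * (1 * (x * y * y * y * y))⁻¹) * (1)⁻¹) * (1 * (x * y * y * y * y * x * (1 * (x * y * y * y * y * x))⁻¹) * (1)⁻¹) * (1 * (x * y * y * y * y * x * y * (1 * (x * y * y * y * y * x * y))⁻¹) * (1)⁻¹) * (1 * (x * y * y * y * y * x * y * x * (1 * (x * y * y * y * y * x * y * x))⁻¹) * (1)⁻¹))⁻¹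
          * (x * y * y * y * x * (x * y * x * y * x * y) * (x * y * y * y * x)⁻¹)
          * 1 := by
          simp only [mul_assoc, mul_inv_rev, inv_inv, mul_inv_cancel_left, inv_mul_cancel_left, mul_one, one_mul, inv_one, mul_inv_cancel, inv_mul_cancel]
      _ = 1 := by
        rw [hR2, d_8x, d_6y, d_9x, d_13y, d_17x]
        simp only [mul_assoc, mul_inv_rev, inv_inv, mul_inv_cancel_left, inv_mul_cancel_left, mul_one, one_mul, inv_one, mul_inv_cancel, inv_mul_cancel]
  have d_13x : x * y * y * y * y * x * x * (1 * (x * y * y * y * y))⁻¹ = 1 := by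
    calc x * y * y * y * y * x * x * (1 * (x * y * y * y * y))⁻¹
        = (1)⁻¹
          * ((1 * (x * y * y * y * y * x * (1 * (x * y * y * y * y * x))⁻¹) * (1)⁻¹))⁻¹
          * (x * y * y * y * y * (x * x) * (x * y * y * y * y)⁻¹)
          * 1 := by
          simp only [mul_assoc, mul_inv_rev, inv_inv, mul_inv_cancel_left, inv_mul_cancel_left, mul_one, one_mul, inv_one, mul_inv_cancel, inv_mul_cancel]
      _ = 1 := by
        rw [hR0, d_9x]
        simp only [mul_assoc, mul_inv_rev, inv_inv, mul_inv_cancel_left, inv_mul_cancel_left, mul_one, one_mul, inv_one, mul_inv_cancel, inv_mul_cancel]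
  have d_14y : x * y * y * x * y * y * x * y * (y⁻¹ * (x * y * y * y * y * x))⁻¹ = 1 := by
    calc x * y * y * x * y * y * x * y * (y⁻¹ * (x * y * y * y * y * x))⁻¹
        = (1)⁻¹
          * ((1 * (x * y * y * x * y * x * x * (1 * (x * y * y * x * y))⁻¹) * (1)⁻¹) * (1 * (x * y * y * x * y * y * (1 * (x * y * y * x * y * y))⁻¹) * (1)⁻¹) * (1 * (x * y * y * x * y * y * x * (1 * (x * y * y * x * y * y * x))⁻¹) * (1)⁻¹))⁻¹
          * (x * y * y * x * y * x * (x * y * x * y * x * y) * (x * y * y * x * y * x)⁻¹)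
          * ((y⁻¹ * (x * y * y * y * y * x * x * (1 * (x * y * y * y * y))⁻¹) * (y⁻¹)⁻¹) * (y⁻¹ * (x * y * y * y * y * y * (y * (x * y * y * x * y * x))⁻¹) * (y⁻¹)⁻¹))⁻¹
          * 1 := by
          simp only [mul_assoc, mul_inv_rev, inv_inv, mul_inv_cancel_left, inv_mul_cancel_left, mul_one, one_mul, inv_one, mul_inv_cancel, inv_mul_cancel]
      _ = 1 := by
        rw [hR2, d_10x, d_7y, d_11x, d_13x, d_9y]
        simp only [mul_assoc, mul_inv_rev, inv_inv, mul_inv_cancel_left, inv_mul_cancel_left, mul_one, one_mul, inv_one, mul_inv_cancel, inv_mul_cancel]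
  have d_14x : x * y * y * x * y * y * x * x * (1 * (x * y * y * x * y * y))⁻¹ = 1 := by
    calc x * y * y * x * y * y * x * x * (1 * (x * y * y * x * y * y))⁻¹
        = (1)⁻¹
          * ((1 * (x * y * y * x * y * y * x * (1 * (x * y * y * x * y * y * x))⁻¹) * (1)⁻¹))⁻¹
          * (x * y * y * x * y * y * (x * x) * (x * y * y * x * y * y)⁻¹)
          * 1 := by
          simp only [mul_assoc, mul_inv_rev, inv_inv, mul_inv_cancel_left, inv_mul_cancel_left, mul_one, one_mul, inv_one, mul_inv_cancel, inv_mul_cancel]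
      _ = 1 := by
        rw [hR0, d_11x]
        simp only [mul_assoc, mul_inv_rev, inv_inv, mul_inv_cancel_left, inv_mul_cancel_left, mul_one, one_mul, inv_one, mul_inv_cancel, inv_mul_cancel]
  have d_16x : x * y * y * y * x * y * x * x * (1 * (x * y * y * y * x * y))⁻¹ = 1 := by
    calc x * y * y * y * x * y * x * x * (1 * (x * y * y * y * x * y))⁻¹
        = (1)⁻¹
          * ((1 * (x * y * y * y * x * y * x * (1 * (x * y * y * y * x * y * x))⁻¹) * (1)⁻¹))⁻¹
          * (x * y * y * y * x * y * (x * x) * (x * y * y * y * x * y)⁻¹)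
          * 1 := by
          simp only [mul_assoc, mul_inv_rev, inv_inv, mul_inv_cancel_left, inv_mul_cancel_left, mul_one, one_mul, inv_one, mul_inv_cancel, inv_mul_cancel]
      _ = 1 := by
        rw [hR0, d_12x]
        simp only [mul_assoc, mul_inv_rev, inv_inv, mul_inv_cancel_left, inv_mul_cancel_left, mul_one, one_mul, inv_one, mul_inv_cancel, inv_mul_cancel]
  have d_18x : x * y * y * x * y * y * y * x * x * (1 * (x * y * y * x * y * y * y))⁻¹ = 1 := by
    calc x * y * y * x * y * y * y * x * x * (1 * (x * y * y * x * y * y * y))⁻¹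
        = (1)⁻¹
          * ((1 * (x * y * y * x * y * y * y * x * (1 * (x * y * y * x * y * y * y * x))⁻¹) * (1)⁻¹))⁻¹
          * (x * y * y * x * y * y * y * (x * x) * (x * y * y * x * y * y * y)⁻¹)
          * 1 := by
          simp only [mul_assoc, mul_inv_rev, inv_inv, mul_inv_cancel_left, inv_mul_cancel_left, mul_one, one_mul, inv_one, mul_inv_cancel, inv_mul_cancel]
      _ = 1 := by
        rw [hR0, d_15x]
        simp only [mul_assoc, mul_inv_rev, inv_inv, mul_inv_cancel_left, inv_mul_cancel_left, mul_one, one_mul, inv_one, mul_inv_cancel, inv_mul_cancel]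
  have d_21y : x * y * y * y * y * x * y * y * y * ((y⁻¹ * y⁻¹ * y⁻¹ * y⁻¹) * (x * y * y * y * y * x * y * x))⁻¹ = 1 := by
    calc x * y * y * y * y * x * y * y * y * ((y⁻¹ * y⁻¹ * y⁻¹ * y⁻¹) * (x * y * y * y * y * x * y * x))⁻¹
        = ((y * y * y * y))⁻¹
          * ((1 * (x * y * y * y * x * y * x * y * (1 * (x * y * y * x))⁻¹) * (1)⁻¹) * (1 * (x * y * y * x * x * (1 * (x * y * y))⁻¹) * (1)⁻¹) * (1 * (x * y * y * y * (1 * (x * y * y * y))⁻¹) * (1)⁻¹) * (1 * (x * y * y * y * y * (1 * (x * y * y * y * y))⁻¹) * (1)⁻¹) * (1 * (x * y * y * y * y * y * (y * (x * y * y * x * y * x))⁻¹) * (1)⁻¹) * (y * (x * y * y * x * y * x * y * (1 * (x * y * x))⁻¹) * (y)⁻¹) * (y * (x * y * x * y * (y⁻¹ * (x))⁻¹) * (y)⁻¹) * (1 * (x * y * (1 * (x * y))⁻¹) * (1)⁻¹) * (1 * (x * y * x * (1 * (x * y * x))⁻¹) * (1)⁻¹) * (1 * (x * y * x * y * (y⁻¹ * (x))⁻¹) * (1)⁻¹) * (y⁻¹ * (x * x * (1 * (1))⁻¹) * (y⁻¹)⁻¹) * (y⁻¹ * (1 * y * (y * (1))⁻¹) * (y⁻¹)⁻¹) * (1 * (1 * y * (y * (1))⁻¹) * (1)⁻¹)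 * (y * (1 * y * (y * (1))⁻¹) * (y)⁻¹) * ((y * y) * (1 * y * (y * (1))⁻¹) * ((y * y))⁻¹) * ((y * y * y) * (1 * y * (y * (1))⁻¹) * ((y * y * y))⁻¹) * ((y * y * y * y) * (1 * y * (y * (1))⁻¹) * ((y * y * y * y))⁻¹) * ((y * y * y * y * y) * (1 * x * (1 * (x))⁻¹) * ((y * y * y * y * y))⁻¹) * ((y * y * y * y * y) * (x * y * (1 * (x * y))⁻¹) * ((y * y * y * y * y))⁻¹) * ((y * y * y * y * y) * (x * y * x * (1 * (x * y * x))⁻¹) * ((y * y * y * y * y))⁻¹) * ((y * y * y * y * y) * (x * y * x * y * (y⁻¹ * (x))⁻¹) * ((y * y * y * y * y))⁻¹) * ((y * y * y * y) * (x * y * (1 * (x * y))⁻¹) * ((y * y * y * y))⁻¹) * ((y * y * y * y) * (x * y * y * (1 * (x * y * y))⁻¹) * ((y * y * y * y))⁻¹) * ((y * y * y * y) * (x * y * y * y * (1 * (x * y * y * y))⁻¹) * ((y * y * y * y))⁻¹) * ((y * y * y * y) * (x * y * y * y * y * (1 * (x * y * y * y * y))⁻¹) * ((y * y * y * y))⁻¹) * ((y * y * y * y) * (x * y * y * y * y * y * (y * (x * y * y * x * y * x))⁻¹) * ((y * y * y * y))⁻¹) * ((y *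 y * y * y * y) * (x * y * y * x * y * x * x * (1 * (x * y * y * x * y))⁻¹) * ((y * y * y * y * y))⁻¹) * ((y * y * y * y * y) * (x * y * y * x * y * y * (1 * (x * y * y * x * y * y))⁻¹) * ((y * y * y * y * y))⁻¹) * ((y * y * y * y * y) * (x * y * y * x * y * y * x * (1 * (x * y * y * x * y * y * x))⁻¹) * ((y * y * y * y * y))⁻¹) * ((y * y * y * y * y) * (x * y * y * x * y * y * x * y * (y⁻¹ * (x * y * y * y * y * x))⁻¹) * ((y * y * y * y * y))⁻¹) * ((y * y * y * y) * (x * y * y * y * y * x * y * (1 * (x * y * y * y * y * x * y))⁻¹) * ((y * y * y * y))⁻¹) * ((y * y * y * y) * (x * y * y * y * y * x * y * y * (1 * (x * y * y * y * y * x * y * y))⁻¹) * ((y * y * y * y))⁻¹))⁻¹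
          * (x * y * y * y * x * y * x * (y * x * y * y * y * y * y * y * x * y * x * y * y * y * y * y * y * x * y * x * y * y * y * y * y * y * x * y * x * y * y * y * y * y * y * x) * (x * y * y * y * x * y * x)⁻¹)
          * ((1 * (x * y * y * y * y * x * y * x * y * (1 * (x * y * y * y * x))⁻¹) * (1)⁻¹) * (1 * (x * y * y * y * x * y * (1 * (x * y * y * y * x * y))⁻¹) * (1)⁻¹) * (1 * (x * y * y * y * x * y * x * (1 * (x * y * y * y * x * y * x))⁻¹) * (1)⁻¹))⁻¹
          * (y * y * y * y) := by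
          simp only [mul_assoc, mul_inv_rev, inv_inv, mul_inv_cancel_left, inv_mul_cancel_left, mul_one, one_mul, inv_one, mul_inv_cancel, inv_mul_cancel]
      _ = 1 := by
        rw [hR3, d_16y, d_5x, d_4y, d_6y, d_9y, d_10y, d_3y, d_1y, d_2x, d_1x, d_0y, d_0x, d_2y, d_10x, d_7y, d_11x, d_14y, d_13y, d_17y, d_20y, d_8y, d_12x]
        simp only [mul_assoc, mul_inv_rev, inv_inv, mul_inv_cancel_left, inv_mul_cancel_left, mul_one, one_mul, inv_one, mul_inv_cancel, inv_mul_cancel]
  have d_20x : x * y * y * y * y * x * y * x * x * (1 * (x * y * y * y * y * x * y))⁻¹ = 1 := by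
    calc x * y * y * y * y * x * y * x * x * (1 * (x * y * y * y * y * x * y))⁻¹
        = (1)⁻¹
          * ((1 * (x * y * y * y * y * x * y * x * (1 * (x * y * y * y * y * x * y * x))⁻¹) * (1)⁻¹))⁻¹
          * (x * y * y * y * y * x * y * (x * x) * (x * y * y * y * y * x * y)⁻¹)
          * 1 := by
          simp only [mul_assoc, mul_inv_rev, inv_inv, mul_inv_cancel_left, inv_mul_cancel_left, mul_one, one_mul, inv_one, mul_inv_cancel, inv_mul_cancel]
      _ = 1 := by
        rw [hR0, d_17x]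
        simp only [mul_assoc, mul_inv_rev, inv_inv, mul_inv_cancel_left, inv_mul_cancel_left, mul_one, one_mul, inv_one, mul_inv_cancel, inv_mul_cancel]
  have d_12y : x * y * y * y * x * y * y * ((y * y * y * y * y) * (x * y * y * x * y * y * x))⁻¹ = 1 := by
    calc x * y * y * y * x * y * y * ((y * y * y * y * y) * (x * y * y * x * y * y * x))⁻¹
        = ((y⁻¹ * y⁻¹ * y⁻¹ * y⁻¹))⁻¹
          * ((1 * (x * y * y * y * y * x * y * y * (1 * (x * y * y * y * y * x * y * y))⁻¹) * (1)⁻¹) * (1 * (x * y * y * y * y * x * y * y * y * ((y⁻¹ * y⁻¹ * y⁻¹ * y⁻¹) * (x * y * y * y * y * x * y * x))⁻¹) * (1)⁻¹) * ((y⁻¹ * y⁻¹ * y⁻¹ * y⁻¹) * (x * y * y * y * y * x * y * x * y * (1 * (x * y * y * y * x))⁻¹) * ((y⁻¹ * y⁻¹ * y⁻¹ * y⁻¹))⁻¹) * ((y⁻¹ * y⁻¹ * y⁻¹ * y⁻¹) * (x * y * y * y * x * y * (1 * (x * y * y * y * x * y))⁻¹) * ((y⁻¹ * y⁻¹ * y⁻¹ * y⁻¹))⁻¹))⁻¹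
          * (x * y * y * y * y * x * y * (y * y * y * y * y * y * y) * (x * y * y * y * y * x * y)⁻¹)
          * ((y * (x * y * y * x * y * y * x * y * (y⁻¹ * (x * y * y * y * y * x))⁻¹) * (y)⁻¹) * (1 * (x * y * y * y * y * x * y * (1 * (x * y * y * y * y * x * y))⁻¹) * (1)⁻¹))⁻¹
          * (y⁻¹ * y⁻¹ * y⁻¹ * y⁻¹) := by
          simp only [mul_assoc, mul_inv_rev, inv_inv, mul_inv_cancel_left, inv_mul_cancel_left, mul_one, one_mul, inv_one, mul_inv_cancel, inv_mul_cancel]
      _ = 1 := by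
        rw [hR1, d_17y, d_21y, d_20y, d_8y, d_14y, d_13y]
        simp only [mul_assoc, mul_inv_rev, inv_inv, mul_inv_cancel_left, inv_mul_cancel_left, mul_one, one_mul, inv_one, mul_inv_cancel, inv_mul_cancel]
  have d_22x : x * y * y * x * y * y * y * y * x * x * (1 * (x * y * y * x * y * y * y * y))⁻¹ = 1 := by
    calc x * y * y * x * y * y * y * y * x * x * (1 * (x * y * y * x * y * y * y * y))⁻¹
        = (1)⁻¹
          * ((1 * (x * y * y * x * y * y * y * y * x * (1 * (x * y * y * x * y * y * y * y * x))⁻¹) * (1)⁻¹))⁻¹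
          * (x * y * y * x * y * y * y * y * (x * x) * (x * y * y * x * y * y * y * y)⁻¹)
          * 1 := by
          simp only [mul_assoc, mul_inv_rev, inv_inv, mul_inv_cancel_left, inv_mul_cancel_left, mul_one, one_mul, inv_one, mul_inv_cancel, inv_mul_cancel]
      _ = 1 := by
        rw [hR0, d_19x]
        simp only [mul_assoc, mul_inv_rev, inv_inv, mul_inv_cancel_left, inv_mul_cancel_left, mul_one, one_mul, inv_one, mul_inv_cancel, inv_mul_cancel]
  have d_23x : x * y * y * y * y * x * y * y * x * x * (1 * (x * y * y * y * y * x * y * y))⁻¹ = 1 := by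
    calc x * y * y * y * y * x * y * y * x * x * (1 * (x * y * y * y * y * x * y * y))⁻¹
        = (1)⁻¹
          * ((1 * (x * y * y * y * y * x * y * y * x * (1 * (x * y * y * y * y * x * y * y * x))⁻¹) * (1)⁻¹))⁻¹
          * (x * y * y * y * y * x * y * y * (x * x) * (x * y * y * y * y * x * y * y)⁻¹)
          * 1 := by
          simp only [mul_assoc, mul_inv_rev, inv_inv, mul_inv_cancel_left, inv_mul_cancel_left, mul_one, one_mul, inv_one, mul_inv_cancel, inv_mul_cancel]
      _ = 1 := by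
        rw [hR0, d_21x]
        simp only [mul_assoc, mul_inv_rev, inv_inv, mul_inv_cancel_left, inv_mul_cancel_left, mul_one, one_mul, inv_one, mul_inv_cancel, inv_mul_cancel]
  have d_23y : x * y * y * y * y * x * y * y * x * y * ((y * y * y * y) * (x * y * y * y * y * x * y * y * x))⁻¹ = 1 := by
    calc x * y * y * y * y * x * y * y * x * y * ((y * y * y * y) * (x * y * y * y * y * x * y * y * x))⁻¹
        = (1)⁻¹
          * ((1 * (x * y * y * y * y * x * y * y * x * (1 * (x * y * y * y * y * x * y * y * x))⁻¹) * (1)⁻¹))⁻¹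
          * (x * y * y * y * y * x * y * y * (x * y * x * y * x * y) * (x * y * y * y * y * x * y * y)⁻¹)
          * (((y * y * y * y) * (x * y * y * y * y * x * y * y * x * x * (1 * (x * y * y * y * y * x * y * y))⁻¹) * ((y * y * y * y))⁻¹) * ((y * y * y * y) * (x * y * y * y * y * x * y * y * y * ((y⁻¹ * y⁻¹ * y⁻¹ * y⁻¹) * (x * y * y * y * y * x * y * x))⁻¹) * ((y * y * y * y))⁻¹) * (1 * (x * y * y * y * y * x * y * x * x * (1 * (x * y * y * y * y * x * y))⁻¹) * (1)⁻¹) * (1 * (x * y * y * y * y * x * y * y * (1 * (x * y * y * y * y * x * y * y))⁻¹) * (1)⁻¹))⁻¹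
          * 1 := by
          simp only [mul_assoc, mul_inv_rev, inv_inv, mul_inv_cancel_left, inv_mul_cancel_left, mul_one, one_mul, inv_one, mul_inv_cancel, inv_mul_cancel]
      _ = 1 := by
        rw [hR2, d_21x, d_23x, d_21y, d_20x, d_17y]
        simp only [mul_assoc, mul_inv_rev, inv_inv, mul_inv_cancel_left, inv_mul_cancel_left, mul_one, one_mul, inv_one, mul_inv_cancel, inv_mul_cancel]
  have d_18y : x * y * y * x * y * y * y * x * y * ((y⁻¹ * y⁻¹ * y⁻¹ * y⁻¹ * y⁻¹) * (x * y * y * y * x * y * x))⁻¹ = 1 := by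
    calc x * y * y * x * y * y * y * x * y * ((y⁻¹ * y⁻¹ * y⁻¹ * y⁻¹ * y⁻¹) * (x * y * y * y * x * y * x))⁻¹
        = (1)⁻¹
          * ((1 * (x * y * y * x * y * y * x * x * (1 * (x * y * y * x * y * y))⁻¹) * (1)⁻¹) * (1 * (x * y * y * x * y * y * y * (1 * (x * y * y * x * y * y * y))⁻¹) * (1)⁻¹) * (1 * (x * y * y * x * y * y * y * x * (1 * (x * y * y * x * y * y * y * x))⁻¹) * (1)⁻¹))⁻¹
          * (x * y * y * x * y * y * x * (x * y * x * y * x * y) * (x * y * y * x * y * y * x)⁻¹)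
          * (((y⁻¹ * y⁻¹ * y⁻¹ * y⁻¹ * y⁻¹) * (x * y * y * y * x * y * x * x * (1 * (x * y * y * y * x * y))⁻¹) * ((y⁻¹ * y⁻¹ * y⁻¹ * y⁻¹ * y⁻¹))⁻¹) * ((y⁻¹ * y⁻¹ * y⁻¹ * y⁻¹ * y⁻¹) * (x * y * y * y * x * y * y * ((y * y * y * y * y) * (x * y * y * x * y * y * x))⁻¹) * ((y⁻¹ * y⁻¹ * y⁻¹ * y⁻¹ * y⁻¹))⁻¹))⁻¹
          * 1 := by
          simp only [mul_assoc, mul_inv_rev, inv_inv, mul_inv_cancel_left, inv_mul_cancel_left, mul_one, one_mul, inv_one, mul_inv_cancel, inv_mul_cancel]
      _ = 1 := by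
        rw [hR2, d_14x, d_11y, d_15x, d_16x, d_12y]
        simp only [mul_assoc, mul_inv_rev, inv_inv, mul_inv_cancel_left, inv_mul_cancel_left, mul_one, one_mul, inv_one, mul_inv_cancel, inv_mul_cancel]
  have d_19y : x * y * y * x * y * y * y * y * y * ((y * y * y * y * y) * (x * y * y * x * y * y * y * x))⁻¹ = 1 := by
    calc x * y * y * x * y * y * y * y * y * ((y * y * y * y * y) * (x * y * y * x * y * y * y * x))⁻¹
        = (1)⁻¹
          * ((1 * (x * y * y * x * y * y * y * y * (1 * (x * y * y * x * y * y * y * y))⁻¹) * (1)⁻¹))⁻¹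
          * (x * y * y * x * y * y * y * (y * y * y * y * y * y * y) * (x * y * y * x * y * y * y)⁻¹)
          * (((y * y * y * y * y) * (x * y * y * x * y * y * y * x * y * ((y⁻¹ * y⁻¹ * y⁻¹ * y⁻¹ * y⁻¹) * (x * y * y * y * x * y * x))⁻¹) * ((y * y * y * y * y))⁻¹) * (1 * (x * y * y * y * x * y * x * y * (1 * (x * y * y * x))⁻¹) * (1)⁻¹) * (1 * (x * y * y * x * y * (1 * (x * y * y * x * y))⁻¹) * (1)⁻¹) * (1 * (x * y * y * x * y * y * (1 * (x * y * y * x * y * y))⁻¹) * (1)⁻¹) * (1 * (x * y * y * x * y * y * y * (1 * (x * y * y * x * y * y * y))⁻¹) * (1)⁻¹))⁻¹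
          * 1 := by
          simp only [mul_assoc, mul_inv_rev, inv_inv, mul_inv_cancel_left, inv_mul_cancel_left, mul_one, one_mul, inv_one, mul_inv_cancel, inv_mul_cancel]
      _ = 1 := by
        rw [hR1, d_15y, d_18y, d_16y, d_5y, d_7y, d_11y]
        simp only [mul_assoc, mul_inv_rev, inv_inv, mul_inv_cancel_left, inv_mul_cancel_left, mul_one, one_mul, inv_one, mul_inv_cancel, inv_mul_cancel]
  have d_22y : x * y * y * x * y * y * y * y * x * y * ((y⁻¹ * y⁻¹ * y⁻¹ * y⁻¹ * y⁻¹) * (x * y * y * x * y * y * y * y * x))⁻¹ = 1 := by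
    calc x * y * y * x * y * y * y * y * x * y * ((y⁻¹ * y⁻¹ * y⁻¹ * y⁻¹ * y⁻¹) * (x * y * y * x * y * y * y * y * x))⁻¹
        = (1)⁻¹
          * ((1 * (x * y * y * x * y * y * y * x * x * (1 * (x * y * y * x * y * y * y))⁻¹) * (1)⁻¹) * (1 * (x * y * y * x * y * y * y * y * (1 * (x * y * y * x * y * y * y * y))⁻¹) * (1)⁻¹) * (1 * (x * y * y * x * y * y * y * y * x * (1 * (x * y * y * x * y * y * y * y * x))⁻¹) * (1)⁻¹))⁻¹
          * (x * y * y * x * y * y * y * x * (x * y * x * y * x * y) * (x * y * y * x * y * y * y * x)⁻¹)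
          * (((y⁻¹ * y⁻¹ * y⁻¹ * y⁻¹ * y⁻¹) * (x * y * y * x * y * y * y * y * x * x * (1 * (x * y * y * x * y * y * y * y))⁻¹) * ((y⁻¹ * y⁻¹ * y⁻¹ * y⁻¹ * y⁻¹))⁻¹) * ((y⁻¹ * y⁻¹ * y⁻¹ * y⁻¹ * y⁻¹) * (x * y * y * x * y * y * y * y * y * ((y * y * y * y * y) * (x * y * y * x * y * y * y * x))⁻¹) * ((y⁻¹ * y⁻¹ * y⁻¹ * y⁻¹ * y⁻¹))⁻¹))⁻¹
          * 1 := by
          simp only [mul_assoc, mul_inv_rev, inv_inv, mul_inv_cancel_left, inv_mul_cancel_left, mul_one, one_mul, inv_one, mul_inv_cancel, inv_mul_cancel]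
      _ = 1 := by
        rw [hR2, d_18x, d_15y, d_19x, d_22x, d_19y]
        simp only [mul_assoc, mul_inv_rev, inv_inv, mul_inv_cancel_left, inv_mul_cancel_left, mul_one, one_mul, inv_one, mul_inv_cancel, inv_mul_cancel]
  obtain ⟨r, hr0, hr1, hr2, hr3, hr4, hr5, hr6, hr7, hr8, hr9, hr10, hr11, hr12, hr13, hr14, hr15, hr16, hr17, hr18, hr19, hr20, hr21, hr22, hr23⟩ :
      ∃ r : ℕ → G, r 0 = 1 ∧ r 1 = x ∧ r 2 = x * y ∧ r 3 = x * y * x ∧ r 4 = x * y * y ∧ r 5 = x * y * y * x ∧ r 6 = x * y * y * y ∧ r 7 = x * y * y * x * y ∧ r 8 = x * y * y * y * x ∧ r 9 = x * y * y * y * y ∧ r 10 = x * y * y * x * y * x ∧ r 11 = x * y * y * x * y * y ∧ r 12 = x * y * y * y * x * y ∧ r 13 = x * y * y * y * y * x ∧ r 14 = x * y * y * x * y * y * x ∧ r 15 = x * y * y * x * y * y * y ∧ r 16 = x * y * y * y * x * y * x ∧ r 17 = x * y * y * y * y * x * y ∧ r 18 = x * y * y * x * y * y * y * x ∧ r 19 = x * y * y * x * y * y * y * y ∧ r 20 = x * y * y * y * y * x * y * x ∧ r 21 = x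 * y * y * y * y * x * y * y ∧ r 22 = x * y * y * x * y * y * y * y * x ∧ r 23 = x * y * y * y * y * x * y * y * x :=
    ⟨fun n => match n with
      | 0 => 1
      | 1 => x
      | 2 => x * y
      | 3 => x * y * x
      | 4 => x * y * y
      | 5 => x * y * y * x
      | 6 => x * y * y * y
      | 7 => x * y * y * x * y
      | 8 => x * y * y * y * x
      | 9 => x * y * y * y * y
      | 10 => x * y * y * x * y * x
      | 11 => x * y * y * x * y * y
      | 12 => x * y * y * y * x * y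
      | 13 => x * y * y * y * y * x
      | 14 => x * y * y * x * y * y * x
      | 15 => x * y * y * x * y * y * y
      | 16 => x * y * y * y * x * y * x
      | 17 => x * y * y * y * y * x * y
      | 18 => x * y * y * x * y * y * y * x
      | 19 => x * y * y * x * y * y * y * y
      | 20 => x * y * y * y * y * x * y * x
      | 21 => x * y * y * y * y * x * y * y
      | 22 => x * y * y * x * y * y * y * y * x
      | 23 => x * y * y * y * y * x * y * y * x
      | _ => 1, rfl, rfl, rfl, rfl, rfl, rfl, rfl, rfl, rfl, rfl, rfl, rfl, rfl, rfl, rfl, rfl, rfl, rfl, rfl, rfl, rfl, rfl, rfl, rfl⟩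
  obtain ⟨H, hH⟩ : ∃ H : Subgroup G, H = Subgroup.zpowers y := ⟨_, rfl⟩
  have hyH : y ∈ H := by
    rw [hH]
    exact Subgroup.mem_zpowers y
  have hyiH : y⁻¹ ∈ H := H.inv_mem hyH
  obtain ⟨T, hT⟩ : ∃ T : G → Prop, ∀ g, T g ↔ ∃ i, i < 24 ∧ ∃ h ∈ H, g = h * r i :=
    ⟨fun g => ∃ i, i < 24 ∧ ∃ h ∈ H, g = h * r i, fun g => Iff.rfl⟩
  have step : ∀ (i j : ℕ) (w g : G), j < 24 → w ∈ H → r i * g = w * r j →
      ∀ h ∈ H, T (h * r i * g) := by
    intro i j w g hj hw heq h hh
    rw [hT]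
    exact ⟨j, hj, h * w, H.mul_mem hh hw, by rw [mul_assoc, heq, ← mul_assoc]⟩
  have hTx : ∀ g, T g → T (g * x) := by
    intro g hg
    rw [hT] at hg
    obtain ⟨i, hi, h, hh, rfl⟩ := hg
    interval_cases i
    · exact step 0 1 1 x (by norm_num) H.one_mem (by rw [hr0, hr1]; first | done | exact mul_inv_eq_one.mp d_0x) h hh
    · exact step 1 0 1 x (by norm_num) H.one_mem (by rw [hr1, hr0]; first | done | exact mul_inv_eq_one.mp d_1x) h hh
    · exact step 2 3 1 x (by norm_num) H.one_mem (by rw [hr2, hr3]; first | done | exact mul_inv_eq_one.mp d_2x) h hh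
    · exact step 3 2 1 x (by norm_num) H.one_mem (by rw [hr3, hr2]; first | done | exact mul_inv_eq_one.mp d_3x) h hh
    · exact step 4 5 1 x (by norm_num) H.one_mem (by rw [hr4, hr5]; first | done | exact mul_inv_eq_one.mp d_4x) h hh
    · exact step 5 4 1 x (by norm_num) H.one_mem (by rw [hr5, hr4]; first | done | exact mul_inv_eq_one.mp d_5x) h hh
    · exact step 6 8 1 x (by norm_num) H.one_mem (by rw [hr6, hr8]; first | done | exact mul_inv_eq_one.mp d_6x) h hh
    · exact step 7 10 1 x (by norm_num) H.one_mem (by rw [hr7, hr10]; first | done | exact mul_inv_eq_one.mp d_7x) h hh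
    · exact step 8 6 1 x (by norm_num) H.one_mem (by rw [hr8, hr6]; first | done | exact mul_inv_eq_one.mp d_8x) h hh
    · exact step 9 13 1 x (by norm_num) H.one_mem (by rw [hr9, hr13]; first | done | exact mul_inv_eq_one.mp d_9x) h hh
    · exact step 10 7 1 x (by norm_num) H.one_mem (by rw [hr10, hr7]; first | done | exact mul_inv_eq_one.mp d_10x) h hh
    · exact step 11 14 1 x (by norm_num) H.one_mem (by rw [hr11, hr14]; first | done | exact mul_inv_eq_one.mp d_11x) h hh
    · exact step 12 16 1 x (by norm_num) H.one_mem (by rw [hr12, hr16]; first | done | exact mul_inv_eq_one.mp d_12x) h hh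
    · exact step 13 9 1 x (by norm_num) H.one_mem (by rw [hr13, hr9]; first | done | exact mul_inv_eq_one.mp d_13x) h hh
    · exact step 14 11 1 x (by norm_num) H.one_mem (by rw [hr14, hr11]; first | done | exact mul_inv_eq_one.mp d_14x) h hh
    · exact step 15 18 1 x (by norm_num) H.one_mem (by rw [hr15, hr18]; first | done | exact mul_inv_eq_one.mp d_15x) h hh
    · exact step 16 12 1 x (by norm_num) H.one_mem (by rw [hr16, hr12]; first | done | exact mul_inv_eq_one.mp d_16x) h hh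
    · exact step 17 20 1 x (by norm_num) H.one_mem (by rw [hr17, hr20]; first | done | exact mul_inv_eq_one.mp d_17x) h hh
    · exact step 18 15 1 x (by norm_num) H.one_mem (by rw [hr18, hr15]; first | done | exact mul_inv_eq_one.mp d_18x) h hh
    · exact step 19 22 1 x (by norm_num) H.one_mem (by rw [hr19, hr22]; first | done | exact mul_inv_eq_one.mp d_19x) h hh
    · exact step 20 17 1 x (by norm_num) H.one_mem (by rw [hr20, hr17]; first | done | exact mul_inv_eq_one.mp d_20x) h hh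
    · exact step 21 23 1 x (by norm_num) H.one_mem (by rw [hr21, hr23]; first | done | exact mul_inv_eq_one.mp d_21x) h hh
    · exact step 22 19 1 x (by norm_num) H.one_mem (by rw [hr22, hr19]; first | done | exact mul_inv_eq_one.mp d_22x) h hh
    · exact step 23 21 1 x (by norm_num) H.one_mem (by rw [hr23, hr21]; first | done | exact mul_inv_eq_one.mp d_23x) h hh
  have hTy : ∀ g, T g → T (g * y) := by
    intro g hg
    rw [hT] at hg
    obtain ⟨i, hi, h, hh, rfl⟩ := hg
    interval_cases i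
    · exact step 0 0 y y (by norm_num) hyH (by rw [hr0]; first | done | exact mul_inv_eq_one.mp d_0y) h hh
    · exact step 1 2 1 y (by norm_num) H.one_mem (by rw [hr1, hr2]; first | done | exact mul_inv_eq_one.mp d_1y) h hh
    · exact step 2 4 1 y (by norm_num) H.one_mem (by rw [hr2, hr4]; first | done | exact mul_inv_eq_one.mp d_2y) h hh
    · exact step 3 1 y⁻¹ y (by norm_num) hyiH (by rw [hr3, hr1]; first | done | exact mul_inv_eq_one.mp d_3y) h hh
    · exact step 4 6 1 y (by norm_num) H.one_mem (by rw [hr4, hr6]; first | done | exact mul_inv_eq_one.mp d_4y) h hh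
    · exact step 5 7 1 y (by norm_num) H.one_mem (by rw [hr5, hr7]; first | done | exact mul_inv_eq_one.mp d_5y) h hh
    · exact step 6 9 1 y (by norm_num) H.one_mem (by rw [hr6, hr9]; first | done | exact mul_inv_eq_one.mp d_6y) h hh
    · exact step 7 11 1 y (by norm_num) H.one_mem (by rw [hr7, hr11]; first | done | exact mul_inv_eq_one.mp d_7y) h hh
    · exact step 8 12 1 y (by norm_num) H.one_mem (by rw [hr8, hr12]; first | done | exact mul_inv_eq_one.mp d_8y) h hh
    · exact step 9 10 y y (by norm_num) hyH (by rw [hr9, hr10]; first | done | exact mul_inv_eq_one.mp d_9y) h hh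
    · exact step 10 3 1 y (by norm_num) H.one_mem (by rw [hr10, hr3]; first | done | exact mul_inv_eq_one.mp d_10y) h hh
    · exact step 11 15 1 y (by norm_num) H.one_mem (by rw [hr11, hr15]; first | done | exact mul_inv_eq_one.mp d_11y) h hh
    · exact step 12 14 (y * y * y * y * y) y (by norm_num) (H.mul_mem (H.mul_mem (H.mul_mem (H.mul_mem hyH hyH) hyH) hyH) hyH) (by rw [hr12, hr14]; first | done | exact mul_inv_eq_one.mp d_12y) h hh
    · exact step 13 17 1 y (by norm_num) H.one_mem (by rw [hr13, hr17]; first | done | exact mul_inv_eq_one.mp d_13y) h hh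
    · exact step 14 13 y⁻¹ y (by norm_num) hyiH (by rw [hr14, hr13]; first | done | exact mul_inv_eq_one.mp d_14y) h hh
    · exact step 15 19 1 y (by norm_num) H.one_mem (by rw [hr15, hr19]; first | done | exact mul_inv_eq_one.mp d_15y) h hh
    · exact step 16 5 1 y (by norm_num) H.one_mem (by rw [hr16, hr5]; first | done | exact mul_inv_eq_one.mp d_16y) h hh
    · exact step 17 21 1 y (by norm_num) H.one_mem (by rw [hr17, hr21]; first | done | exact mul_inv_eq_one.mp d_17y) h hh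
    · exact step 18 16 (y⁻¹ * y⁻¹ * y⁻¹ * y⁻¹ * y⁻¹) y (by norm_num) (H.mul_mem (H.mul_mem (H.mul_mem (H.mul_mem hyiH hyiH) hyiH) hyiH) hyiH) (by rw [hr18, hr16]; first | done | exact mul_inv_eq_one.mp d_18y) h hh
    · exact step 19 18 (y * y * y * y * y) y (by norm_num) (H.mul_mem (H.mul_mem (H.mul_mem (H.mul_mem hyH hyH) hyH) hyH) hyH) (by rw [hr19, hr18]; first | done | exact mul_inv_eq_one.mp d_19y) h hh
    · exact step 20 8 1 y (by norm_num) H.one_mem (by rw [hr20, hr8]; first | done | exact mul_inv_eq_one.mp d_20y) h hh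
    · exact step 21 20 (y⁻¹ * y⁻¹ * y⁻¹ * y⁻¹) y (by norm_num) (H.mul_mem (H.mul_mem (H.mul_mem hyiH hyiH) hyiH) hyiH) (by rw [hr21, hr20]; first | done | exact mul_inv_eq_one.mp d_21y) h hh
    · exact step 22 22 (y⁻¹ * y⁻¹ * y⁻¹ * y⁻¹ * y⁻¹) y (by norm_num) (H.mul_mem (H.mul_mem (H.mul_mem (H.mul_mem hyiH hyiH) hyiH) hyiH) hyiH) (by rw [hr22]; first | done | exact mul_inv_eq_one.mp d_22y) h hh
    · exact step 23 23 (y * y * y * y) y (by norm_num) (H.mul_mem (H.mul_mem (H.mul_mem hyH hyH) hyH) hyH) (by rw [hr23]; first | done | exact mul_inv_eq_one.mp d_23y) h hh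
  have hxinv : x⁻¹ = x := inv_eq_of_mul_eq_one_right hR0
  have hyinv : y⁻¹ = y * y * y * y * y * y :=
    inv_eq_of_mul_eq_one_right (by rw [← hR1]; simp only [mul_assoc])
  have hT1 : T 1 := by
    rw [hT]
    exact ⟨0, by norm_num, 1, H.one_mem, by rw [hr0, mul_one]⟩
  have hall : ∀ w ∈ Subgroup.closure ({x, y} : Set G), ∀ g, T g → T (g * w) := by
    intro w hw
    induction hw using Subgroup.closure_induction'' with
    | mem a ha =>
      rcases ha with rfl | rfl
      · exact hTx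
      · exact hTy
    | inv_mem a ha =>
      rcases ha with rfl | rfl
      · intro g hg
        rw [hxinv]
        exact hTx _ hg
      · intro g hg
        rw [hyinv, ← mul_assoc, ← mul_assoc, ← mul_assoc, ← mul_assoc, ← mul_assoc]
        exact hTy _ (hTy _ (hTy _ (hTy _ (hTy _ (hTy _ (hg))))))
    | one =>
      intro g hg
      rwa [mul_one]
    | mul a b _ _ iha ihb =>
      intro g hg
      rw [← mul_assoc]
      exact ihb _ (iha _ hg)
  have hTall : ∀ g : G, T g := by
    intro g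
    have h1 := hall g (by rw [hgen]; exact Subgroup.mem_top g) 1 hT1
    rwa [one_mul] at h1
  have hy7 : y ^ 7 = 1 := by
    rw [← hR1, pow_succ, pow_succ, pow_succ, pow_succ, pow_succ, pow_succ, pow_one]
  have hyfin : IsOfFinOrder y := isOfFinOrder_iff_pow_eq_one.mpr ⟨7, by norm_num, hy7⟩
  have hfz : Finite H := by
    rw [hH]
    exact hyfin.finite_zpowers.to_subtype
  obtain ⟨f, hf⟩ : ∃ f : H × Fin 24 → G, ∀ p, f p = (p.1 : G) * r p.2.val :=
    ⟨fun p => (p.1 : G) * r p.2.val, fun p => rfl⟩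
  have hsurj : Function.Surjective f := by
    intro g
    obtain ⟨i, hi, h, hh, rfl⟩ := (hT g).mp (hTall g)
    exact ⟨(⟨h, hh⟩, ⟨i, hi⟩), by rw [hf]⟩
  have hfinG : Finite G := Finite.of_surjective f hsurj
  refine ⟨hfinG, ?_⟩
  have h1 : Nat.card G ≤ Nat.card (H × Fin 24) := Nat.card_le_card_of_surjective f hsurj
  have h2 : Nat.card (H × Fin 24) = orderOf y * 24 := by
    rw [Nat.card_prod, hH, Nat.card_zpowers, Nat.card_eq_fintype_card, Fintype.card_fin]
  have h3 : orderOf y ≤ 7 := Nat.le_of_dvd (by norm_num) (orderOf_dvd_of_pow_eq_one hy7)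
  nlinarith

end Cfsg.Agent.Lib.Helper2
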