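import Mathlib
import Cfsg.Prelude
import Cfsg.Agent.Lib.Helper2.PLenOne
import Cfsg.Agent.S4218

set_option autoImplicit false

namespace Cfsg.Agent.Lib.Helper2

universe u

theorem upperPSeries_odd (p : ℕ) (G : Type*) [Group G] (k : ℕ) :
    (Cfsg.upperPSeries p G (2 * k + 1)).1 =
      (Cfsg.pPrimeCore p (G ⧸ (Cfsg.upperPSeries p G (2 * k)).1)).comap (QuotientGroup.mk' _) := by
  rw [Cfsg.upperPSeries]
  have he : Even (2 * k) := even_two_mul k
  simp [he]

theorem upperPSeries_even (p : ℕ) (G : Type*) [Group G] (k : ℕ) :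
    (Cfsg.upperPSeries p G (2 * k + 2)).1 =
      (Cfsg.pCore p (G ⧸ (Cfsg.upperPSeries p G (2 * k + 1)).1)).comap (QuotientGroup.mk' _) := by
  show (Cfsg.upperPSeries p G ((2 * k + 1) + 1)).1 = _
  rw [Cfsg.upperPSeries]
  have he : ¬ Even (2 * k + 1) := by simp
  simp [he]

theorem pPrimeCore_quotient_comap_eq_bot {G : Type u} [Group G] [Finite G] (p : ℕ) [Fact p.Prime]
    (U V : Subgroup G) [U.Normal] [V.Normal]
    (hV : V = (Cfsg.pPrimeCore p (G ⧸ U)).comap (QuotientGroup.mk' U)) :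
    Cfsg.pPrimeCore p (G ⧸ V) = ⊥ := by
  have hp : p.Prime := Fact.out
  have hUV : U ≤ V := by
    rw [hV]; intro u hu
    rw [Subgroup.mem_comap]
    have h1 : (QuotientGroup.mk' U) u = 1 := (QuotientGroup.eq_one_iff u).mpr hu
    rw [h1]; exact Subgroup.one_mem _
  have hUVidx : (U.relIndex V).Coprime p := by
    have h := relIndex_comap_mk U (Cfsg.pPrimeCore p (G ⧸ U))
    rw [← hV] at h
    rw [h]; exact Cfsg.Agent.Lib.Helper3.pPrimeCore_coprime hp (G ⧸ U)
  rw [eq_bot_iff]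
  refine sSup_le ?_
  rintro Nb ⟨hNbn, hNbc⟩
  obtain ⟨N, hNdef⟩ : ∃ N : Subgroup G, N = Nb.comap (QuotientGroup.mk' V) := ⟨_, rfl⟩
  have hNn : N.Normal := by rw [hNdef]; exact Subgroup.Normal.comap hNbn _
  have hVN : V ≤ N := by
    rw [hNdef]; intro v hv
    rw [Subgroup.mem_comap]
    have h1 : (QuotientGroup.mk' V) v = 1 := (QuotientGroup.eq_one_iff v).mpr hv
    rw [h1]; exact Subgroup.one_mem _
  have hVNidx : V.relIndex N = Nat.card Nb := by rw [hNdef]; exact relIndex_comap_mk V Nb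
  have hUN : U ≤ N := le_trans hUV hVN
  have hUNidx : (U.relIndex N).Coprime p := by
    rw [← Subgroup.relIndex_mul_relIndex U V N hUV hVN, hVNidx]
    exact Nat.Coprime.mul_left hUVidx hNbc
  have hcard : Nat.card (N.map (QuotientGroup.mk' U)) = U.relIndex N := by
    have h := relIndex_comap_mk U (N.map (QuotientGroup.mk' U))
    have h2 : (N.map (QuotientGroup.mk' U)).comap (QuotientGroup.mk' U) = N := by
      rw [Subgroup.comap_map_eq, QuotientGroup.ker_mk', sup_eq_left.mpr hUN]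
    rw [h2] at h
    exact h.symm
  have hle : N.map (QuotientGroup.mk' U) ≤ Cfsg.pPrimeCore p (G ⧸ U) := by
    apply le_sSup
    refine ⟨Subgroup.Normal.map hNn _ (QuotientGroup.mk'_surjective U), ?_⟩
    rw [hcard]; exact hUNidx
  have hNV : N ≤ V := by
    rw [hV]
    exact Subgroup.map_le_iff_le_comap.mp hle
  intro x hx
  obtain ⟨g, rfl⟩ := QuotientGroup.mk'_surjective V x
  have hgN : g ∈ N := by rw [hNdef]; exact hx
  rw [Subgroup.mem_bot]
  exact (QuotientGroup.eq_one_iff g).mpr (hNV hgN)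

theorem upper_series_centralizer {G : Type u} [Group G] [Finite G] {p : ℕ} [Fact p.Prime]
    (hsol : Cfsg.IsPSolvable p G) (k : ℕ) :
    Subgroup.centralizer ((((Cfsg.upperPSeries p G (2 * k + 2)).1.map (QuotientGroup.mk' (Cfsg.upperPSeries p G (2 * k + 1)).1)) : Subgroup (G ⧸ (Cfsg.upperPSeries p G (2 * k + 1)).1)) : Set (G ⧸ (Cfsg.upperPSeries p G (2 * k + 1)).1)) ≤ (Cfsg.upperPSeries p G (2 * k + 2)).1.map (QuotientGroup.mk' (Cfsg.upperPSeries p G (2 * k + 1)).1) := by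
  have h1 := upperPSeries_odd p G k
  have h2 := upperPSeries_even p G k
  have h3 : (Cfsg.upperPSeries p G (2 * k + 2)).1.map
      (QuotientGroup.mk' (Cfsg.upperPSeries p G (2 * k + 1)).1)
      = Cfsg.pCore p (G ⧸ (Cfsg.upperPSeries p G (2 * k + 1)).1) := by
    rw [h2]; exact Subgroup.map_comap_eq_self_of_surjective (QuotientGroup.mk'_surjective _) _
  rw [h3]
  have hO : Cfsg.pPrimeCore p (G ⧸ (Cfsg.upperPSeries p G (2 * k + 1)).1) = ⊥ :=
    pPrimeCore_quotient_comap_eq_bot p _ _ h1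
  exact Cfsg.Agent.S4218.hh123 (Cfsg.Agent.S4218.isPSolvable_quotient _ hsol) hO

end Cfsg.Agent.Lib.Helper2
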