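import Mathlib
import Cfsg.Prelude
import Cfsg.Agent.Lib.Helper2.UpperSeries
import Cfsg.Agent.Lib.Helper4.PCore

set_option autoImplicit false

namespace Cfsg.Agent.Lib.Helper2

open scoped commutatorElement

universe u

theorem upperPSeries_even_le_odd (p : ℕ) (G : Type u) [Group G] (k : ℕ) :
    (Cfsg.upperPSeries p G (2 * k)).1 ≤ (Cfsg.upperPSeries p G (2 * k + 1)).1 := by
  rw [upperPSeries_odd p G k]
  intro u hu
  rw [Subgroup.mem_comap]
  have h1 : (QuotientGroup.mk' (Cfsg.upperPSeries p G (2 * k)).1) u = 1 :=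
    (QuotientGroup.eq_one_iff u).mpr hu
  rw [h1]; exact Subgroup.one_mem _

/-- Hall--Higman: the `k`-th term of the upper central series of a Sylow `p`-subgroup of a
`p`-solvable group lies in the `2k`-th term of the upper `p`-series. -/
theorem upperCentral_le_upperPSeries {G : Type u} [Group G] [Finite G] {p : ℕ} [Fact p.Prime]
    (hsol : Cfsg.IsPSolvable p G) (S : Sylow p G) :
    ∀ k : ℕ, ∀ z : ↥(S : Subgroup G), z ∈ Subgroup.upperCentralSeries ↥(S : Subgroup G) k →
      (z : G) ∈ (Cfsg.upperPSeries p G (2 * k)).1 := by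
  intro k
  induction k with
  | zero =>
    intro z hz
    rw [Subgroup.upperCentralSeries_zero, Subgroup.mem_bot] at hz
    rw [hz]; exact Subgroup.one_mem _
  | succ k ih =>
    intro z hz
    rw [Subgroup.mem_upperCentralSeries_succ_iff] at hz
    have h2 := upperPSeries_even p G k
    have hcent := upper_series_centralizer hsol k
    have h3 : (Cfsg.upperPSeries p G (2 * k + 2)).1.map
        (QuotientGroup.mk' (Cfsg.upperPSeries p G (2 * k + 1)).1)
        = Cfsg.pCore p (G ⧸ (Cfsg.upperPSeries p G (2 * k + 1)).1) := by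
      rw [h2]; exact Subgroup.map_comap_eq_self_of_surjective (QuotientGroup.mk'_surjective _) _
    rw [h3] at hcent
    have hzc : QuotientGroup.mk' (Cfsg.upperPSeries p G (2 * k + 1)).1 (z : G) ∈
        Subgroup.centralizer
          ((Cfsg.pCore p (G ⧸ (Cfsg.upperPSeries p G (2 * k + 1)).1) : Subgroup _) : Set _) := by
      rw [Subgroup.mem_centralizer_iff]
      intro h hh
      have hle := Cfsg.Agent.Lib.Helper4.pCore_le_sylow
        (S.mapSurjective (QuotientGroup.mk'_surjective (Cfsg.upperPSeries p G (2 * k + 1)).1))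
      have hh' : h ∈ (S : Subgroup G).map
          (QuotientGroup.mk' (Cfsg.upperPSeries p G (2 * k + 1)).1) := hle hh
      obtain ⟨s, hs, rfl⟩ := Subgroup.mem_map.mp hh'
      have hcomm := hz ⟨s, hs⟩
      have hmem := upperPSeries_even_le_odd p G k (ih _ hcomm)
      have hval : ((⁅z, (⟨s, hs⟩ : ↥(S : Subgroup G))⁆ : ↥(S : Subgroup G)) : G)
          = (z : G) * s * (z : G)⁻¹ * s⁻¹ := rfl
      rw [hval] at hmem
      have h1 : (QuotientGroup.mk' (Cfsg.upperPSeries p G (2 * k + 1)).1)
          ((z : G) * s * (z : G)⁻¹ * s⁻¹) = 1 := (QuotientGroup.eq_one_iff _).mpr hmem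
      rw [map_mul, map_mul, map_mul, map_inv, map_inv] at h1
      have h4 := mul_inv_eq_one.mp h1
      have h5 := mul_inv_eq_iff_eq_mul.mp h4
      exact h5.symm
    have hzW := hcent hzc
    show (z : G) ∈ (Cfsg.upperPSeries p G (2 * k + 2)).1
    rw [h2]
    exact hzW

/-- Hall--Higman: the `p`-length of a `p`-solvable group is at most the nilpotency class of its
Sylow `p`-subgroups. -/
theorem plength_le_class {G : Type u} [Group G] [Finite G] {p : ℕ} [Fact p.Prime]
    (hsol : Cfsg.IsPSolvable p G) (S : Sylow p G) (c : ℕ)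
    (hc : Subgroup.upperCentralSeries ↥(S : Subgroup G) c = ⊤) : Cfsg.PLengthLE p c G := by
  have hp : p.Prime := Fact.out
  have hS : (S : Subgroup G) ≤ (Cfsg.upperPSeries p G (2 * c)).1 := by
    intro s hs
    have h := upperCentral_le_upperPSeries hsol S c ⟨s, hs⟩ (by rw [hc]; exact Subgroup.mem_top _)
    exact h
  unfold Cfsg.PLengthLE
  rw [upperPSeries_odd p G c]
  have htop : Cfsg.pPrimeCore p (G ⧸ (Cfsg.upperPSeries p G (2 * c)).1) = ⊤ := by
    rw [eq_top_iff]
    unfold Cfsg.pPrimeCore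
    apply le_sSup
    refine ⟨inferInstance, ?_⟩
    rw [Subgroup.card_top]
    have hidx : Nat.card (G ⧸ (Cfsg.upperPSeries p G (2 * c)).1)
        = (Cfsg.upperPSeries p G (2 * c)).1.index := rfl
    rw [hidx]
    have hdvd : (Cfsg.upperPSeries p G (2 * c)).1.index ∣ (S : Subgroup G).index :=
      Subgroup.index_dvd_of_le hS
    have hnd : ¬ p ∣ (Cfsg.upperPSeries p G (2 * c)).1.index :=
      fun h => S.not_dvd_index (dvd_trans h hdvd)
    exact Nat.Coprime.symm ((Nat.Prime.coprime_iff_not_dvd hp).mpr hnd)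
  rw [htop, Subgroup.comap_top]

end Cfsg.Agent.Lib.Helper2
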