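import Mathlib
import Cfsg.Prelude
import Cfsg.Agent.Lib.Helper2.UpperSeries
import Cfsg.Agent.Lib.Helper2.PLenClass
import Cfsg.Agent.Lib.Helper3.PPrimeCore
import Cfsg.Agent.Lib.Helper4.PCore

set_option autoImplicit false

namespace Cfsg.Agent.Lib.Helper2

universe u v

/-- One `p'`-step of the upper `p`-series is compatible with surjective homomorphisms. -/
theorem pprime_step {G : Type u} {G' : Type v} [Group G] [Group G'] [Finite G] [Finite G']
    (p : ℕ) [Fact p.Prime] (f : G →* G') (hf : Function.Surjective f)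
    (V W : Subgroup G) (T T' : Subgroup G') [V.Normal] [T.Normal]
    (hW : W = (Cfsg.pPrimeCore p (G ⧸ V)).comap (QuotientGroup.mk' V))
    (hT' : T' = (Cfsg.pPrimeCore p (G' ⧸ T)).comap (QuotientGroup.mk' T))
    (hVT : V.map f ≤ T) : W.map f ≤ T' := by
  have hp : p.Prime := Fact.out
  obtain ⟨m, hm⟩ : ∃ m, m = Nat.card (Cfsg.pPrimeCore p (G ⧸ V)) := ⟨_, rfl⟩
  have hmcop : m.Coprime p := by
    rw [hm]; exact Cfsg.Agent.Lib.Helper3.pPrimeCore_coprime hp (G ⧸ V)
  have hWn : W.Normal := by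
    rw [hW]; exact Subgroup.Normal.comap (Cfsg.Agent.Lib.Helper3.pPrimeCore_normal p (G ⧸ V)) _
  have hpow : ∀ w ∈ W, w ^ m ∈ V := by
    intro w hw
    rw [hW, Subgroup.mem_comap] at hw
    have h1 : (⟨QuotientGroup.mk' V w, hw⟩ : ↥(Cfsg.pPrimeCore p (G ⧸ V))) ^ m = 1 := by
      rw [hm]; exact pow_card_eq_one'
    have h2 := congrArg Subtype.val h1
    have h3 : (QuotientGroup.mk' V w) ^ m = 1 := by simpa using h2
    rw [← map_pow] at h3
    exact (QuotientGroup.eq_one_iff _).mp h3
  obtain ⟨X, hXdef⟩ : ∃ X : Subgroup (G' ⧸ T), X = (W.map f).map (QuotientGroup.mk' T) :=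
    ⟨_, rfl⟩
  have hXn : X.Normal := by
    rw [hXdef]
    exact Subgroup.Normal.map (Subgroup.Normal.map hWn f hf) _ (QuotientGroup.mk'_surjective T)
  have hXpow : ∀ y ∈ X, y ^ m = 1 := by
    intro y hy
    rw [hXdef] at hy
    obtain ⟨y', hy', rfl⟩ := Subgroup.mem_map.mp hy
    obtain ⟨w, hw, rfl⟩ := Subgroup.mem_map.mp hy'
    rw [← map_pow, ← map_pow]
    apply (QuotientGroup.eq_one_iff _).mpr
    apply hVT
    exact Subgroup.mem_map_of_mem f (hpow w hw)
  have hXcop : (Nat.card X).Coprime p := by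
    apply Nat.Coprime.symm
    rw [Nat.Prime.coprime_iff_not_dvd hp]
    intro hdvd
    obtain ⟨x, hx⟩ := exists_prime_orderOf_dvd_card' (G := ↥X) p hdvd
    have h1 : x ^ m = 1 := by
      apply Subtype.ext
      have h0 := hXpow x x.2
      simpa using h0
    have h2 : orderOf x ∣ m := orderOf_dvd_of_pow_eq_one h1
    rw [hx] at h2
    have h3 : p ∣ Nat.gcd m p := Nat.dvd_gcd h2 dvd_rfl
    have h4 : Nat.gcd m p = 1 := hmcop
    rw [h4] at h3
    exact hp.one_lt.ne' (Nat.dvd_one.mp h3)
  have hle := Cfsg.Agent.Lib.Helper3.le_pPrimeCore hXn hXcop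
  rw [hT']
  intro g' hg'
  rw [Subgroup.mem_comap]
  apply hle
  rw [hXdef]
  exact Subgroup.mem_map_of_mem _ hg'

/-- One `p`-step of the upper `p`-series is compatible with surjective homomorphisms. -/
theorem pcore_step {G : Type u} {G' : Type v} [Group G] [Group G'] [Finite G] [Finite G']
    (p : ℕ) [Fact p.Prime] (f : G →* G') (hf : Function.Surjective f)
    (V W : Subgroup G) (T T' : Subgroup G') [V.Normal] [T.Normal]
    (hW : W = (Cfsg.pCore p (G ⧸ V)).comap (QuotientGroup.mk' V))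
    (hT' : T' = (Cfsg.pCore p (G' ⧸ T)).comap (QuotientGroup.mk' T))
    (hVT : V.map f ≤ T) : W.map f ≤ T' := by
  have hWn : W.Normal := by
    rw [hW]; exact Subgroup.Normal.comap (Cfsg.Agent.Lib.Helper4.pCore_normal p (G ⧸ V)) _
  have hpow : ∀ w ∈ W, ∃ k : ℕ, w ^ p ^ k ∈ V := by
    intro w hw
    rw [hW, Subgroup.mem_comap] at hw
    obtain ⟨k, hk⟩ := (Cfsg.Agent.Lib.Helper4.pCore_isPGroup p (G ⧸ V)) ⟨QuotientGroup.mk' V w, hw⟩
    refine ⟨k, ?_⟩
    have h2 := congrArg Subtype.val hk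
    have h3 : (QuotientGroup.mk' V w) ^ p ^ k = 1 := by simpa using h2
    rw [← map_pow] at h3
    exact (QuotientGroup.eq_one_iff _).mp h3
  obtain ⟨X, hXdef⟩ : ∃ X : Subgroup (G' ⧸ T), X = (W.map f).map (QuotientGroup.mk' T) :=
    ⟨_, rfl⟩
  have hXn : X.Normal := by
    rw [hXdef]
    exact Subgroup.Normal.map (Subgroup.Normal.map hWn f hf) _ (QuotientGroup.mk'_surjective T)
  have hXp : IsPGroup p ↥X := by
    intro y
    have hXle : X ≤ (W.map f).map (QuotientGroup.mk' T) := le_of_eq hXdef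
    have hy := hXle y.2
    obtain ⟨y', hy', hyeq⟩ := Subgroup.mem_map.mp hy
    obtain ⟨w, hw, rfl⟩ := Subgroup.mem_map.mp hy'
    obtain ⟨k, hk⟩ := hpow w hw
    refine ⟨k, ?_⟩
    apply Subtype.ext
    have h1 : (y : G' ⧸ T) ^ p ^ k = 1 := by
      rw [← hyeq, ← map_pow, ← map_pow]
      apply (QuotientGroup.eq_one_iff _).mpr
      apply hVT
      exact Subgroup.mem_map_of_mem f hk
    simpa using h1
  have hle := Cfsg.Agent.Lib.Helper4.le_pCore hXn hXp
  rw [hT']
  intro g' hg'
  rw [Subgroup.mem_comap]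
  apply hle
  rw [hXdef]
  exact Subgroup.mem_map_of_mem _ hg'

/-- The upper `p`-series of a quotient dominates the image of a shifted upper `p`-series. -/
theorem upper_series_map_aux {G : Type u} {G' : Type v} [Group G] [Group G'] [Finite G]
    [Finite G'] (p : ℕ) [Fact p.Prime] (f : G →* G') (hf : Function.Surjective f) (c : ℕ)
    (h0 : (Cfsg.upperPSeries p G (2 * c)).1.map f ≤ (Cfsg.upperPSeries p G' 0).1) :
    ∀ j : ℕ, (Cfsg.upperPSeries p G (2 * (c + j))).1.map f ≤ (Cfsg.upperPSeries p G' (2 * j)).1 ∧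
      (Cfsg.upperPSeries p G (2 * (c + j) + 1)).1.map f
        ≤ (Cfsg.upperPSeries p G' (2 * j + 1)).1 := by
  have key : ∀ j : ℕ,
      (Cfsg.upperPSeries p G (2 * (c + j))).1.map f ≤ (Cfsg.upperPSeries p G' (2 * j)).1 →
      (Cfsg.upperPSeries p G (2 * (c + j) + 1)).1.map f
        ≤ (Cfsg.upperPSeries p G' (2 * j + 1)).1 := by
    intro j hj
    exact pprime_step p f hf _ _ _ _ (upperPSeries_odd p G (c + j)) (upperPSeries_odd p G' j) hj
  intro j
  induction j with
  | zero =>
    have h1 : (Cfsg.upperPSeries p G (2 * (c + 0))).1.map f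
        ≤ (Cfsg.upperPSeries p G' (2 * 0)).1 := h0
    exact ⟨h1, key 0 h1⟩
  | succ j ih =>
    have h1 : (Cfsg.upperPSeries p G (2 * (c + (j + 1)))).1.map f
        ≤ (Cfsg.upperPSeries p G' (2 * (j + 1))).1 := by
      have e1 : 2 * (c + (j + 1)) = 2 * (c + j) + 2 := by ring
      have e2 : 2 * (j + 1) = 2 * j + 2 := by ring
      rw [e1, e2]
      exact pcore_step p f hf _ _ _ _ (upperPSeries_even p G (c + j)) (upperPSeries_even p G' j)
        ih.2
    exact ⟨h1, key (j + 1) h1⟩

/-- `p`-length does not increase under surjective homomorphisms. -/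
theorem plengthLE_of_surjective {G : Type u} {G' : Type v} [Group G] [Group G'] [Finite G]
    [Finite G'] (p : ℕ) [Fact p.Prime] (f : G →* G') (hf : Function.Surjective f) (l : ℕ)
    (h : Cfsg.PLengthLE p l G) : Cfsg.PLengthLE p l G' := by
  have h0 : (Cfsg.upperPSeries p G (2 * 0)).1.map f ≤ (Cfsg.upperPSeries p G' 0).1 := by
    have e : (Cfsg.upperPSeries p G (2 * 0)).1 = ⊥ := rfl
    rw [e, Subgroup.map_bot]; exact bot_le
  have h1 := (upper_series_map_aux p f hf 0 h0 l).2
  unfold Cfsg.PLengthLE at h ⊢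
  have e : 2 * (0 + l) + 1 = 2 * l + 1 := by ring
  rw [e, h, Subgroup.map_top_of_surjective f hf] at h1
  exact top_le_iff.mp h1

/-- Factoring out `O_{p',p}` lowers the `p`-length by one. -/
theorem plengthLE_quotient_two {G : Type u} [Group G] [Finite G] (p : ℕ) [Fact p.Prime]
    (l : ℕ) (hl : 1 ≤ l) (h : Cfsg.PLengthLE p l G) :
    Cfsg.PLengthLE p (l - 1) (G ⧸ (Cfsg.upperPSeries p G 2).1) := by
  have h0 : (Cfsg.upperPSeries p G (2 * 1)).1.map (QuotientGroup.mk' (Cfsg.upperPSeries p G 2).1)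
      ≤ (Cfsg.upperPSeries p (G ⧸ (Cfsg.upperPSeries p G 2).1) 0).1 := by
    show (Cfsg.upperPSeries p G 2).1.map (QuotientGroup.mk' (Cfsg.upperPSeries p G 2).1) ≤ _
    rw [QuotientGroup.map_mk'_self]; exact bot_le
  have h1 := (upper_series_map_aux p (QuotientGroup.mk' (Cfsg.upperPSeries p G 2).1)
    (QuotientGroup.mk'_surjective _) 1 h0 (l - 1)).2
  unfold Cfsg.PLengthLE at h ⊢
  have e : 2 * (1 + (l - 1)) + 1 = 2 * l + 1 := by omega
  rw [e, h, Subgroup.map_top_of_surjective _ (QuotientGroup.mk'_surjective _)] at h1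
  exact top_le_iff.mp h1

theorem derivedSeries_add_le_map {G : Type u} [Group G] (H : Subgroup G) (a : ℕ)
    (h : derivedSeries G a ≤ H) :
    ∀ b : ℕ, derivedSeries G (a + b) ≤ (derivedSeries ↥H b).map H.subtype := by
  intro b
  induction b with
  | zero =>
    rw [derivedSeries_zero, ← MonoidHom.range_eq_map, Subgroup.range_subtype]
    exact h
  | succ b ih =>
    rw [← add_assoc, derivedSeries_succ, derivedSeries_succ, Subgroup.map_commutator]
    exact Subgroup.commutator_mono ih ih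

theorem derivedSeries_le_of_quotient {G : Type u} [Group G] (N : Subgroup G) [N.Normal] (n : ℕ)
    (h : derivedSeries (G ⧸ N) n = ⊥) : derivedSeries G n ≤ N := by
  have h1 := map_derivedSeries_le_derivedSeries (QuotientGroup.mk' N) n
  rw [h] at h1
  intro g hg
  have h2 : QuotientGroup.mk' N g ∈ (⊥ : Subgroup (G ⧸ N)) :=
    h1 (Subgroup.mem_map_of_mem _ hg)
  rw [Subgroup.mem_bot] at h2
  exact (QuotientGroup.eq_one_iff g).mp h2

theorem sylow_derived_of_surjective {G : Type u} {G' : Type v} [Group G] [Group G'] [Finite G]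
    (q : ℕ) [Fact q.Prime] (f : G →* G') (hf : Function.Surjective f) (d : ℕ)
    (h : ∀ S : Sylow q G, derivedSeries ↥(S : Subgroup G) d = ⊥) (S' : Sylow q G') :
    derivedSeries ↥(S' : Subgroup G') d = ⊥ := by
  obtain ⟨S, rfl⟩ := Sylow.mapSurjective_surjective hf q S'
  have h1 : Function.Surjective (f.subgroupMap (S : Subgroup G)) := f.subgroupMap_surjective _
  have h2 := map_derivedSeries_eq h1 d
  rw [h S, Subgroup.map_bot] at h2
  exact h2.symm

/-- A nontrivial finite solvable group has a nontrivial normal `q`-subgroup for some prime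
`q`. -/
theorem exists_normal_prime_subgroup {G : Type u} [Group G] [Finite G]
    (hs : Group.IsSolvable G) (hnt : Nontrivial G) :
    ∃ (q : ℕ) (N : Subgroup G), q.Prime ∧ N.Normal ∧ N ≠ ⊥ ∧ IsPGroup q ↥N := by
  classical
  have hex : ∃ n : ℕ, derivedSeries G n = ⊥ := hs.solvable
  obtain ⟨k, hk, hmin⟩ : ∃ k, derivedSeries G k = ⊥ ∧ ∀ j < k, derivedSeries G j ≠ ⊥ :=
    ⟨Nat.find hex, Nat.find_spec hex, fun j hj => Nat.find_min hex hj⟩
  have hk0 : k ≠ 0 := by
    intro h0
    rw [h0, derivedSeries_zero] at hk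
    exact top_ne_bot hk
  obtain ⟨j, hj⟩ := Nat.exists_eq_succ_of_ne_zero hk0
  obtain ⟨A, hAdef⟩ : ∃ A : Subgroup G, A = derivedSeries G j := ⟨_, rfl⟩
  have hAn : A.Normal := by rw [hAdef]; exact derivedSeries_normal G j
  have hA1 : A ≠ ⊥ := by rw [hAdef]; exact hmin j (by omega)
  have hA2 : ⁅A, A⁆ = ⊥ := by
    rw [hAdef, ← derivedSeries_succ, ← Nat.succ_eq_add_one, ← hj]; exact hk
  have hcomm : ∀ a ∈ A, ∀ b ∈ A, a * b = b * a := by
    intro a ha b hb
    have hle := (Subgroup.commutator_eq_bot_iff_le_centralizer).mp hA2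
    exact ((Subgroup.mem_centralizer_iff.mp (hle hb)) a ha)
  have hcard1 : Nat.card A ≠ 1 := fun h => hA1 (Subgroup.card_eq_one.mp h)
  obtain ⟨q, hq, hqA⟩ := Nat.exists_prime_and_dvd hcard1
  haveI : Fact q.Prime := ⟨hq⟩
  obtain ⟨N, hNdef⟩ : ∃ N : Subgroup G, ∀ a, a ∈ N ↔ (a ∈ A ∧ a ^ q = 1) :=
    ⟨{ carrier := {a | a ∈ A ∧ a ^ q = 1}
       one_mem' := ⟨A.one_mem, one_pow q⟩
       mul_mem' := by
         rintro a b ⟨ha, ha1⟩ ⟨hb, hb1⟩
         refine ⟨A.mul_mem ha hb, ?_⟩
         have hc : Commute a b := hcomm a ha b hb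
         rw [hc.mul_pow, ha1, hb1, one_mul]
       inv_mem' := by
         rintro a ⟨ha, ha1⟩
         exact ⟨A.inv_mem ha, by rw [inv_pow, ha1, inv_one]⟩ }, fun a => Iff.rfl⟩
  have hNn : N.Normal := by
    constructor
    intro a ha g
    rw [hNdef] at ha ⊢
    refine ⟨hAn.conj_mem a ha.1 g, ?_⟩
    rw [conj_pow, ha.2, mul_one, mul_inv_cancel]
  have hNb : N ≠ ⊥ := by
    obtain ⟨x, hx⟩ := exists_prime_orderOf_dvd_card' (G := ↥A) q hqA
    intro hbot
    have hxN : (x : G) ∈ N := by
      rw [hNdef]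
      refine ⟨x.2, ?_⟩
      have h1 : x ^ q = 1 := by rw [← hx]; exact pow_orderOf_eq_one x
      have h2 := congrArg Subtype.val h1
      simpa using h2
    rw [hbot, Subgroup.mem_bot] at hxN
    have hx1 : x = 1 := Subtype.ext hxN
    rw [hx1, orderOf_one] at hx
    exact hq.one_lt.ne hx
  have hNq : IsPGroup q ↥N := by
    intro g
    refine ⟨1, ?_⟩
    apply Subtype.ext
    have h1 := ((hNdef (g : G)).mp g.2).2
    simpa using h1
  exact ⟨q, N, hq, hNn, hNb, hNq⟩

/-- The Hall--Higman bound on the derived length of a finite solvable group in terms of the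
derived lengths of its Sylow subgroups and its `p`-lengths. -/
theorem hh_derived_aux : ∀ (n : ℕ) (G : Type u) [Group G] [Finite G], Nat.card G = n →
    Group.IsSolvable G → ∀ (r : ℕ) (q : Fin r → ℕ) (_hq : ∀ i, (q i).Prime)
      (_hcover : ∀ s : ℕ, s.Prime → s ∣ Nat.card G → ∃ i, q i = s) (d l : Fin r → ℕ)
      (_hd : ∀ i, ∀ S : Sylow (q i) G, derivedSeries ↥(S : Subgroup G) (d i) = ⊥)
      (_hl : ∀ i, Cfsg.PLengthLE (q i) (l i) G),
      derivedSeries G (Finset.univ.sum fun i => d i * l i) = ⊥ := by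
  intro n
  induction n using Nat.strong_induction_on with
  | _ n ih =>
    intro G _ _ hn hs r q hq hcover d l hd hl
    by_cases hnt : Nontrivial G
    swap
    · rw [not_nontrivial_iff_subsingleton] at hnt
      exact Subsingleton.elim _ _
    haveI := hnt
    have key : ∀ (N : Subgroup G) [N.Normal], N ≠ ⊥ → ∀ l' : Fin r → ℕ,
        (∀ i, Cfsg.PLengthLE (q i) (l' i) (G ⧸ N)) →
        derivedSeries G (Finset.univ.sum fun i => d i * l' i) ≤ N := by
      intro N hNn hNb l' hl'
      have hlt : Nat.card (G ⧸ N) < n := by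
        rw [← hn]
        have h1 := Subgroup.card_eq_card_quotient_mul_card_subgroup N
        have h2 : 1 < Nat.card N := by
          rcases Nat.lt_or_ge 1 (Nat.card N) with h | h
          · exact h
          · exfalso
            apply hNb
            apply Subgroup.card_eq_one.mp
            have := Nat.card_pos (α := N)
            omega
        have h3 : 0 < Nat.card (G ⧸ N) := Nat.card_pos
        rw [h1]
        nlinarith
      haveI := hs
      have hsq : Group.IsSolvable (G ⧸ N) := inferInstance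
      have hcover' : ∀ s : ℕ, s.Prime → s ∣ Nat.card (G ⧸ N) → ∃ i, q i = s := by
        intro s hsp hsd
        exact hcover s hsp (dvd_trans hsd (Subgroup.card_quotient_dvd_card N))
      have hd' : ∀ i, ∀ S : Sylow (q i) (G ⧸ N),
          derivedSeries ↥(S : Subgroup (G ⧸ N)) (d i) = ⊥ := by
        intro i S
        haveI : Fact (q i).Prime := ⟨hq i⟩
        exact sylow_derived_of_surjective (q i) (QuotientGroup.mk' N)
          (QuotientGroup.mk'_surjective N) (d i) (hd i) S
      have h := ih _ hlt (G ⧸ N) rfl hsq r q hq hcover' d l' hd' hl'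
      exact derivedSeries_le_of_quotient N _ h
    by_cases hsplit : ∃ N₁ N₂ : Subgroup G, N₁.Normal ∧ N₂.Normal ∧ N₁ ≠ ⊥ ∧ N₂ ≠ ⊥ ∧
        N₁ ⊓ N₂ = ⊥
    · obtain ⟨N₁, N₂, hn1, hn2, hb1, hb2, hinf⟩ := hsplit
      haveI := hn1
      haveI := hn2
      have hQ : ∀ (N : Subgroup G) [N.Normal], ∀ i, Cfsg.PLengthLE (q i) (l i) (G ⧸ N) := by
        intro N _ i
        haveI : Fact (q i).Prime := ⟨hq i⟩
        exact plengthLE_of_surjective (q i) (QuotientGroup.mk' N)
          (QuotientGroup.mk'_surjective N) (l i) (hl i)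
      have h1 := key N₁ hb1 l (hQ N₁)
      have h2 := key N₂ hb2 l (hQ N₂)
      rw [eq_bot_iff, ← hinf]
      exact le_inf h1 h2
    · obtain ⟨q₀, N, hq₀, hNn, hNb, hNq⟩ := exists_normal_prime_subgroup hs hnt
      haveI := hNn
      haveI : Fact q₀.Prime := ⟨hq₀⟩
      have hq₀dvd : q₀ ∣ Nat.card G := by
        obtain ⟨m, hm⟩ := IsPGroup.iff_card.mp hNq
        have hm0 : m ≠ 0 := by
          intro h0
          rw [h0, pow_zero] at hm
          exact hNb (Subgroup.card_eq_one.mp hm)
        have h1 : q₀ ∣ Nat.card N := by rw [hm]; exact dvd_pow_self q₀ hm0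
        exact dvd_trans h1 (Subgroup.card_subgroup_dvd_card N)
      obtain ⟨i₀, hi₀⟩ := hcover q₀ hq₀ hq₀dvd
      subst hi₀
      have hU : (Cfsg.upperPSeries (q i₀) G 1).1 = ⊥ := by
        have hcop : (Nat.card (Cfsg.upperPSeries (q i₀) G 1).1).Coprime (q i₀) := by
          have h1 := relIndex_comap_mk (Cfsg.upperPSeries (q i₀) G 0).1
            (Cfsg.pPrimeCore (q i₀) (G ⧸ (Cfsg.upperPSeries (q i₀) G 0).1))
          rw [← upperPSeries_one] at h1
          have h2 : (Cfsg.upperPSeries (q i₀) G 0).1.relIndex (Cfsg.upperPSeries (q i₀) G 1).1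
              = Nat.card (Cfsg.upperPSeries (q i₀) G 1).1 :=
            Subgroup.relIndex_bot_left (Cfsg.upperPSeries (q i₀) G 1).1
          rw [← h2, h1]
          exact Cfsg.Agent.Lib.Helper3.pPrimeCore_coprime hq₀
            (G ⧸ (Cfsg.upperPSeries (q i₀) G 0).1)
        by_contra hne
        apply hsplit
        refine ⟨(Cfsg.upperPSeries (q i₀) G 1).1, N, inferInstance, hNn, hne, hNb, ?_⟩
        obtain ⟨m, hm⟩ := IsPGroup.iff_card.mp hNq
        have hcop2 : (Nat.card (Cfsg.upperPSeries (q i₀) G 1).1).Coprime (Nat.card N) := by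
          rw [hm]; exact Nat.Coprime.pow_right m hcop
        exact disjoint_iff.mp (Subgroup.disjoint_of_coprime_natCard hcop2)
      have h2 := upperPSeries_two (q i₀) G
      have hle2 : (Cfsg.upperPSeries (q i₀) G 2).1 ≤
          (Cfsg.pCore (q i₀) (G ⧸ (Cfsg.upperPSeries (q i₀) G 1).1)).comap
            (QuotientGroup.mk' _) := le_of_eq h2
      have hNQ : N ≤ (Cfsg.upperPSeries (q i₀) G 2).1 := by
        rw [h2]
        apply Subgroup.map_le_iff_le_comap.mp
        apply Cfsg.Agent.Lib.Helper4.le_pCore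
        · exact Subgroup.Normal.map hNn _ (QuotientGroup.mk'_surjective _)
        · exact hNq.map _
      have hQb : (Cfsg.upperPSeries (q i₀) G 2).1 ≠ ⊥ := by
        intro hbot
        apply hNb
        rw [eq_bot_iff, ← hbot]; exact hNQ
      have hQp : IsPGroup (q i₀) ↥(Cfsg.upperPSeries (q i₀) G 2).1 := by
        intro g
        have hg := hle2 g.2
        rw [Subgroup.mem_comap] at hg
        obtain ⟨k, hk⟩ := (Cfsg.Agent.Lib.Helper4.pCore_isPGroup (q i₀)
          (G ⧸ (Cfsg.upperPSeries (q i₀) G 1).1)) ⟨_, hg⟩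
        refine ⟨k, ?_⟩
        have h3 := congrArg Subtype.val hk
        have h4 : (QuotientGroup.mk' (Cfsg.upperPSeries (q i₀) G 1).1 (g : G)) ^ (q i₀) ^ k
            = 1 := by simpa using h3
        rw [← map_pow] at h4
        have h5 : (g : G) ^ (q i₀) ^ k ∈ (Cfsg.upperPSeries (q i₀) G 1).1 :=
          (QuotientGroup.eq_one_iff _).mp h4
        rw [hU, Subgroup.mem_bot] at h5
        apply Subtype.ext
        simpa using h5
      have hl1 : 1 ≤ l i₀ := by
        by_contra hlt
        have h0 : l i₀ = 0 := by omega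
        have h3 := hl i₀
        rw [h0] at h3
        have h4 : (Cfsg.upperPSeries (q i₀) G 1).1 = ⊤ := h3
        rw [hU] at h4
        exact bot_ne_top h4
      have hQ2 : ∀ i, Cfsg.PLengthLE (q i) (Function.update l i₀ (l i₀ - 1) i)
          (G ⧸ (Cfsg.upperPSeries (q i₀) G 2).1) := by
        intro i
        by_cases hi : i = i₀
        · rw [hi, Function.update_self]
          exact plengthLE_quotient_two (q i₀) (l i₀) hl1 (hl i₀)
        · rw [Function.update_of_ne hi]
          haveI : Fact (q i).Prime := ⟨hq i⟩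
          exact plengthLE_of_surjective (q i) (QuotientGroup.mk' _)
            (QuotientGroup.mk'_surjective _) (l i) (hl i)
      have hkey := key (Cfsg.upperPSeries (q i₀) G 2).1 hQb (Function.update l i₀ (l i₀ - 1)) hQ2
      obtain ⟨S, hS⟩ := IsPGroup.exists_le_sylow hQp
      have hD := derivedSeries_add_le_map (S : Subgroup G) _ (le_trans hkey hS) (d i₀)
      rw [hd i₀ S, Subgroup.map_bot] at hD
      have hsum : (Finset.univ.sum fun i => d i * Function.update l i₀ (l i₀ - 1) i) + d i₀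
          = Finset.univ.sum fun i => d i * l i := by
        have e1 := Finset.add_sum_erase Finset.univ
          (fun i => d i * Function.update l i₀ (l i₀ - 1) i) (Finset.mem_univ i₀)
        have e2 := Finset.add_sum_erase Finset.univ (fun i => d i * l i) (Finset.mem_univ i₀)
        have e3 : (Finset.univ.erase i₀).sum (fun i => d i * Function.update l i₀ (l i₀ - 1) i)
            = (Finset.univ.erase i₀).sum (fun i => d i * l i) := by
          apply Finset.sum_congr rfl
          intro i hi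
          rw [Function.update_of_ne (Finset.ne_of_mem_erase hi)]
        simp only [Function.update_self] at e1
        rw [← e1, ← e2, e3]
        obtain ⟨t, ht⟩ : ∃ t, l i₀ = t + 1 := ⟨l i₀ - 1, by omega⟩
        rw [ht, Nat.add_sub_cancel]
        ring
      rw [hsum] at hD
      exact le_bot_iff.mp hD

end Cfsg.Agent.Lib.Helper2
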