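import Mathlib
import Cfsg.Prelude
import Cfsg.Agent.Lib.Helper2.PLenQuot

set_option autoImplicit false

namespace Cfsg.Agent.Lib.Helper2

universe u v

theorem le_comap_pPrimeCore_of_pow {G : Type u} [Group G] [Finite G] (p : ℕ) [Fact p.Prime]
    (W Y : Subgroup G) [Y.Normal] (hWn : W.Normal) (m : ℕ) (hm : m.Coprime p)
    (hpow : ∀ w ∈ W, w ^ m ∈ Y) :
    W ≤ (Cfsg.pPrimeCore p (G ⧸ Y)).comap (QuotientGroup.mk' Y) := by
  have hp : p.Prime := Fact.out
  obtain ⟨X, hXdef⟩ : ∃ X : Subgroup (G ⧸ Y), X = W.map (QuotientGroup.mk' Y) := ⟨_, rfl⟩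
  have hXn : X.Normal := by
    rw [hXdef]
    exact Subgroup.Normal.map hWn _ (QuotientGroup.mk'_surjective Y)
  have hXpow : ∀ y ∈ X, y ^ m = 1 := by
    intro y hy
    rw [hXdef] at hy
    obtain ⟨w, hw, rfl⟩ := Subgroup.mem_map.mp hy
    rw [← map_pow]
    exact (QuotientGroup.eq_one_iff _).mpr (hpow w hw)
  have hXcop : (Nat.card X).Coprime p := by
    apply Nat.Coprime.symm
    rw [Nat.Prime.coprime_iff_not_dvd hp]
    intro hdvd
    obtain ⟨x, hx⟩ := exists_prime_orderOf_dvd_card' (G := ↥X) p hdvd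
    have h1 : x ^ m = 1 := by
      apply Subtype.ext
      have h0 := hXpow x x.2
      simpa using h0
    have h2 : orderOf x ∣ m := orderOf_dvd_of_pow_eq_one h1
    rw [hx] at h2
    have h3 : p ∣ Nat.gcd m p := Nat.dvd_gcd h2 dvd_rfl
    have h4 : Nat.gcd m p = 1 := hm
    rw [h4] at h3
    exact hp.one_lt.ne' (Nat.dvd_one.mp h3)
  have hle := Cfsg.Agent.Lib.Helper3.le_pPrimeCore hXn hXcop
  intro g hg
  rw [Subgroup.mem_comap]
  apply hle
  rw [hXdef]
  exact Subgroup.mem_map_of_mem _ hg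

theorem le_comap_pCore_of_pow {G : Type u} [Group G] (p : ℕ)
    (W Y : Subgroup G) [Y.Normal] (hWn : W.Normal)
    (hpow : ∀ w ∈ W, ∃ k : ℕ, w ^ p ^ k ∈ Y) :
    W ≤ (Cfsg.pCore p (G ⧸ Y)).comap (QuotientGroup.mk' Y) := by
  obtain ⟨X, hXdef⟩ : ∃ X : Subgroup (G ⧸ Y), X = W.map (QuotientGroup.mk' Y) := ⟨_, rfl⟩
  have hXn : X.Normal := by
    rw [hXdef]
    exact Subgroup.Normal.map hWn _ (QuotientGroup.mk'_surjective Y)
  have hXle : X ≤ W.map (QuotientGroup.mk' Y) := le_of_eq hXdef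
  have hXp : IsPGroup p ↥X := by
    intro y
    obtain ⟨w, hw, hyeq⟩ := Subgroup.mem_map.mp (hXle y.2)
    obtain ⟨k, hk⟩ := hpow w hw
    refine ⟨k, ?_⟩
    apply Subtype.ext
    have h1 : (y : G ⧸ Y) ^ p ^ k = 1 := by
      rw [← hyeq, ← map_pow]
      exact (QuotientGroup.eq_one_iff _).mpr hk
    simpa using h1
  have hle := Cfsg.Agent.Lib.Helper4.le_pCore hXn hXp
  intro g hg
  rw [Subgroup.mem_comap]
  apply hle
  rw [hXdef]
  exact Subgroup.mem_map_of_mem _ hg

theorem pow_mem_of_mem_comap_pPrimeCore {G : Type u} [Group G] [Finite G] (p : ℕ)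
    [Fact p.Prime] (V : Subgroup G) [V.Normal] :
    ∃ m : ℕ, m.Coprime p ∧
      ∀ w ∈ (Cfsg.pPrimeCore p (G ⧸ V)).comap (QuotientGroup.mk' V), w ^ m ∈ V := by
  have hp : p.Prime := Fact.out
  obtain ⟨m, hm⟩ : ∃ m, m = Nat.card (Cfsg.pPrimeCore p (G ⧸ V)) := ⟨_, rfl⟩
  have hmcop : m.Coprime p := by
    rw [hm]; exact Cfsg.Agent.Lib.Helper3.pPrimeCore_coprime hp (G ⧸ V)
  refine ⟨m, hmcop, ?_⟩
  intro w hw
  rw [Subgroup.mem_comap] at hw
  have h1 : (⟨QuotientGroup.mk' V w, hw⟩ : ↥(Cfsg.pPrimeCore p (G ⧸ V))) ^ m = 1 := by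
    rw [hm]; exact pow_card_eq_one'
  have h2 := congrArg Subtype.val h1
  have h3 : (QuotientGroup.mk' V w) ^ m = 1 := by simpa using h2
  rw [← map_pow] at h3
  exact (QuotientGroup.eq_one_iff _).mp h3

theorem pow_mem_of_mem_comap_pCore {G : Type u} [Group G] (p : ℕ) (V : Subgroup G) [V.Normal] :
    ∀ w ∈ (Cfsg.pCore p (G ⧸ V)).comap (QuotientGroup.mk' V), ∃ k : ℕ, w ^ p ^ k ∈ V := by
  intro w hw
  rw [Subgroup.mem_comap] at hw
  obtain ⟨k, hk⟩ := (Cfsg.Agent.Lib.Helper4.pCore_isPGroup p (G ⧸ V)) ⟨QuotientGroup.mk' V w, hw⟩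
  refine ⟨k, ?_⟩
  have h2 := congrArg Subtype.val hk
  have h3 : (QuotientGroup.mk' V w) ^ p ^ k = 1 := by simpa using h2
  rw [← map_pow] at h3
  exact (QuotientGroup.eq_one_iff _).mp h3

theorem upperPSeries_odd_pow {G : Type u} [Group G] [Finite G] (p : ℕ) [Fact p.Prime] (k : ℕ) :
    ∃ m : ℕ, m.Coprime p ∧ ∀ w ∈ (Cfsg.upperPSeries p G (2 * k + 1)).1,
      w ^ m ∈ (Cfsg.upperPSeries p G (2 * k)).1 := by
  obtain ⟨m, hm, h⟩ := pow_mem_of_mem_comap_pPrimeCore p (Cfsg.upperPSeries p G (2 * k)).1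
  refine ⟨m, hm, ?_⟩
  intro w hw
  have hle : (Cfsg.upperPSeries p G (2 * k + 1)).1 ≤
      (Cfsg.pPrimeCore p (G ⧸ (Cfsg.upperPSeries p G (2 * k)).1)).comap (QuotientGroup.mk' _) :=
    le_of_eq (upperPSeries_odd p G k)
  exact h w (hle hw)

theorem upperPSeries_even_pow {G : Type u} [Group G] (p : ℕ) (k : ℕ) :
    ∀ w ∈ (Cfsg.upperPSeries p G (2 * k + 2)).1,
      ∃ e : ℕ, w ^ p ^ e ∈ (Cfsg.upperPSeries p G (2 * k + 1)).1 := by
  intro w hw
  have hle : (Cfsg.upperPSeries p G (2 * k + 2)).1 ≤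
      (Cfsg.pCore p (G ⧸ (Cfsg.upperPSeries p G (2 * k + 1)).1)).comap (QuotientGroup.mk' _) :=
    le_of_eq (upperPSeries_even p G k)
  exact pow_mem_of_mem_comap_pCore p _ w (hle hw)

theorem upperPSeries_even_pow_unif {G : Type u} [Group G] [Finite G] (p : ℕ) [Fact p.Prime]
    (k : ℕ) :
    ∃ e : ℕ, ∀ w ∈ (Cfsg.upperPSeries p G (2 * k + 2)).1,
      w ^ p ^ e ∈ (Cfsg.upperPSeries p G (2 * k + 1)).1 := by
  obtain ⟨e, he⟩ := IsPGroup.iff_card.mp
    (Cfsg.Agent.Lib.Helper4.pCore_isPGroup p (G ⧸ (Cfsg.upperPSeries p G (2 * k + 1)).1))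
  refine ⟨e, ?_⟩
  intro w hw
  have hle : (Cfsg.upperPSeries p G (2 * k + 2)).1 ≤
      (Cfsg.pCore p (G ⧸ (Cfsg.upperPSeries p G (2 * k + 1)).1)).comap (QuotientGroup.mk' _) :=
    le_of_eq (upperPSeries_even p G k)
  have hw' := hle hw
  rw [Subgroup.mem_comap] at hw'
  have h1 : (⟨_, hw'⟩ : ↥(Cfsg.pCore p (G ⧸ (Cfsg.upperPSeries p G (2 * k + 1)).1))) ^ p ^ e
      = 1 := by
    rw [← he]; exact pow_card_eq_one'
  have h2 := congrArg Subtype.val h1
  have h3 : (QuotientGroup.mk' (Cfsg.upperPSeries p G (2 * k + 1)).1 w) ^ p ^ e = 1 := by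
    simpa using h2
  rw [← map_pow] at h3
  exact (QuotientGroup.eq_one_iff _).mp h3

theorem le_upperPSeries_odd {G : Type u} [Group G] [Finite G] (p : ℕ) [Fact p.Prime] (k : ℕ)
    (W : Subgroup G) (hWn : W.Normal) (m : ℕ) (hm : m.Coprime p)
    (hpow : ∀ w ∈ W, w ^ m ∈ (Cfsg.upperPSeries p G (2 * k)).1) :
    W ≤ (Cfsg.upperPSeries p G (2 * k + 1)).1 := by
  rw [upperPSeries_odd p G k]
  exact le_comap_pPrimeCore_of_pow p W _ hWn m hm hpow

theorem le_upperPSeries_even {G : Type u} [Group G] (p : ℕ) (k : ℕ)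
    (W : Subgroup G) (hWn : W.Normal)
    (hpow : ∀ w ∈ W, ∃ e : ℕ, w ^ p ^ e ∈ (Cfsg.upperPSeries p G (2 * k + 1)).1) :
    W ≤ (Cfsg.upperPSeries p G (2 * k + 2)).1 := by
  rw [upperPSeries_even p G k]
  exact le_comap_pCore_of_pow p W _ hWn hpow

/-- The upper `p`-series of a group pulls back into the upper `p`-series of a subgroup. -/
theorem upperPSeries_comap_le {G : Type u} {G' : Type v} [Group G] [Group G'] [Finite G]
    [Finite G'] (p : ℕ) [Fact p.Prime] (f : G →* G') (hf : Function.Injective f) :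
    ∀ k : ℕ, (Cfsg.upperPSeries p G' (2 * k)).1.comap f ≤ (Cfsg.upperPSeries p G (2 * k)).1 ∧
      (Cfsg.upperPSeries p G' (2 * k + 1)).1.comap f
        ≤ (Cfsg.upperPSeries p G (2 * k + 1)).1 := by
  have key : ∀ k : ℕ,
      (Cfsg.upperPSeries p G' (2 * k)).1.comap f ≤ (Cfsg.upperPSeries p G (2 * k)).1 →
      (Cfsg.upperPSeries p G' (2 * k + 1)).1.comap f
        ≤ (Cfsg.upperPSeries p G (2 * k + 1)).1 := by
    intro k hk
    obtain ⟨m, hm, hpow⟩ := upperPSeries_odd_pow (G := G') p k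
    have hn : ((Cfsg.upperPSeries p G' (2 * k + 1)).1.comap f).Normal := inferInstance
    apply le_upperPSeries_odd p k _ hn m hm
    intro w hw
    apply hk
    rw [Subgroup.mem_comap, map_pow]
    exact hpow _ (Subgroup.mem_comap.mp hw)
  intro k
  induction k with
  | zero =>
    have h0 : (Cfsg.upperPSeries p G' (2 * 0)).1.comap f
        ≤ (Cfsg.upperPSeries p G (2 * 0)).1 := by
      show (⊥ : Subgroup G').comap f ≤ ⊥
      intro g hg
      rw [Subgroup.mem_comap, Subgroup.mem_bot] at hg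
      rw [Subgroup.mem_bot]
      exact hf (by rw [hg, map_one])
    exact ⟨h0, key 0 h0⟩
  | succ k ih =>
    have h1 : (Cfsg.upperPSeries p G' (2 * (k + 1))).1.comap f
        ≤ (Cfsg.upperPSeries p G (2 * (k + 1))).1 := by
      have e2 : 2 * (k + 1) = 2 * k + 2 := by ring
      rw [e2]
      have hn : ((Cfsg.upperPSeries p G' (2 * k + 2)).1.comap f).Normal := inferInstance
      apply le_upperPSeries_even p k _ hn
      intro w hw
      obtain ⟨e, he⟩ := upperPSeries_even_pow (G := G') p k _ (Subgroup.mem_comap.mp hw)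
      refine ⟨e, ?_⟩
      apply ih.2
      rw [Subgroup.mem_comap, map_pow]
      exact he
    exact ⟨h1, key (k + 1) h1⟩

/-- `p`-length does not increase on passing to a subgroup. -/
theorem plengthLE_of_injective {G : Type u} {G' : Type v} [Group G] [Group G'] [Finite G]
    [Finite G'] (p : ℕ) [Fact p.Prime] (f : G →* G') (hf : Function.Injective f) (l : ℕ)
    (h : Cfsg.PLengthLE p l G') : Cfsg.PLengthLE p l G := by
  have h1 := (upperPSeries_comap_le p f hf l).2
  unfold Cfsg.PLengthLE at h ⊢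
  rw [h, Subgroup.comap_top] at h1
  exact top_le_iff.mp h1

theorem upperPSeries_map_le {G : Type u} {G' : Type v} [Group G] [Group G'] [Finite G]
    [Finite G'] (p : ℕ) [Fact p.Prime] (f : G →* G') (hf : Function.Surjective f) (k : ℕ) :
    (Cfsg.upperPSeries p G k).1.map f ≤ (Cfsg.upperPSeries p G' k).1 := by
  have h0 : (Cfsg.upperPSeries p G (2 * 0)).1.map f ≤ (Cfsg.upperPSeries p G' 0).1 := by
    have e : (Cfsg.upperPSeries p G (2 * 0)).1 = ⊥ := rfl
    rw [e, Subgroup.map_bot]; exact bot_le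
  rcases Nat.even_or_odd' k with ⟨j, rfl | rfl⟩
  · have h := (upper_series_map_aux p f hf 0 h0 j).1
    have e : 2 * (0 + j) = 2 * j := by ring
    rw [e] at h
    exact h
  · have h := (upper_series_map_aux p f hf 0 h0 j).2
    have e : 2 * (0 + j) + 1 = 2 * j + 1 := by ring
    rw [e] at h
    exact h

theorem upperPSeries_map_subtype_normal {G : Type u} [Group G] [Finite G] (p : ℕ)
    [Fact p.Prime] (M : Subgroup G) [M.Normal] (k : ℕ) :
    ((Cfsg.upperPSeries p ↥M k).1.map M.subtype).Normal := by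
  constructor
  intro x hx g
  obtain ⟨y, hy, rfl⟩ := Subgroup.mem_map.mp hx
  have h1 := upperPSeries_map_le p (MulAut.conjNormal g : ↥M ≃* ↥M).toMonoidHom
    (MulEquiv.surjective _) k
  have h2 : (MulAut.conjNormal g : ↥M ≃* ↥M) y ∈ (Cfsg.upperPSeries p ↥M k).1 :=
    h1 (Subgroup.mem_map_of_mem _ hy)
  have h3 : M.subtype ((MulAut.conjNormal g : ↥M ≃* ↥M) y) = g * M.subtype y * g⁻¹ :=
    MulAut.conjNormal_apply g y
  rw [← h3]
  exact Subgroup.mem_map_of_mem _ h2

/-- The upper `p`-series of a normal subgroup lies in the upper `p`-series of the group. -/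
theorem upperPSeries_subgroup_le {G : Type u} [Group G] [Finite G] (p : ℕ) [Fact p.Prime]
    (M : Subgroup G) [M.Normal] :
    ∀ k : ℕ, (Cfsg.upperPSeries p ↥M (2 * k)).1.map M.subtype
        ≤ (Cfsg.upperPSeries p G (2 * k)).1 ∧
      (Cfsg.upperPSeries p ↥M (2 * k + 1)).1.map M.subtype
        ≤ (Cfsg.upperPSeries p G (2 * k + 1)).1 := by
  have key : ∀ k : ℕ, (Cfsg.upperPSeries p ↥M (2 * k)).1.map M.subtype
        ≤ (Cfsg.upperPSeries p G (2 * k)).1 →
      (Cfsg.upperPSeries p ↥M (2 * k + 1)).1.map M.subtype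
        ≤ (Cfsg.upperPSeries p G (2 * k + 1)).1 := by
    intro k hk
    obtain ⟨m, hm, hpow⟩ := upperPSeries_odd_pow (G := ↥M) p k
    apply le_upperPSeries_odd p k _ (upperPSeries_map_subtype_normal p M (2 * k + 1)) m hm
    intro w hw
    obtain ⟨y, hy, rfl⟩ := Subgroup.mem_map.mp hw
    rw [← map_pow]
    exact hk (Subgroup.mem_map_of_mem _ (hpow y hy))
  intro k
  induction k with
  | zero =>
    have h0 : (Cfsg.upperPSeries p ↥M (2 * 0)).1.map M.subtype
        ≤ (Cfsg.upperPSeries p G (2 * 0)).1 := by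
      have e : (Cfsg.upperPSeries p ↥M (2 * 0)).1 = ⊥ := rfl
      rw [e, Subgroup.map_bot]; exact bot_le
    exact ⟨h0, key 0 h0⟩
  | succ k ih =>
    have h1 : (Cfsg.upperPSeries p ↥M (2 * (k + 1))).1.map M.subtype
        ≤ (Cfsg.upperPSeries p G (2 * (k + 1))).1 := by
      have e2 : 2 * (k + 1) = 2 * k + 2 := by ring
      rw [e2]
      apply le_upperPSeries_even p k _ (upperPSeries_map_subtype_normal p M (2 * k + 2))
      intro w hw
      obtain ⟨y, hy, rfl⟩ := Subgroup.mem_map.mp hw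
      obtain ⟨e, he⟩ := upperPSeries_even_pow (G := ↥M) p k y hy
      refine ⟨e, ?_⟩
      rw [← map_pow]
      exact ih.2 (Subgroup.mem_map_of_mem _ he)
    exact ⟨h1, key (k + 1) h1⟩

/-- The upper `p`-series of the quotient by an odd term is the shifted upper `p`-series. -/
theorem upperPSeries_shift {G : Type u} [Group G] [Finite G] (p : ℕ) [Fact p.Prime] (a : ℕ) :
    ∀ k : ℕ,
      (Cfsg.upperPSeries p (G ⧸ (Cfsg.upperPSeries p G (2 * a + 1)).1) (2 * k + 1)).1.comap
          (QuotientGroup.mk' (Cfsg.upperPSeries p G (2 * a + 1)).1)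
        ≤ (Cfsg.upperPSeries p G (2 * (a + k) + 1)).1 ∧
      (Cfsg.upperPSeries p (G ⧸ (Cfsg.upperPSeries p G (2 * a + 1)).1) (2 * k + 2)).1.comap
          (QuotientGroup.mk' (Cfsg.upperPSeries p G (2 * a + 1)).1)
        ≤ (Cfsg.upperPSeries p G (2 * (a + k) + 2)).1 := by
  have keyE : ∀ k : ℕ,
      (Cfsg.upperPSeries p (G ⧸ (Cfsg.upperPSeries p G (2 * a + 1)).1) (2 * k + 1)).1.comap
          (QuotientGroup.mk' (Cfsg.upperPSeries p G (2 * a + 1)).1)
        ≤ (Cfsg.upperPSeries p G (2 * (a + k) + 1)).1 →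
      (Cfsg.upperPSeries p (G ⧸ (Cfsg.upperPSeries p G (2 * a + 1)).1) (2 * k + 2)).1.comap
          (QuotientGroup.mk' (Cfsg.upperPSeries p G (2 * a + 1)).1)
        ≤ (Cfsg.upperPSeries p G (2 * (a + k) + 2)).1 := by
    intro k hk
    have hn : ((Cfsg.upperPSeries p (G ⧸ (Cfsg.upperPSeries p G (2 * a + 1)).1)
        (2 * k + 2)).1.comap
          (QuotientGroup.mk' (Cfsg.upperPSeries p G (2 * a + 1)).1)).Normal := inferInstance
    apply le_upperPSeries_even p (a + k) _ hn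
    intro w hw
    obtain ⟨e, he⟩ := upperPSeries_even_pow
      (G := G ⧸ (Cfsg.upperPSeries p G (2 * a + 1)).1) p k _ (Subgroup.mem_comap.mp hw)
    refine ⟨e, ?_⟩
    apply hk
    rw [Subgroup.mem_comap, map_pow]
    exact he
  intro k
  induction k with
  | zero =>
    have h0 : (Cfsg.upperPSeries p (G ⧸ (Cfsg.upperPSeries p G (2 * a + 1)).1)
          (2 * 0 + 1)).1.comap (QuotientGroup.mk' (Cfsg.upperPSeries p G (2 * a + 1)).1)
        ≤ (Cfsg.upperPSeries p G (2 * (a + 0) + 1)).1 := by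
      obtain ⟨m, hm, hpow⟩ := upperPSeries_odd_pow
        (G := G ⧸ (Cfsg.upperPSeries p G (2 * a + 1)).1) p 0
      obtain ⟨m2, hm2, hpow2⟩ := upperPSeries_odd_pow (G := G) p a
      have hn : ((Cfsg.upperPSeries p (G ⧸ (Cfsg.upperPSeries p G (2 * a + 1)).1)
          (2 * 0 + 1)).1.comap
            (QuotientGroup.mk' (Cfsg.upperPSeries p G (2 * a + 1)).1)).Normal := inferInstance
      apply le_upperPSeries_odd p (a + 0) _ hn (m * m2) (Nat.Coprime.mul_left hm hm2)
      intro w hw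
      have h1 := hpow _ (Subgroup.mem_comap.mp hw)
      have h2 : (QuotientGroup.mk' (Cfsg.upperPSeries p G (2 * a + 1)).1 w) ^ m = 1 := by
        have h3 : (QuotientGroup.mk' (Cfsg.upperPSeries p G (2 * a + 1)).1 w) ^ m ∈
            (⊥ : Subgroup (G ⧸ (Cfsg.upperPSeries p G (2 * a + 1)).1)) := h1
        exact Subgroup.mem_bot.mp h3
      rw [← map_pow] at h2
      have h4 : w ^ m ∈ (Cfsg.upperPSeries p G (2 * a + 1)).1 :=
        (QuotientGroup.eq_one_iff _).mp h2
      have h5 := hpow2 _ h4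
      rw [← pow_mul] at h5
      exact h5
    exact ⟨h0, keyE 0 h0⟩
  | succ k ih =>
    have h1 : (Cfsg.upperPSeries p (G ⧸ (Cfsg.upperPSeries p G (2 * a + 1)).1)
          (2 * (k + 1) + 1)).1.comap (QuotientGroup.mk' (Cfsg.upperPSeries p G (2 * a + 1)).1)
        ≤ (Cfsg.upperPSeries p G (2 * (a + (k + 1)) + 1)).1 := by
      obtain ⟨m, hm, hpow⟩ := upperPSeries_odd_pow
        (G := G ⧸ (Cfsg.upperPSeries p G (2 * a + 1)).1) p (k + 1)
      have hn : ((Cfsg.upperPSeries p (G ⧸ (Cfsg.upperPSeries p G (2 * a + 1)).1)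
          (2 * (k + 1) + 1)).1.comap
            (QuotientGroup.mk' (Cfsg.upperPSeries p G (2 * a + 1)).1)).Normal := inferInstance
      apply le_upperPSeries_odd p (a + (k + 1)) _ hn m hm
      intro w hw
      have h2 := hpow _ (Subgroup.mem_comap.mp hw)
      have e1 : 2 * (a + (k + 1)) = 2 * (a + k) + 2 := by ring
      have e2 : 2 * (k + 1) = 2 * k + 2 := by ring
      rw [e2] at h2
      rw [e1]
      apply ih.2
      rw [Subgroup.mem_comap, map_pow]
      exact h2
    exact ⟨h1, keyE (k + 1) h1⟩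

theorem plengthLE_of_quotient_odd {G : Type u} [Group G] [Finite G] (p : ℕ) [Fact p.Prime]
    (a b : ℕ) (h : Cfsg.PLengthLE p b (G ⧸ (Cfsg.upperPSeries p G (2 * a + 1)).1)) :
    Cfsg.PLengthLE p (a + b) G := by
  have h1 := (upperPSeries_shift (G := G) p a b).1
  unfold Cfsg.PLengthLE at h ⊢
  rw [h, Subgroup.comap_top] at h1
  exact top_le_iff.mp h1

/-- Sub-additivity of the `p`-length along `M ≤ Q ≤ G` with `Q / M` a `p'`-group. -/
theorem plengthLE_extension {G : Type u} [Group G] [Finite G] (p : ℕ) [Fact p.Prime]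
    (M Q : Subgroup G) [M.Normal] [Q.Normal] (a b m1 : ℕ) (hm1 : m1.Coprime p)
    (hQM : ∀ g ∈ Q, g ^ m1 ∈ M)
    (hM : Cfsg.PLengthLE p a ↥M) (hQ : Cfsg.PLengthLE p b (G ⧸ Q)) :
    Cfsg.PLengthLE p (a + b) G := by
  have hMW : M ≤ (Cfsg.upperPSeries p G (2 * a + 1)).1 := by
    have h1 := (upperPSeries_subgroup_le p M a).2
    have h2 : (Cfsg.upperPSeries p ↥M (2 * a + 1)).1 = ⊤ := hM
    rw [h2, ← MonoidHom.range_eq_map, Subgroup.range_subtype] at h1
    exact h1
  have hQW : Q ≤ (Cfsg.upperPSeries p G (2 * a + 1)).1 := by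
    obtain ⟨m2, hm2, hpow2⟩ := upperPSeries_odd_pow (G := G) p a
    apply le_upperPSeries_odd p a Q inferInstance (m1 * m2) (Nat.Coprime.mul_left hm1 hm2)
    intro g hg
    rw [pow_mul]
    exact hpow2 _ (hMW (hQM g hg))
  apply plengthLE_of_quotient_odd p a b
  have hle : Q ≤ (Cfsg.upperPSeries p G (2 * a + 1)).1.comap (MonoidHom.id G) := hQW
  have hsurj : Function.Surjective
      (QuotientGroup.map Q (Cfsg.upperPSeries p G (2 * a + 1)).1 (MonoidHom.id G) hle) := by
    intro x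
    obtain ⟨g, rfl⟩ := QuotientGroup.mk'_surjective _ x
    exact ⟨QuotientGroup.mk' Q g, rfl⟩
  exact plengthLE_of_surjective p _ hsurj b hQ

theorem plengthLE_one_of_pgroup {G : Type u} [Group G] [Finite G] (p : ℕ) [Fact p.Prime]
    (hG : IsPGroup p G) : Cfsg.PLengthLE p 1 G := by
  have h2 : (⊤ : Subgroup G) ≤ (Cfsg.upperPSeries p G (2 * 0 + 2)).1 := by
    apply le_upperPSeries_even p 0 ⊤ inferInstance
    intro w _
    obtain ⟨k, hk⟩ := hG w
    exact ⟨k, by rw [hk]; exact Subgroup.one_mem _⟩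
  have h3 : (⊤ : Subgroup G) ≤ (Cfsg.upperPSeries p G (2 * 1 + 1)).1 := by
    apply le_upperPSeries_odd p 1 ⊤ inferInstance 1 (Nat.coprime_one_left p)
    intro w _
    rw [pow_one]
    exact h2 (Subgroup.mem_top w)
  exact top_le_iff.mp h3

theorem card_upperPSeries_one_coprime {G : Type u} [Group G] [Finite G] (p : ℕ)
    [Fact p.Prime] : (Nat.card (Cfsg.upperPSeries p G 1).1).Coprime p := by
  have hp : p.Prime := Fact.out
  have h1 := relIndex_comap_mk (Cfsg.upperPSeries p G 0).1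
    (Cfsg.pPrimeCore p (G ⧸ (Cfsg.upperPSeries p G 0).1))
  rw [← upperPSeries_one] at h1
  have h2 : (Cfsg.upperPSeries p G 0).1.relIndex (Cfsg.upperPSeries p G 1).1
      = Nat.card (Cfsg.upperPSeries p G 1).1 :=
    Subgroup.relIndex_bot_left (Cfsg.upperPSeries p G 1).1
  rw [← h2, h1]
  exact Cfsg.Agent.Lib.Helper3.pPrimeCore_coprime hp (G ⧸ (Cfsg.upperPSeries p G 0).1)

/-- Hall--Higman: `l_p ≤ ∏_{q ≠ p} (1 + l_q)`. -/
theorem plen_prod_aux (p : ℕ) [Fact p.Prime] (r : ℕ) (q : Fin r → ℕ)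
    (hq : ∀ i, (q i).Prime ∧ q i ≠ p) (l : Fin r → ℕ) :
    ∀ (s : Finset (Fin r)) (G : Type u) [Group G] [Finite G],
      (∀ t : ℕ, t.Prime → t ∣ Nat.card G → t ≠ p → ∃ i ∈ s, q i = t) →
      (∀ i ∈ s, Cfsg.PLengthLE (q i) (l i) G) →
      Cfsg.PLengthLE p (s.prod fun i => 1 + l i) G := by
  have hp : p.Prime := Fact.out
  intro s
  induction s using Finset.induction_on with
  | empty =>
    intro G _ _ hcover _
    rw [Finset.prod_empty]
    apply plengthLE_one_of_pgroup
    have hcard : Nat.card G = p ^ (Nat.card G).primeFactorsList.length := by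
      apply Nat.eq_prime_pow_of_unique_prime_dvd (Nat.card_pos.ne')
      intro d hd hdvd
      by_contra hne
      obtain ⟨i, hi, _⟩ := hcover d hd hdvd hne
      simp at hi
    exact IsPGroup.of_card hcard
  | insert i₀ s' hi₀ ih =>
    have inner : ∀ (m : ℕ) (G : Type u) [Group G] [Finite G],
        (∀ t : ℕ, t.Prime → t ∣ Nat.card G → t ≠ p → ∃ i ∈ insert i₀ s', q i = t) →
        (∀ i ∈ s', Cfsg.PLengthLE (q i) (l i) G) →
        Cfsg.PLengthLE (q i₀) m G →
        Cfsg.PLengthLE p ((1 + m) * s'.prod fun i => 1 + l i) G := by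
      intro m
      induction m with
      | zero =>
        intro G _ _ hcover hl' h0
        haveI : Fact (q i₀).Prime := ⟨(hq i₀).1⟩
        have hcop : (Nat.card G).Coprime (q i₀) := by
          have h1 : (Cfsg.upperPSeries (q i₀) G 1).1 = ⊤ := h0
          have h2 := card_upperPSeries_one_coprime (G := G) (q i₀)
          rw [h1, Subgroup.card_top] at h2
          exact h2
        have hcover' : ∀ t : ℕ, t.Prime → t ∣ Nat.card G → t ≠ p → ∃ i ∈ s', q i = t := by
          intro t ht hdvd hne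
          obtain ⟨i, hi, hqi⟩ := hcover t ht hdvd hne
          rcases Finset.mem_insert.mp hi with h | h
          · exfalso
            rw [h] at hqi
            have hd' := hdvd
            rw [← hqi] at hd'
            have h3 : q i₀ ∣ Nat.gcd (Nat.card G) (q i₀) := Nat.dvd_gcd hd' dvd_rfl
            have h4 : Nat.gcd (Nat.card G) (q i₀) = 1 := hcop
            rw [h4] at h3
            exact (hq i₀).1.one_lt.ne' (Nat.dvd_one.mp h3)
          · exact ⟨i, h, hqi⟩
        have h5 := ih G hcover' hl'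
        have e : (1 + 0) * (s'.prod fun i => 1 + l i) = s'.prod fun i => 1 + l i := by ring
        rw [e]; exact h5
      | succ m ihm =>
        intro G _ _ hcover hl' hm1
        haveI : Fact (q i₀).Prime := ⟨(hq i₀).1⟩
        have hQ2 : Cfsg.PLengthLE (q i₀) m (G ⧸ (Cfsg.upperPSeries (q i₀) G 2).1) := by
          have h := plengthLE_quotient_two (q i₀) (m + 1) (by omega) hm1
          rw [Nat.add_sub_cancel] at h
          exact h
        have hcoverQ : ∀ t : ℕ, t.Prime →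
            t ∣ Nat.card (G ⧸ (Cfsg.upperPSeries (q i₀) G 2).1) → t ≠ p →
            ∃ i ∈ insert i₀ s', q i = t := by
          intro t ht hdvd hne
          exact hcover t ht (dvd_trans hdvd (Subgroup.card_quotient_dvd_card _)) hne
        have hlQ : ∀ i ∈ s',
            Cfsg.PLengthLE (q i) (l i) (G ⧸ (Cfsg.upperPSeries (q i₀) G 2).1) := by
          intro i hi
          haveI : Fact (q i).Prime := ⟨(hq i).1⟩
          exact plengthLE_of_surjective (q i) (QuotientGroup.mk' _)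
            (QuotientGroup.mk'_surjective _) (l i) (hl' i hi)
        have hGQ := ihm (G ⧸ (Cfsg.upperPSeries (q i₀) G 2).1) hcoverQ hlQ hQ2
        have hMcop : (Nat.card (Cfsg.upperPSeries (q i₀) G 1).1).Coprime (q i₀) :=
          card_upperPSeries_one_coprime (G := G) (q i₀)
        have hcoverM : ∀ t : ℕ, t.Prime →
            t ∣ Nat.card (Cfsg.upperPSeries (q i₀) G 1).1 → t ≠ p → ∃ i ∈ s', q i = t := by
          intro t ht hdvd hne
          obtain ⟨i, hi, hqi⟩ := hcover t ht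
            (dvd_trans hdvd (Subgroup.card_subgroup_dvd_card _)) hne
          rcases Finset.mem_insert.mp hi with h | h
          · exfalso
            rw [h] at hqi
            have hd' := hdvd
            rw [← hqi] at hd'
            have h3 : q i₀ ∣ Nat.gcd (Nat.card (Cfsg.upperPSeries (q i₀) G 1).1) (q i₀) :=
              Nat.dvd_gcd hd' dvd_rfl
            have h4 : Nat.gcd (Nat.card (Cfsg.upperPSeries (q i₀) G 1).1) (q i₀) = 1 := hMcop
            rw [h4] at h3
            exact (hq i₀).1.one_lt.ne' (Nat.dvd_one.mp h3)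
          · exact ⟨i, h, hqi⟩
        have hlM : ∀ i ∈ s',
            Cfsg.PLengthLE (q i) (l i) ↥(Cfsg.upperPSeries (q i₀) G 1).1 := by
          intro i hi
          haveI : Fact (q i).Prime := ⟨(hq i).1⟩
          exact plengthLE_of_injective (q i) (Subgroup.subtype _)
            (Subgroup.subtype_injective _) (l i) (hl' i hi)
        have hM := ih ↥(Cfsg.upperPSeries (q i₀) G 1).1 hcoverM hlM
        obtain ⟨e, he⟩ := upperPSeries_even_pow_unif (G := G) (q i₀) 0
        have hcop : ((q i₀) ^ e).Coprime p :=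
          Nat.Coprime.pow_left e ((Nat.coprime_primes (hq i₀).1 hp).mpr (hq i₀).2)
        have hfin := plengthLE_extension p (Cfsg.upperPSeries (q i₀) G 1).1
          (Cfsg.upperPSeries (q i₀) G 2).1 _ _ ((q i₀) ^ e) hcop he hM hGQ
        have e2 : (1 + (m + 1)) * (s'.prod fun i => 1 + l i)
            = (s'.prod fun i => 1 + l i) + (1 + m) * (s'.prod fun i => 1 + l i) := by ring
        rw [e2]; exact hfin
    intro G _ _ hcover hl
    rw [Finset.prod_insert hi₀]
    exact inner (l i₀) G hcover (fun i hi => hl i (Finset.mem_insert_of_mem hi))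
      (hl i₀ (Finset.mem_insert_self i₀ s'))

end Cfsg.Agent.Lib.Helper2
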