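import Mathlib
import Cfsg.Prelude
import Cfsg.Agent.Lib.Helper2.PLenSub
import Cfsg.Agent.Lib.Lead.SZ2
import Cfsg.Agent.Lib.Lead.SylowAux
import Cfsg.Agent.S4218

set_option autoImplicit false

namespace Cfsg.Agent.Lib.Helper2

open scoped Pointwise

universe u v

/-- One step of the comap comparison of upper `p`-series along an arbitrary homomorphism. -/
theorem upperPSeries_comap_step {G : Type u} {G' : Type v} [Group G] [Group G'] [Finite G]
    [Finite G'] (p : ℕ) [Fact p.Prime] (f : G →* G') (j : ℕ)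
    (h : (Cfsg.upperPSeries p G' j).1.comap f ≤ (Cfsg.upperPSeries p G j).1) :
    (Cfsg.upperPSeries p G' (j + 1)).1.comap f ≤ (Cfsg.upperPSeries p G (j + 1)).1 := by
  rcases Nat.even_or_odd' j with ⟨k, rfl | rfl⟩
  · obtain ⟨m, hm, hpow⟩ := upperPSeries_odd_pow (G := G') p k
    have hn : ((Cfsg.upperPSeries p G' (2 * k + 1)).1.comap f).Normal := inferInstance
    apply le_upperPSeries_odd p k _ hn m hm
    intro w hw
    apply h
    rw [Subgroup.mem_comap, map_pow]
    exact hpow _ (Subgroup.mem_comap.mp hw)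
  · have hn : ((Cfsg.upperPSeries p G' (2 * k + 2)).1.comap f).Normal := inferInstance
    show (Cfsg.upperPSeries p G' (2 * k + 2)).1.comap f ≤ (Cfsg.upperPSeries p G (2 * k + 2)).1
    apply le_upperPSeries_even p k _ hn
    intro w hw
    obtain ⟨e, he⟩ := upperPSeries_even_pow (G := G') p k _ (Subgroup.mem_comap.mp hw)
    refine ⟨e, ?_⟩
    apply h
    rw [Subgroup.mem_comap, map_pow]
    exact he

theorem upperPSeries_comap_chain {G : Type u} {G' : Type v} [Group G] [Group G'] [Finite G]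
    [Finite G'] (p : ℕ) [Fact p.Prime] (f : G →* G') (j₀ : ℕ)
    (h : (Cfsg.upperPSeries p G' j₀).1.comap f ≤ (Cfsg.upperPSeries p G j₀).1) :
    ∀ d : ℕ, (Cfsg.upperPSeries p G' (j₀ + d)).1.comap f
      ≤ (Cfsg.upperPSeries p G (j₀ + d)).1 := by
  intro d
  induction d with
  | zero => exact h
  | succ d ih => exact upperPSeries_comap_step p f (j₀ + d) ih

theorem upperPSeries_top_of_comap {G : Type u} {G' : Type v} [Group G] [Group G'] [Finite G]
    [Finite G'] (p : ℕ) [Fact p.Prime] (f : G →* G') (j₀ j : ℕ) (hj : j₀ ≤ j)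
    (h : (Cfsg.upperPSeries p G' j₀).1.comap f ≤ (Cfsg.upperPSeries p G j₀).1)
    (htop : (Cfsg.upperPSeries p G' j).1 = ⊤) : (Cfsg.upperPSeries p G j).1 = ⊤ := by
  obtain ⟨d, rfl⟩ := Nat.exists_eq_add_of_le hj
  have h1 := upperPSeries_comap_chain p f j₀ h d
  rw [htop, Subgroup.comap_top] at h1
  exact top_le_iff.mp h1

theorem upperPSeries_top_of_injective {G : Type u} {G' : Type v} [Group G] [Group G']
    [Finite G] [Finite G'] (p : ℕ) [Fact p.Prime] (f : G →* G') (hf : Function.Injective f)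
    (j : ℕ) (htop : (Cfsg.upperPSeries p G' j).1 = ⊤) : (Cfsg.upperPSeries p G j).1 = ⊤ := by
  apply upperPSeries_top_of_comap p f 0 j (Nat.zero_le j) _ htop
  show (⊥ : Subgroup G').comap f ≤ ⊥
  intro g hg
  rw [Subgroup.mem_comap, Subgroup.mem_bot] at hg
  rw [Subgroup.mem_bot]
  exact hf (by rw [hg, map_one])

theorem upperPSeries_top_of_surjective {G : Type u} {G' : Type v} [Group G] [Group G']
    [Finite G] [Finite G'] (p : ℕ) [Fact p.Prime] (f : G →* G') (hf : Function.Surjective f)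
    (j : ℕ) (htop : (Cfsg.upperPSeries p G j).1 = ⊤) : (Cfsg.upperPSeries p G' j).1 = ⊤ := by
  have h1 := upperPSeries_map_le p f hf j
  rw [htop, Subgroup.map_top_of_surjective f hf] at h1
  exact top_le_iff.mp h1

theorem upperPSeries_prod_le {A : Type u} {B : Type v} [Group A] [Group B] [Finite A] [Finite B]
    (p : ℕ) [Fact p.Prime] :
    ∀ j : ℕ, (Cfsg.upperPSeries p A j).1.prod (Cfsg.upperPSeries p B j).1
      ≤ (Cfsg.upperPSeries p (A × B) j).1 := by
  intro j
  induction j with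
  | zero =>
    show (⊥ : Subgroup A).prod (⊥ : Subgroup B) ≤ (⊥ : Subgroup (A × B))
    intro x hx
    obtain ⟨h1, h2⟩ := Subgroup.mem_prod.mp hx
    rw [Subgroup.mem_bot] at h1 h2 ⊢
    exact Prod.ext h1 h2
  | succ j ih =>
    rcases Nat.even_or_odd' j with ⟨k, rfl | rfl⟩
    · obtain ⟨mA, hmA, hpowA⟩ := upperPSeries_odd_pow (G := A) p k
      obtain ⟨mB, hmB, hpowB⟩ := upperPSeries_odd_pow (G := B) p k
      have hn : ((Cfsg.upperPSeries p A (2 * k + 1)).1.prod
          (Cfsg.upperPSeries p B (2 * k + 1)).1).Normal := inferInstance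
      apply le_upperPSeries_odd p k _ hn (mA * mB) (Nat.Coprime.mul_left hmA hmB)
      intro w hw
      obtain ⟨h1, h2⟩ := Subgroup.mem_prod.mp hw
      apply ih
      rw [Subgroup.mem_prod]
      constructor
      · have h3 : (w ^ (mA * mB)).1 = (w.1 ^ mA) ^ mB := by rw [Prod.pow_fst, pow_mul]
        rw [h3]
        exact Subgroup.pow_mem _ (hpowA _ h1) mB
      · have h3 : (w ^ (mA * mB)).2 = (w.2 ^ mB) ^ mA := by
          rw [Prod.pow_snd, mul_comm mA mB, pow_mul]
        rw [h3]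
        exact Subgroup.pow_mem _ (hpowB _ h2) mA
    · have hn : ((Cfsg.upperPSeries p A (2 * k + 2)).1.prod
          (Cfsg.upperPSeries p B (2 * k + 2)).1).Normal := inferInstance
      show (Cfsg.upperPSeries p A (2 * k + 2)).1.prod (Cfsg.upperPSeries p B (2 * k + 2)).1
        ≤ (Cfsg.upperPSeries p (A × B) (2 * k + 2)).1
      apply le_upperPSeries_even p k _ hn
      intro w hw
      obtain ⟨h1, h2⟩ := Subgroup.mem_prod.mp hw
      obtain ⟨eA, heA⟩ := upperPSeries_even_pow (G := A) p k _ h1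
      obtain ⟨eB, heB⟩ := upperPSeries_even_pow (G := B) p k _ h2
      refine ⟨eA + eB, ?_⟩
      apply ih
      rw [Subgroup.mem_prod]
      constructor
      · have h3 : (w ^ p ^ (eA + eB)).1 = (w.1 ^ p ^ eA) ^ p ^ eB := by
          rw [Prod.pow_fst, pow_add, pow_mul]
        rw [h3]
        exact Subgroup.pow_mem _ heA _
      · have h3 : (w ^ p ^ (eA + eB)).2 = (w.2 ^ p ^ eB) ^ p ^ eA := by
          rw [Prod.pow_snd, pow_add, mul_comm (p ^ eA) (p ^ eB), pow_mul]
        rw [h3]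
        exact Subgroup.pow_mem _ heB _

theorem upperPSeries_top_of_inf_eq_bot {G : Type u} [Group G] [Finite G] (p : ℕ) [Fact p.Prime]
    (N₁ N₂ : Subgroup G) [N₁.Normal] [N₂.Normal] (hinf : N₁ ⊓ N₂ = ⊥) (j : ℕ)
    (h1 : (Cfsg.upperPSeries p (G ⧸ N₁) j).1 = ⊤) (h2 : (Cfsg.upperPSeries p (G ⧸ N₂) j).1 = ⊤) :
    (Cfsg.upperPSeries p G j).1 = ⊤ := by
  have hprod : (Cfsg.upperPSeries p ((G ⧸ N₁) × (G ⧸ N₂)) j).1 = ⊤ := by
    have h := upperPSeries_prod_le (A := G ⧸ N₁) (B := G ⧸ N₂) p j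
    rw [h1, h2, Subgroup.top_prod_top] at h
    exact top_le_iff.mp h
  apply upperPSeries_top_of_injective p ((QuotientGroup.mk' N₁).prod (QuotientGroup.mk' N₂)) _ j
    hprod
  intro a b hab
  have e1 : QuotientGroup.mk' N₁ a = QuotientGroup.mk' N₁ b := congrArg Prod.fst hab
  have e2 : QuotientGroup.mk' N₂ a = QuotientGroup.mk' N₂ b := congrArg Prod.snd hab
  have e1' : (QuotientGroup.mk a : G ⧸ N₁) = QuotientGroup.mk b := e1
  have e2' : (QuotientGroup.mk a : G ⧸ N₂) = QuotientGroup.mk b := e2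
  have h3 : a⁻¹ * b ∈ N₁ := QuotientGroup.eq.mp e1'
  have h4 : a⁻¹ * b ∈ N₂ := QuotientGroup.eq.mp e2'
  have h5 : a⁻¹ * b ∈ N₁ ⊓ N₂ := ⟨h3, h4⟩
  rw [hinf, Subgroup.mem_bot] at h5
  exact inv_mul_eq_one.mp h5

theorem upperPSeries_top_of_pprime_quotient {G : Type u} [Group G] [Finite G] (p : ℕ)
    [Fact p.Prime] (N : Subgroup G) [N.Normal] (hN : (Nat.card N).Coprime p) (j : ℕ)
    (hj : 1 ≤ j) (h : (Cfsg.upperPSeries p (G ⧸ N) j).1 = ⊤) :
    (Cfsg.upperPSeries p G j).1 = ⊤ := by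
  apply upperPSeries_top_of_comap p (QuotientGroup.mk' N) 1 j hj _ h
  obtain ⟨m, hm, hpow⟩ := upperPSeries_odd_pow (G := G ⧸ N) p 0
  have hn : ((Cfsg.upperPSeries p (G ⧸ N) 1).1.comap (QuotientGroup.mk' N)).Normal :=
    inferInstance
  show (Cfsg.upperPSeries p (G ⧸ N) 1).1.comap (QuotientGroup.mk' N)
    ≤ (Cfsg.upperPSeries p G (2 * 0 + 1)).1
  apply le_upperPSeries_odd p 0 _ hn (m * Nat.card N) (Nat.Coprime.mul_left hm hN)
  intro w hw
  have h1 : (QuotientGroup.mk' N w) ^ m ∈ (⊥ : Subgroup (G ⧸ N)) :=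
    hpow _ (Subgroup.mem_comap.mp hw)
  rw [Subgroup.mem_bot, ← map_pow] at h1
  have h2 : w ^ m ∈ N := (QuotientGroup.eq_one_iff _).mp h1
  have h3 : (⟨w ^ m, h2⟩ : ↥N) ^ Nat.card N = 1 := pow_card_eq_one'
  have h4 := congrArg Subtype.val h3
  rw [Subgroup.coe_pow, Subgroup.coe_one] at h4
  have h5 : (w ^ m) ^ Nat.card N = 1 := h4
  rw [pow_mul, h5]
  exact Subgroup.one_mem _

/-- A normal `p`-subgroup inside the Frattini subgroup can be factored out when computing the
upper `p`-series from position two on. -/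
theorem upperPSeries_top_of_frattini_quotient {G : Type u} [Group G] [Finite G] (p : ℕ)
    [Fact p.Prime] (N : Subgroup G) [N.Normal] (hNp : IsPGroup p ↥N) (hNΦ : N ≤ frattini G)
    (j : ℕ) (hj : 2 ≤ j) (h : (Cfsg.upperPSeries p (G ⧸ N) j).1 = ⊤) :
    (Cfsg.upperPSeries p G j).1 = ⊤ := by
  have hp : p.Prime := Fact.out
  apply upperPSeries_top_of_comap p (QuotientGroup.mk' N) 2 j hj _ h
  obtain ⟨K, hKdef⟩ : ∃ K : Subgroup G,
      K = (Cfsg.upperPSeries p (G ⧸ N) 1).1.comap (QuotientGroup.mk' N) := ⟨_, rfl⟩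
  have hKn : K.Normal := by rw [hKdef]; infer_instance
  have hNK : N ≤ K := by
    rw [hKdef]
    intro x hx
    rw [Subgroup.mem_comap]
    have h1 : QuotientGroup.mk' N x = 1 := (QuotientGroup.eq_one_iff x).mpr hx
    rw [h1]; exact Subgroup.one_mem _
  obtain ⟨a, ha⟩ := IsPGroup.iff_card.mp hNp
  have hidx : (N.relIndex K).Coprime p := by
    have h1 := relIndex_comap_mk N (Cfsg.upperPSeries p (G ⧸ N) 1).1
    rw [← hKdef] at h1
    rw [h1]
    exact card_upperPSeries_one_coprime (G := G ⧸ N) p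
  have hcardN : Nat.card (N.subgroupOf K) = Nat.card N :=
    Nat.card_congr (Subgroup.subgroupOfEquivOfLe hNK).toEquiv
  have hcop : (Nat.card (N.subgroupOf K)).Coprime (N.subgroupOf K).index := by
    rw [hcardN, ha]
    exact Nat.Coprime.pow_left a hidx.symm
  obtain ⟨H₀, hH₀⟩ := Subgroup.exists_left_complement'_of_coprime hcop
  obtain ⟨Q, hQdef⟩ : ∃ Q : Subgroup G, Q = H₀.map K.subtype := ⟨_, rfl⟩
  have hQK : Q ≤ K := by rw [hQdef]; exact Subgroup.map_subtype_le H₀
  have hcardQ : Nat.card Q = N.relIndex K := by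
    rw [hQdef]
    have h1 : Nat.card (H₀.map K.subtype) = Nat.card H₀ :=
      Nat.card_congr (H₀.equivMapOfInjective K.subtype (Subgroup.subtype_injective K)).toEquiv.symm
    rw [h1]
    exact hH₀.index_eq_card.symm
  have hQcop : (Nat.card Q).Coprime p := by rw [hcardQ]; exact hidx
  have hKQN : K = Q ⊔ N := by
    have h1 := congrArg (Subgroup.map K.subtype) hH₀.sup_eq_top
    rw [Subgroup.map_sup, ← hQdef, Subgroup.map_subgroupOf_eq_of_le hNK,
      ← MonoidHom.range_eq_map, Subgroup.range_subtype] at h1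
    exact h1.symm
  have hQnorm : Q.Normal := by
    have hsolv : Group.IsSolvable ↥N ∨ Group.IsSolvable ↥Q := Or.inl (by
      haveI : Group.IsNilpotent ↥N := hNp.isNilpotent
      infer_instance)
    have hQnN : Q ≤ Subgroup.normalizer (N : Set G) := by
      rw [Subgroup.normalizer_eq_top]; exact le_top
    have hcopNQ : (Nat.card N).Coprime (Nat.card Q) := by
      rw [ha]; exact Nat.Coprime.pow_left a hQcop.symm
    have hall : ∀ g : G, g ∈ Subgroup.normalizer (Q : Set G) ⊔ frattini G := by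
      intro g
      have hQ'K : MulAut.conj g • Q ≤ Q ⊔ N := by
        rw [← hKQN]
        intro x hx
        rw [Cfsg.Agent.Lib.Lead.mem_conj_smul] at hx
        have h1 : g * (g⁻¹ * x * g) * g⁻¹ ∈ K := hKn.conj_mem _ (hQK hx) g
        have h2 : g * (g⁻¹ * x * g) * g⁻¹ = x := by group
        rw [h2] at h1
        exact h1
      obtain ⟨n, hn, hn2⟩ := Cfsg.Agent.Lib.Lead.szc N Q (MulAut.conj g • Q) hQnN hQ'K
        (Cfsg.Agent.Lib.Lead.card_conj_smul g Q) hcopNQ hsolv
      have hmem : n⁻¹ * g ∈ Subgroup.normalizer (Q : Set G) := by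
        rw [Subgroup.mem_normalizer_iff]
        intro x
        have e1 : n⁻¹ * g * x * (n⁻¹ * g)⁻¹ = n⁻¹ * (g * x * g⁻¹) * n := by group
        rw [e1]
        have h1 : g * x * g⁻¹ ∈ MulAut.conj n • Q ↔ n⁻¹ * (g * x * g⁻¹) * n ∈ Q :=
          Cfsg.Agent.Lib.Lead.mem_conj_smul
        have h2 : g * x * g⁻¹ ∈ MulAut.conj g • Q ↔ g⁻¹ * (g * x * g⁻¹) * g ∈ Q :=
          Cfsg.Agent.Lib.Lead.mem_conj_smul
        have e2 : g⁻¹ * (g * x * g⁻¹) * g = x := by group
        rw [e2] at h2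
        rw [← h1, hn2, h2]
      have e3 : g = n * (n⁻¹ * g) := by group
      rw [e3]
      exact Subgroup.mul_mem _ (Subgroup.mem_sup_right (hNΦ hn)) (Subgroup.mem_sup_left hmem)
    have htop : Subgroup.normalizer (Q : Set G) = ⊤ := by
      apply frattini_nongenerating
      rw [eq_top_iff]
      intro g _
      exact hall g
    exact Subgroup.normalizer_eq_top_iff.mp htop
  have hQU1 : Q ≤ (Cfsg.upperPSeries p G (2 * 0 + 1)).1 := by
    apply le_upperPSeries_odd p 0 Q hQnorm (Nat.card Q) hQcop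
    intro w hw
    have h3 : (⟨w, hw⟩ : ↥Q) ^ Nat.card Q = 1 := pow_card_eq_one'
    have h4 := congrArg Subtype.val h3
    rw [Subgroup.coe_pow, Subgroup.coe_one] at h4
    have h5 : w ^ Nat.card Q = 1 := h4
    rw [h5]
    exact Subgroup.one_mem _
  have hKpow : ∀ k ∈ K, k ^ p ^ a ∈ Q := by
    intro k hk
    rw [hKQN] at hk
    obtain ⟨q, hq, n, hn, rfl⟩ := Subgroup.mem_sup_of_normal_right.mp hk
    haveI := hQnorm
    have h1 : QuotientGroup.mk' Q ((q * n) ^ p ^ a) = 1 := by
      rw [map_pow, map_mul]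
      have h2 : QuotientGroup.mk' Q q = 1 := (QuotientGroup.eq_one_iff q).mpr hq
      rw [h2, one_mul, ← map_pow]
      have h3 : (⟨n, hn⟩ : ↥N) ^ p ^ a = 1 := by rw [← ha]; exact pow_card_eq_one'
      have h4 := congrArg Subtype.val h3
      rw [Subgroup.coe_pow, Subgroup.coe_one] at h4
      have h5 : n ^ p ^ a = 1 := h4
      rw [h5, map_one]
    exact (QuotientGroup.eq_one_iff _).mp h1
  have hn2 : ((Cfsg.upperPSeries p (G ⧸ N) 2).1.comap (QuotientGroup.mk' N)).Normal :=
    inferInstance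
  show (Cfsg.upperPSeries p (G ⧸ N) 2).1.comap (QuotientGroup.mk' N)
    ≤ (Cfsg.upperPSeries p G (2 * 0 + 2)).1
  apply le_upperPSeries_even p 0 _ hn2
  intro w hw
  obtain ⟨e, he⟩ := upperPSeries_even_pow (G := G ⧸ N) p 0 _ (Subgroup.mem_comap.mp hw)
  have h1 : w ^ p ^ e ∈ K := by
    rw [hKdef, Subgroup.mem_comap, map_pow]
    exact he
  refine ⟨e + a, ?_⟩
  have h2 : w ^ p ^ (e + a) = (w ^ p ^ e) ^ p ^ a := by rw [pow_add, pow_mul]
  rw [h2]
  exact hQU1 (hKpow _ h1)

/-- The complemented case: a unique minimal normal subgroup that is an abelian `p`-group with a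
complement which is `p`-nilpotent or of prime index. -/
theorem upperPSeries_four_of_complement {G : Type u} [Group G] [Finite G] (p : ℕ) [Fact p.Prime]
    (N M : Subgroup G) [N.Normal] (hNp : IsPGroup p ↥N) (hNb : N ≠ ⊥)
    (hNab : ∀ x ∈ N, ∀ y ∈ N, x * y = y * x)
    (hmin : ∀ L : Subgroup G, L.Normal → L ≠ ⊥ → N ≤ L)
    (hM : IsCoatom M) (hNM : ¬ N ≤ M)
    (hmaxM : (∃ K : Subgroup ↥M, K.Normal ∧ ¬ p ∣ Nat.card K ∧ ∃ k : ℕ, K.index = p ^ k) ∨
      (M.index).Prime) :
    (Cfsg.upperPSeries p G 4).1 = ⊤ := by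
  have hp : p.Prime := Fact.out
  have hNn : N.Normal := inferInstance
  have hsup : N ⊔ M = ⊤ := by
    apply hM.2
    exact lt_of_le_of_ne le_sup_right (fun h => hNM (by rw [h]; exact le_sup_left))
  have hgen : ∀ g : G, ∃ n ∈ N, ∃ m ∈ M, n * m = g := by
    intro g
    have hg : g ∈ N ⊔ M := by rw [hsup]; exact Subgroup.mem_top g
    exact Subgroup.mem_sup_of_normal_left.mp hg
  have hinfn : (N ⊓ M).Normal := by
    constructor
    intro x hx g
    obtain ⟨n, hn, m, hm, rfl⟩ := hgen g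
    have hxN : x ∈ N := hx.1
    have hxM : x ∈ M := hx.2
    have h1 : m * x * m⁻¹ ∈ N := hNn.conj_mem x hxN m
    have h2 : m * x * m⁻¹ ∈ M := M.mul_mem (M.mul_mem hm hxM) (M.inv_mem hm)
    have h3 : n * m * x * (n * m)⁻¹ = m * x * m⁻¹ := by
      have h4 : n * (m * x * m⁻¹) = (m * x * m⁻¹) * n := hNab n hn _ h1
      calc n * m * x * (n * m)⁻¹ = n * (m * x * m⁻¹) * n⁻¹ := by group
        _ = (m * x * m⁻¹) * n * n⁻¹ := by rw [h4]
        _ = m * x * m⁻¹ := by group
    rw [h3]
    exact ⟨h1, h2⟩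
  have hinf : N ⊓ M = ⊥ := by
    by_contra hne
    exact hNM (le_trans (hmin _ hinfn hne) inf_le_right)
  have hcentn : (M ⊓ Subgroup.centralizer (N : Set G)).Normal := by
    constructor
    intro x hx g
    obtain ⟨n, hn, m, hm, rfl⟩ := hgen g
    have hxM : x ∈ M := hx.1
    have hxC : x ∈ Subgroup.centralizer (N : Set G) := hx.2
    have hCn : (Subgroup.centralizer (N : Set G)).Normal := inferInstance
    have h1 : m * x * m⁻¹ ∈ Subgroup.centralizer (N : Set G) := hCn.conj_mem x hxC m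
    have h2 : m * x * m⁻¹ ∈ M := M.mul_mem (M.mul_mem hm hxM) (M.inv_mem hm)
    have h3 : n * m * x * (n * m)⁻¹ = m * x * m⁻¹ := by
      have h4 : n * (m * x * m⁻¹) = (m * x * m⁻¹) * n :=
        Subgroup.mem_centralizer_iff.mp h1 n hn
      calc n * m * x * (n * m)⁻¹ = n * (m * x * m⁻¹) * n⁻¹ := by group
        _ = (m * x * m⁻¹) * n * n⁻¹ := by rw [h4]
        _ = m * x * m⁻¹ := by group
    rw [h3]
    exact ⟨h2, h1⟩
  have hcent : M ⊓ Subgroup.centralizer (N : Set G) = ⊥ := by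
    by_contra hne
    exact hNM (le_trans (hmin _ hcentn hne) inf_le_left)
  have hNU2 : N ≤ (Cfsg.upperPSeries p G (2 * 0 + 2)).1 := by
    apply le_upperPSeries_even p 0 N hNn
    intro w hw
    obtain ⟨k, hk⟩ := hNp ⟨w, hw⟩
    refine ⟨k, ?_⟩
    have h4 := congrArg Subtype.val hk
    rw [Subgroup.coe_pow, Subgroup.coe_one] at h4
    have h5 : w ^ p ^ k = 1 := h4
    rw [h5]
    exact Subgroup.one_mem _
  have hK1 : ∃ (K₁ : Subgroup G) (m₁ e₁ : ℕ), K₁.Normal ∧ m₁.Coprime p ∧
      (∀ x ∈ K₁, x ^ m₁ ∈ N) ∧ ∀ g : G, g ^ p ^ e₁ ∈ K₁ := by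
    rcases hmaxM with ⟨K₀, hK₀n, hK₀p, k, hK₀i⟩ | hprime
    · obtain ⟨K, hKdef⟩ : ∃ K : Subgroup G, K = K₀.map M.subtype := ⟨_, rfl⟩
      have hKcard : Nat.card K = Nat.card K₀ := by
        rw [hKdef]
        exact Nat.card_congr
          (K₀.equivMapOfInjective M.subtype (Subgroup.subtype_injective M)).toEquiv.symm
      have hKconj : ∀ m ∈ M, ∀ x ∈ K, m * x * m⁻¹ ∈ K := by
        intro m hm x hx
        rw [hKdef] at hx ⊢
        obtain ⟨y, hy, rfl⟩ := Subgroup.mem_map.mp hx
        exact Subgroup.mem_map.mpr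
          ⟨⟨m, hm⟩ * y * ⟨m, hm⟩⁻¹, hK₀n.conj_mem y hy ⟨m, hm⟩, rfl⟩
      have hMpow : ∀ m ∈ M, m ^ p ^ k ∈ K := by
        intro m hm
        haveI := hK₀n
        have h1 : (⟨m, hm⟩ : ↥M) ^ K₀.index ∈ K₀ := Subgroup.pow_index_mem K₀ ⟨m, hm⟩
        rw [hK₀i] at h1
        have h2 : m ^ p ^ k = (((⟨m, hm⟩ : ↥M) ^ p ^ k : ↥M) : G) :=
          (Subgroup.coe_pow M ⟨m, hm⟩ (p ^ k)).symm
        rw [h2, hKdef]
        exact Subgroup.mem_map_of_mem M.subtype h1
      refine ⟨N ⊔ K, Nat.card K, k, ?_, ?_, ?_, ?_⟩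
      · constructor
        intro x hx g
        obtain ⟨n, hn, m, hm, rfl⟩ := hgen g
        obtain ⟨a, ha, b, hb, rfl⟩ := Subgroup.mem_sup_of_normal_left.mp hx
        have h1 : n * m * a * (n * m)⁻¹ ∈ N := hNn.conj_mem a ha (n * m)
        have h2 : m * b * m⁻¹ ∈ K := hKconj m hm b hb
        have h3 : n * (m * b * m⁻¹) * n⁻¹ * (m * b * m⁻¹)⁻¹ ∈ N := by
          have h4 : (m * b * m⁻¹) * n⁻¹ * (m * b * m⁻¹)⁻¹ ∈ N :=
            hNn.conj_mem n⁻¹ (N.inv_mem hn) _
          have h5 : n * (m * b * m⁻¹) * n⁻¹ * (m * b * m⁻¹)⁻¹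
              = n * ((m * b * m⁻¹) * n⁻¹ * (m * b * m⁻¹)⁻¹) := by group
          rw [h5]
          exact N.mul_mem hn h4
        have h6 : n * m * (a * b) * (n * m)⁻¹ = (n * m * a * (n * m)⁻¹) *
            (n * (m * b * m⁻¹) * n⁻¹ * (m * b * m⁻¹)⁻¹) * (m * b * m⁻¹) := by group
        rw [h6]
        exact Subgroup.mul_mem _ (Subgroup.mem_sup_left (N.mul_mem h1 h3))
          (Subgroup.mem_sup_right h2)
      · rw [hKcard]
        exact Nat.Coprime.symm ((Nat.Prime.coprime_iff_not_dvd hp).mpr hK₀p)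
      · intro x hx
        obtain ⟨a, ha, b, hb, rfl⟩ := Subgroup.mem_sup_of_normal_left.mp hx
        have h1 : QuotientGroup.mk' N ((a * b) ^ Nat.card K) = 1 := by
          rw [map_pow, map_mul]
          have h2 : QuotientGroup.mk' N a = 1 := (QuotientGroup.eq_one_iff a).mpr ha
          rw [h2, one_mul, ← map_pow]
          have h3 : (⟨b, hb⟩ : ↥K) ^ Nat.card K = 1 := pow_card_eq_one'
          have h4 := congrArg Subtype.val h3
          rw [Subgroup.coe_pow, Subgroup.coe_one] at h4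
          have h5 : b ^ Nat.card K = 1 := h4
          rw [h5, map_one]
        exact (QuotientGroup.eq_one_iff _).mp h1
      · intro g
        obtain ⟨n, hn, m, hm, rfl⟩ := hgen g
        have h1 : QuotientGroup.mk' N (m ^ p ^ k) = QuotientGroup.mk' N ((n * m) ^ p ^ k) := by
          rw [map_pow, map_pow, map_mul]
          have h2 : QuotientGroup.mk' N n = 1 := (QuotientGroup.eq_one_iff n).mpr hn
          rw [h2, one_mul]
        have h1' : (QuotientGroup.mk (m ^ p ^ k) : G ⧸ N) = QuotientGroup.mk ((n * m) ^ p ^ k) :=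
          h1
        have h3 : (m ^ p ^ k)⁻¹ * (n * m) ^ p ^ k ∈ N := QuotientGroup.eq.mp h1'
        have h4 : (n * m) ^ p ^ k = (m ^ p ^ k) * ((m ^ p ^ k)⁻¹ * (n * m) ^ p ^ k) := by group
        rw [h4]
        exact Subgroup.mul_mem _ (Subgroup.mem_sup_right (hMpow m hm)) (Subgroup.mem_sup_left h3)
    · have hcompl : Subgroup.IsComplement' N M := by
        apply Subgroup.isComplement'_of_disjoint_and_mul_eq_univ (disjoint_iff.mpr hinf)
        apply Set.eq_univ_of_forall
        intro g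
        obtain ⟨n, hn, m, hm, h⟩ := hgen g
        exact Set.mem_mul.mpr ⟨n, hn, m, hm, h⟩
      have hNcard : Nat.card N = M.index := hcompl.index_eq_card.symm
      have hNidx : N.index = Nat.card M := hcompl.symm.index_eq_card
      obtain ⟨a, ha⟩ := IsPGroup.iff_card.mp hNp
      have hNp' : Nat.card N = p := by
        have ha0 : a ≠ 0 := by
          intro h0
          rw [h0, pow_zero] at ha
          exact hNb (Subgroup.card_eq_one.mp ha)
        have h1 : p ∣ Nat.card N := by rw [ha]; exact dvd_pow_self p ha0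
        rw [hNcard] at h1 ⊢
        exact ((Nat.prime_dvd_prime_iff_eq hp hprime).mp h1).symm
      have hMcop : ¬ p ∣ Nat.card M := by
        intro hdvd
        obtain ⟨m, hm⟩ := exists_prime_orderOf_dvd_card' (G := ↥M) p hdvd
        obtain ⟨x₀, hx₀N, hx₀1⟩ : ∃ x ∈ N, x ≠ 1 := by
          by_contra hcon
          push Not at hcon
          apply hNb
          rw [eq_bot_iff]
          intro x hx
          rw [Subgroup.mem_bot]
          exact hcon x hx
        have hord : orderOf x₀ = p := by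
          have h1 : orderOf x₀ ∣ p := by
            rw [← hNp']
            have h2 : orderOf (⟨x₀, hx₀N⟩ : ↥N) ∣ Nat.card N := orderOf_dvd_natCard _
            rw [← Subgroup.orderOf_coe] at h2
            exact h2
          rcases (Nat.dvd_prime hp).mp h1 with h | h
          · exact absurd (orderOf_eq_one_iff.mp h) hx₀1
          · exact h
        have hzp : ∀ y ∈ N, ∃ i : ℕ, x₀ ^ i = y := by
          intro y hy
          have h1 : Subgroup.zpowers x₀ = N := by
            apply Subgroup.eq_of_le_of_card_ge (Subgroup.zpowers_le.mpr hx₀N)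
            rw [Nat.card_zpowers, hord, hNp']
          have h2 : y ∈ Subgroup.zpowers x₀ := by rw [h1]; exact hy
          have h3 : y ∈ Submonoid.powers x₀ :=
            (isOfFinOrder_of_finite x₀).mem_powers_iff_mem_zpowers.mpr h2
          exact (Submonoid.mem_powers_iff y x₀).mp h3
        obtain ⟨i, hi⟩ := hzp ((m : G) * x₀ * (m : G)⁻¹) (hNn.conj_mem x₀ hx₀N m)
        have hiter : ∀ j : ℕ, (m : G) ^ j * x₀ * ((m : G) ^ j)⁻¹ = x₀ ^ (i ^ j) := by
          intro j
          induction j with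
          | zero => simp
          | succ j ih =>
            have e1 : (m : G) ^ (j + 1) * x₀ * ((m : G) ^ (j + 1))⁻¹
                = (m : G) * ((m : G) ^ j * x₀ * ((m : G) ^ j)⁻¹) * (m : G)⁻¹ := by
              rw [pow_succ']; group
            rw [e1, ih]
            have e2 : (m : G) * x₀ ^ (i ^ j) * (m : G)⁻¹
                = ((m : G) * x₀ * (m : G)⁻¹) ^ (i ^ j) := conj_pow.symm
            rw [e2, ← hi, ← pow_mul, pow_succ']
        have hmp : (m : G) ^ p = 1 := by
          have h1 : m ^ p = 1 := by rw [← hm]; exact pow_orderOf_eq_one m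
          have h2 := congrArg Subtype.val h1
          rw [Subgroup.coe_pow, Subgroup.coe_one] at h2
          exact h2
        have h1 := hiter p
        rw [hmp, one_mul, inv_one, mul_one] at h1
        have h2 : x₀ ^ 1 = x₀ ^ (i ^ p) := by rw [pow_one]; exact h1
        have h3 : 1 ≡ i ^ p [MOD p] := by
          have h := pow_eq_pow_iff_modEq.mp h2
          rw [hord] at h
          exact h
        have h4 : (i : ZMod p) = 1 := by
          have h5 : ((1 : ℕ) : ZMod p) = ((i ^ p : ℕ) : ZMod p) :=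
            (ZMod.natCast_eq_natCast_iff _ _ _).mpr h3
          rw [Nat.cast_one, Nat.cast_pow, ZMod.pow_card] at h5
          exact h5.symm
        have h6 : i ≡ 1 [MOD p] := by
          have h7 : ((i : ℕ) : ZMod p) = ((1 : ℕ) : ZMod p) := by rw [h4, Nat.cast_one]
          exact (ZMod.natCast_eq_natCast_iff _ _ _).mp h7
        have h8 : x₀ ^ i = x₀ ^ 1 := by
          apply pow_eq_pow_iff_modEq.mpr
          rw [hord]; exact h6
        rw [pow_one] at h8
        have hmc : (m : G) ∈ Subgroup.centralizer (N : Set G) := by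
          rw [Subgroup.mem_centralizer_iff]
          intro y hy
          obtain ⟨t, rfl⟩ := hzp y hy
          have h9 : (m : G) * x₀ = x₀ * (m : G) := by
            have h10 : (m : G) * x₀ * (m : G)⁻¹ = x₀ := by rw [← hi, h8]
            calc (m : G) * x₀ = ((m : G) * x₀ * (m : G)⁻¹) * (m : G) := by group
              _ = x₀ * (m : G) := by rw [h10]
          have h11 : Commute (m : G) x₀ := h9
          exact ((h11.pow_right t).eq).symm
        have hmbot : (m : G) ∈ M ⊓ Subgroup.centralizer (N : Set G) := ⟨m.2, hmc⟩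
        rw [hcent, Subgroup.mem_bot] at hmbot
        have hm1 : m = 1 := Subtype.ext hmbot
        rw [hm1, orderOf_one] at hm
        exact hp.one_lt.ne hm
      refine ⟨⊤, N.index, 0, inferInstance, ?_, ?_, ?_⟩
      · rw [hNidx]
        exact Nat.Coprime.symm ((Nat.Prime.coprime_iff_not_dvd hp).mpr hMcop)
      · intro x _
        exact Subgroup.pow_index_mem N x
      · intro g
        exact Subgroup.mem_top _
  obtain ⟨K₁, m₁, e₁, hK₁n, hm₁, hK₁N, hGK₁⟩ := hK1
  have hK1U3 : K₁ ≤ (Cfsg.upperPSeries p G (2 * 1 + 1)).1 := by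
    apply le_upperPSeries_odd p 1 K₁ hK₁n m₁ hm₁
    intro w hw
    exact hNU2 (hK₁N w hw)
  have htop : (⊤ : Subgroup G) ≤ (Cfsg.upperPSeries p G (2 * 1 + 2)).1 := by
    apply le_upperPSeries_even p 1 ⊤ inferInstance
    intro w _
    exact ⟨e₁, hK1U3 (hGK₁ w)⟩
  exact top_le_iff.mp htop

/-- Every maximal subgroup is `p`-nilpotent or of prime index. -/
def MaxPNilpOrPrime (p : ℕ) (G : Type u) [Group G] : Prop :=
  ∀ M : Subgroup G, IsCoatom M →
    (∃ K : Subgroup ↥M, K.Normal ∧ ¬ p ∣ Nat.card K ∧ ∃ k : ℕ, K.index = p ^ k) ∨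
      (M.index).Prime

theorem maxPNilpOrPrime_quotient {G : Type u} [Group G] [Finite G] (p : ℕ) [Fact p.Prime]
    (N : Subgroup G) [N.Normal] (h : MaxPNilpOrPrime p G) : MaxPNilpOrPrime p (G ⧸ N) := by
  have hp : p.Prime := Fact.out
  intro Mb hMb
  have hs := QuotientGroup.mk'_surjective N
  obtain ⟨M, hMdef⟩ : ∃ M : Subgroup G, M = Mb.comap (QuotientGroup.mk' N) := ⟨_, rfl⟩
  have hmap : M.map (QuotientGroup.mk' N) = Mb := by
    rw [hMdef]; exact Subgroup.map_comap_eq_self_of_surjective hs Mb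
  have hNM : N ≤ M := by
    rw [hMdef]
    intro x hx
    rw [Subgroup.mem_comap]
    have h1 : QuotientGroup.mk' N x = 1 := (QuotientGroup.eq_one_iff x).mpr hx
    rw [h1]; exact Subgroup.one_mem _
  have hM : IsCoatom M := by
    constructor
    · intro htop
      apply hMb.1
      rw [← hmap, htop]
      exact Subgroup.map_top_of_surjective _ hs
    · intro L hL
      have hNL : N ≤ L := le_trans hNM hL.le
      have hLc : (L.map (QuotientGroup.mk' N)).comap (QuotientGroup.mk' N) = L := by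
        rw [Subgroup.comap_map_eq, QuotientGroup.ker_mk', sup_eq_left.mpr hNL]
      have h1 : Mb ≤ L.map (QuotientGroup.mk' N) := by
        rw [← hmap]; exact Subgroup.map_mono hL.le
      have h2 : Mb ≠ L.map (QuotientGroup.mk' N) := by
        intro heq
        apply hL.ne
        rw [← hLc, ← heq, hMdef]
      have h3 := hMb.2 _ (lt_of_le_of_ne h1 h2)
      rw [← hLc, h3, Subgroup.comap_top]
  rcases h M hM with ⟨K₀, hK₀n, hK₀p, k, hK₀i⟩ | hprime
  · left
    obtain ⟨φ, hφdef⟩ : ∃ φ : ↥M →* ↥Mb,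
        ∀ x : ↥M, ((φ x : ↥Mb) : G ⧸ N) = QuotientGroup.mk' N (x : G) := by
      subst hMdef
      exact ⟨(QuotientGroup.mk' N).subgroupComap Mb, fun x => rfl⟩
    have hφs : Function.Surjective φ := by
      intro y
      obtain ⟨g, hg⟩ := hs (y : G ⧸ N)
      have hgM : g ∈ M := by
        rw [hMdef, Subgroup.mem_comap, hg]; exact y.2
      exact ⟨⟨g, hgM⟩, Subtype.ext (by rw [hφdef]; exact hg)⟩
    refine ⟨K₀.map φ, Subgroup.Normal.map hK₀n φ hφs, ?_, ?_⟩
    · intro hdvd
      exact hK₀p (dvd_trans hdvd (Subgroup.card_map_dvd K₀ φ))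
    · have h1 : (K₀.map φ).index ∣ K₀.index := Subgroup.index_map_dvd K₀ hφs
      rw [hK₀i] at h1
      obtain ⟨k', _, hk'⟩ := (Nat.dvd_prime_pow hp).mp h1
      exact ⟨k', hk'⟩
  · right
    have h1 : M.index = Mb.index := by
      rw [hMdef]; exact Subgroup.index_comap_of_surjective Mb hs
    rw [← h1]; exact hprime

/-- A `p`-solvable group all of whose maximal subgroups are `p`-nilpotent or of prime index
satisfies `G = O_{p',p,p',p}(G)`. -/
theorem upperPSeries_four_of_maxPNilp (p : ℕ) [Fact p.Prime] :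
    ∀ (n : ℕ) (G : Type u) [Group G] [Finite G], Nat.card G = n → Cfsg.IsPSolvable p G →
      MaxPNilpOrPrime p G → (Cfsg.upperPSeries p G 4).1 = ⊤ := by
  classical
  have hp : p.Prime := Fact.out
  intro n
  induction n using Nat.strong_induction_on with
  | _ n ih =>
    intro G _ _ hn hsol hmax
    by_cases hnt : Nontrivial G
    swap
    · rw [not_nontrivial_iff_subsingleton] at hnt
      exact Subsingleton.elim _ _
    haveI := hnt
    have hquot : ∀ (N : Subgroup G) [N.Normal], N ≠ ⊥ →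
        (Cfsg.upperPSeries p (G ⧸ N) 4).1 = ⊤ := by
      intro N _ hNb
      have hlt : Nat.card (G ⧸ N) < n := by
        rw [← hn]
        have h1 := Subgroup.card_eq_card_quotient_mul_card_subgroup N
        have h2 : 1 < Nat.card N := by
          rcases Nat.lt_or_ge 1 (Nat.card N) with h | h
          · exact h
          · exfalso
            apply hNb
            apply Subgroup.card_eq_one.mp
            have := Nat.card_pos (α := N)
            omega
        have h3 : 0 < Nat.card (G ⧸ N) := Nat.card_pos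
        rw [h1]
        nlinarith
      exact ih _ hlt (G ⧸ N) rfl (Cfsg.Agent.S4218.isPSolvable_quotient N hsol)
        (maxPNilpOrPrime_quotient p N hmax)
    by_cases hsplit : ∃ N₁ N₂ : Subgroup G, N₁.Normal ∧ N₂.Normal ∧ N₁ ≠ ⊥ ∧ N₂ ≠ ⊥ ∧
        N₁ ⊓ N₂ = ⊥
    · obtain ⟨N₁, N₂, hn1, hn2, hb1, hb2, hinf⟩ := hsplit
      haveI := hn1
      haveI := hn2
      exact upperPSeries_top_of_inf_eq_bot p N₁ N₂ hinf 4 (hquot N₁ hb1) (hquot N₂ hb2)
    · by_cases hO : Cfsg.pPrimeCore p G = ⊥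
      swap
      · haveI := Cfsg.Agent.Lib.Helper3.pPrimeCore_normal p G
        exact upperPSeries_top_of_pprime_quotient p (Cfsg.pPrimeCore p G)
          (Cfsg.Agent.Lib.Helper3.pPrimeCore_coprime hp G) 4 (by norm_num) (hquot _ hO)
      have hPn : (Cfsg.pCore p G).Normal := Cfsg.Agent.Lib.Helper4.pCore_normal p G
      have hPb : Cfsg.pCore p G ≠ ⊥ := by
        intro hbot
        have h1 := Cfsg.Agent.S4218.hh123 hsol hO
        rw [hbot] at h1
        have h2 : (⊤ : Subgroup G) ≤ ⊥ := by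
          intro g _
          apply h1
          rw [Subgroup.mem_centralizer_iff]
          intro x hx
          have hx1 : x = 1 := Subgroup.mem_bot.mp hx
          rw [hx1, one_mul, mul_one]
        exact bot_ne_top (le_antisymm bot_le h2)
      have hex : ∃ c : ℕ, ∃ N : Subgroup G, N.Normal ∧ N ≠ ⊥ ∧ Nat.card N = c :=
        ⟨_, Cfsg.pCore p G, hPn, hPb, rfl⟩
      obtain ⟨N, hNn, hNb, hNc⟩ := Nat.find_spec hex
      have hNmin' : ∀ L : Subgroup G, L.Normal → L ≠ ⊥ → Nat.card N ≤ Nat.card L := by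
        intro L hLn hLb
        rw [hNc]
        exact Nat.find_min' hex ⟨L, hLn, hLb, rfl⟩
      haveI := hNn
      have hmin : ∀ L : Subgroup G, L.Normal → L ≠ ⊥ → N ≤ L := by
        intro L hLn hLb
        haveI := hLn
        have hinfn : (N ⊓ L).Normal := inferInstance
        have hinfb : N ⊓ L ≠ ⊥ := by
          intro hbot
          exact hsplit ⟨N, L, hNn, hLn, hNb, hLb, hbot⟩
        have hle := hNmin' (N ⊓ L) hinfn hinfb
        have heq : N ⊓ L = N := Subgroup.eq_of_le_of_card_ge inf_le_left hle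
        rw [← heq]; exact inf_le_right
      have hNP : N ≤ Cfsg.pCore p G := hmin _ hPn hPb
      have hNp : IsPGroup p ↥N := (Cfsg.Agent.Lib.Helper4.pCore_isPGroup p G).to_le hNP
      have hZn : (Cfsg.pCore p G ⊓ Subgroup.centralizer (Cfsg.pCore p G : Set G)).Normal := by
        haveI := hPn
        infer_instance
      have hZb : Cfsg.pCore p G ⊓ Subgroup.centralizer (Cfsg.pCore p G : Set G) ≠ ⊥ := by
        haveI : Nontrivial ↥(Cfsg.pCore p G) := (Subgroup.nontrivial_iff_ne_bot _).mpr hPb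
        have hcn : Nontrivial ↥(Subgroup.center ↥(Cfsg.pCore p G)) :=
          (Cfsg.Agent.Lib.Helper4.pCore_isPGroup p G).center_nontrivial
        obtain ⟨z, hz⟩ := exists_ne (1 : ↥(Subgroup.center ↥(Cfsg.pCore p G)))
        intro hbot
        have hzmem : ((z : ↥(Cfsg.pCore p G)) : G) ∈
            Cfsg.pCore p G ⊓ Subgroup.centralizer (Cfsg.pCore p G : Set G) := by
          have hc : ((z : ↥(Cfsg.pCore p G)) : G) ∈
              Subgroup.centralizer (Cfsg.pCore p G : Set G) := by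
            rw [Subgroup.mem_centralizer_iff]
            intro y hy
            have h1 := Subgroup.mem_center_iff.mp z.2 ⟨y, hy⟩
            exact congrArg Subtype.val h1
          exact ⟨(z : ↥(Cfsg.pCore p G)).2, hc⟩
        rw [hbot, Subgroup.mem_bot] at hzmem
        apply hz
        apply Subtype.ext
        apply Subtype.ext
        exact hzmem
      have hNZ := hmin _ hZn hZb
      have hNab : ∀ x ∈ N, ∀ y ∈ N, x * y = y * x := by
        intro x hx y hy
        have h1 := (hNZ hy).2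
        exact Subgroup.mem_centralizer_iff.mp h1 x (hNP hx)
      by_cases hNΦ : N ≤ frattini G
      · exact upperPSeries_top_of_frattini_quotient p N hNp hNΦ 4 (by norm_num) (hquot N hNb)
      · obtain ⟨M, hM, hNM⟩ : ∃ M : Subgroup G, IsCoatom M ∧ ¬ N ≤ M := by
          by_contra hcon
          push Not at hcon
          apply hNΦ
          unfold frattini Order.radical
          exact le_iInf₂ (fun M hM => hcon M hM)
        exact upperPSeries_four_of_complement p N M hNp hNb hNab hmin hM hNM (hmax M hM)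

theorem upperPSeries_four_eq {G : Type u} [Group G] (p : ℕ) :
    (Cfsg.upperPSeries p G 4).1 =
      (Cfsg.pCore p (G ⧸ (Cfsg.upperPSeries p G 3).1)).comap (QuotientGroup.mk' _) :=
  upperPSeries_even p G 1

/-- Numerical data of the first four terms of the upper `p`-series. -/
theorem upper_series_data {G : Type u} [Group G] [Finite G] (p : ℕ) [Fact p.Prime] :
    (Nat.card (Cfsg.upperPSeries p G 1).1).Coprime p ∧
    (∃ k : ℕ, (Cfsg.upperPSeries p G 1).1.relIndex (Cfsg.upperPSeries p G 2).1 = p ^ k) ∧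
    ((Cfsg.upperPSeries p G 2).1.relIndex (Cfsg.upperPSeries p G 3).1).Coprime p ∧
    (∃ k : ℕ, (Cfsg.upperPSeries p G 3).1.relIndex (Cfsg.upperPSeries p G 4).1 = p ^ k) ∧
    (Cfsg.upperPSeries p G 1).1 ≤ (Cfsg.upperPSeries p G 2).1 ∧
    (Cfsg.upperPSeries p G 2).1 ≤ (Cfsg.upperPSeries p G 3).1 ∧
    (Cfsg.upperPSeries p G 3).1 ≤ (Cfsg.upperPSeries p G 4).1 := by
  have hp : p.Prime := Fact.out
  refine ⟨card_upperPSeries_one_coprime p, ?_, ?_, ?_, ?_, ?_, ?_⟩
  · have h := relIndex_comap_mk (Cfsg.upperPSeries p G 1).1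
      (Cfsg.pCore p (G ⧸ (Cfsg.upperPSeries p G 1).1))
    rw [← upperPSeries_two] at h
    obtain ⟨k, hk⟩ := IsPGroup.iff_card.mp
      (Cfsg.Agent.Lib.Helper4.pCore_isPGroup p (G ⧸ (Cfsg.upperPSeries p G 1).1))
    exact ⟨k, by rw [h, hk]⟩
  · have h := relIndex_comap_mk (Cfsg.upperPSeries p G 2).1
      (Cfsg.pPrimeCore p (G ⧸ (Cfsg.upperPSeries p G 2).1))
    rw [← upperPSeries_three] at h
    rw [h]
    exact Cfsg.Agent.Lib.Helper3.pPrimeCore_coprime hp (G ⧸ (Cfsg.upperPSeries p G 2).1)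
  · have h := relIndex_comap_mk (Cfsg.upperPSeries p G 3).1
      (Cfsg.pCore p (G ⧸ (Cfsg.upperPSeries p G 3).1))
    rw [← upperPSeries_four_eq] at h
    obtain ⟨k, hk⟩ := IsPGroup.iff_card.mp
      (Cfsg.Agent.Lib.Helper4.pCore_isPGroup p (G ⧸ (Cfsg.upperPSeries p G 3).1))
    exact ⟨k, by rw [h, hk]⟩
  · rw [upperPSeries_two]
    intro u hu
    rw [Subgroup.mem_comap]
    have h1 : (QuotientGroup.mk' (Cfsg.upperPSeries p G 1).1) u = 1 :=
      (QuotientGroup.eq_one_iff u).mpr hu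
    rw [h1]; exact Subgroup.one_mem _
  · exact upperPSeries_even_le_odd p G 1
  · rw [upperPSeries_four_eq]
    intro u hu
    rw [Subgroup.mem_comap]
    have h1 : (QuotientGroup.mk' (Cfsg.upperPSeries p G 3).1) u = 1 :=
      (QuotientGroup.eq_one_iff u).mpr hu
    rw [h1]; exact Subgroup.one_mem _

end Cfsg.Agent.Lib.Helper2
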