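import Mathlib
import Cfsg.Prelude
import Cfsg.Agent.Lib.Helper2.PLenOne
import Cfsg.Agent.Lib.Helper2.PComp
import Cfsg.Agent.Lib.Helper3.ThompsonRed
import Cfsg.Agent.Lib.Helper1.ThompsonJ
import Cfsg.Agent.S1443

set_option autoImplicit false

namespace Cfsg.Agent.Lib.Helper2

universe u

/-- An element of order dividing `p` commuting with a maximal elementary abelian `p`-subgroup lies in it. -/
theorem mem_of_max_elemAb {G : Type u} [Group G] (p : ℕ) (E : Subgroup G)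
    (hE : Cfsg.IsElementaryAbelian p E)
    (hEmax : ∀ B : Subgroup G, Cfsg.IsElementaryAbelian p B → E ≤ B → B = E)
    (x : G) (hxp : x ^ p = 1) (hxE : ∀ e ∈ E, x * e = e * x) : x ∈ E := by
  have hEcomm : ∀ a ∈ E, ∀ b ∈ E, a * b = b * a :=
    fun a ha b hb => Cfsg.Agent.Lib.Helper1.ea_comm hE ha hb
  obtain ⟨T, hTdef⟩ : ∃ T : Set G, T = (E : Set G) ∪ {x} := ⟨_, rfl⟩
  have hTcomm : ∀ a ∈ T, ∀ b ∈ T, a * b = b * a := by
    intro a ha b hb
    rw [hTdef] at ha hb
    rcases ha with ha | ha <;> rcases hb with hb | hb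
    · exact hEcomm a ha b hb
    · rw [Set.mem_singleton_iff] at hb; rw [hb]; exact (hxE a ha).symm
    · rw [Set.mem_singleton_iff] at ha; rw [ha]; exact hxE b hb
    · rw [Set.mem_singleton_iff] at ha hb; rw [ha, hb]
  have hTp : ∀ a ∈ T, a ^ p = 1 := by
    intro a ha
    rw [hTdef] at ha
    rcases ha with ha | ha
    · exact hE.2 a ha
    · rw [Set.mem_singleton_iff] at ha; rw [ha]; exact hxp
  have hcl1 : Subgroup.closure T ≤ Subgroup.centralizer T := by
    rw [Subgroup.closure_le]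
    intro a ha
    rw [SetLike.mem_coe, Subgroup.mem_centralizer_iff]
    intro b hb
    exact hTcomm b hb a ha
  have hclcomm : ∀ a ∈ Subgroup.closure T, ∀ b ∈ Subgroup.closure T, a * b = b * a := by
    intro a ha b hb
    have h1 : a ∈ Subgroup.centralizer ((Subgroup.closure T : Subgroup G) : Set G) := by
      rw [Subgroup.centralizer_closure]; exact hcl1 ha
    rw [Subgroup.mem_centralizer_iff] at h1
    exact (h1 b hb).symm
  have hclp : ∀ a ∈ Subgroup.closure T, a ^ p = 1 := by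
    intro a ha
    induction ha using Subgroup.closure_induction with
    | mem y hy => exact hTp y hy
    | one => exact one_pow p
    | mul y z hy hz ihy ihz =>
      rw [(Commute.mul_pow (hclcomm y hy z hz) p), ihy, ihz, one_mul]
    | inv y hy ihy => rw [inv_pow, ihy, inv_one]
  have hB : Cfsg.IsElementaryAbelian p (Subgroup.closure T) :=
    Cfsg.Agent.Lib.Helper1.ea_of_comm hclcomm hclp
  have hEle : E ≤ Subgroup.closure T := by
    intro e he
    exact Subgroup.subset_closure (by rw [hTdef]; exact Or.inl he)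
  have hBE := hEmax _ hB hEle
  rw [← hBE]
  exact Subgroup.subset_closure (by rw [hTdef]; exact Or.inr rfl)

theorem plen_one_ea_aux {G : Type u} [Group G] [Finite G] (p : ℕ) [Fact p.Prime] (hp2 : p ≠ 2)
    (K : Subgroup G) [K.Normal] (hKc : (Nat.card K).Coprime p)
    (hK1 : Cfsg.pPrimeCore p (G ⧸ K) = ⊥) (S : Sylow p G)
    (hMn : (K ⊔ (S : Subgroup G)).Normal)
    (E L : Subgroup G) (hE : Cfsg.IsElementaryAbelian p E)
    (hEmax : ∀ B : Subgroup G, Cfsg.IsElementaryAbelian p B → E ≤ B → B = E)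
    (hL : (Nat.card L).Coprime p) (hEL : E ≤ Subgroup.normalizer (L : Set G))
    (hES : E ≤ (S : Subgroup G)) :
    L ≤ K := by
  have hp : p.Prime := Fact.out
  obtain ⟨M, hMdef⟩ : ∃ M : Subgroup G, M = K ⊔ (S : Subgroup G) := ⟨_, rfl⟩
  rw [← hMdef] at hMn
  have hKM : K ≤ M := by rw [hMdef]; exact le_sup_left
  have hSM : (S : Subgroup G) ≤ M := by rw [hMdef]; exact le_sup_right
  have hKS : ∀ g : G, g ∈ K → g ∈ (S : Subgroup G) → g = 1 := by
    intro g hgK hgS
    obtain ⟨e, he⟩ := (S.2 ⟨g, hgS⟩)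
    have he' : g ^ p ^ e = 1 := by simpa using congrArg Subtype.val he
    have h3 : g ^ (Nat.card K) = 1 := by
      have h := congrArg Subtype.val (pow_card_eq_one' (G := K) (x := ⟨g, hgK⟩))
      exact h
    have hd1 : orderOf g ∣ p ^ e := orderOf_dvd_of_pow_eq_one he'
    have hd2 : orderOf g ∣ Nat.card K := orderOf_dvd_of_pow_eq_one h3
    have hcop : (p ^ e).Coprime (Nat.card K) := Nat.Coprime.pow_left e hKc.symm
    exact orderOf_eq_one_iff.mp (Nat.Coprime.eq_one_of_dvd (Nat.Coprime.coprime_dvd_left hd1 hcop) hd2)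
  obtain ⟨π, hπdef⟩ : ∃ π : G →* G ⧸ K, π = QuotientGroup.mk' K := ⟨_, rfl⟩
  have hπ1 : ∀ g, π g = 1 ↔ g ∈ K := by intro g; rw [hπdef]; exact QuotientGroup.eq_one_iff g
  have hπs : Function.Surjective π := by rw [hπdef]; exact QuotientGroup.mk'_surjective K
  obtain ⟨Sb, hSbdef⟩ : ∃ Sb : Subgroup (G ⧸ K), Sb = (S : Subgroup G).map π := ⟨_, rfl⟩
  have hSbM : Sb = M.map π := by
    rw [hSbdef, hMdef, Subgroup.map_sup]
    have : K.map π = ⊥ := by
      rw [eq_bot_iff]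
      rintro _ ⟨k, hk, rfl⟩
      rw [Subgroup.mem_bot]; exact (hπ1 k).mpr hk
    rw [this, bot_sup_eq]
  have hSbn : Sb.Normal := by rw [hSbM]; exact Subgroup.Normal.map hMn π hπs
  have hSbp : IsPGroup p Sb := by rw [hSbdef]; exact IsPGroup.map S.2 π
  have hpM : ∀ c : G, c ∈ M → ∀ n : ℕ, n.Coprime p → c ^ n = 1 → c ∈ K := by
    intro c hc n hn hcn
    rw [← hπ1]
    have hmem : π c ∈ Sb := by rw [hSbM]; exact Subgroup.mem_map_of_mem π hc
    obtain ⟨k, hk⟩ := hSbp ⟨π c, hmem⟩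
    have hk' : (π c) ^ p ^ k = 1 := congrArg Subtype.val hk
    have hn' : (π c) ^ n = 1 := by rw [← map_pow, hcn, map_one]
    have hd1 : orderOf (π c) ∣ p ^ k := orderOf_dvd_of_pow_eq_one hk'
    have hd2 : orderOf (π c) ∣ n := orderOf_dvd_of_pow_eq_one hn'
    have hcop : (p ^ k).Coprime n := Nat.Coprime.pow_left k hn.symm
    exact orderOf_eq_one_iff.mp (Nat.Coprime.eq_one_of_dvd (Nat.Coprime.coprime_dvd_left hd1 hcop) hd2)
  have hLpow : ∀ l : G, l ∈ L → l ^ (Nat.card L) = 1 := by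
    intro l hl
    exact congrArg Subtype.val (pow_card_eq_one' (G := L) (x := ⟨l, hl⟩))
  have hLE : ∀ l : G, l ∈ L → ∀ e : G, e ∈ E → l * e * l⁻¹ * e⁻¹ ∈ K := by
    intro l hl e he
    have heN := hEL he
    have h1 : e * l⁻¹ * e⁻¹ ∈ L := (Subgroup.mem_normalizer_iff.mp heN l⁻¹).mp (L.inv_mem hl)
    have h2 : l * e * l⁻¹ * e⁻¹ ∈ L := by
      have : l * e * l⁻¹ * e⁻¹ = l * (e * l⁻¹ * e⁻¹) := by group
      rw [this]; exact L.mul_mem hl h1
    have h3 : l * e * l⁻¹ * e⁻¹ ∈ M := by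
      have heM : e ∈ M := hSM (hES he)
      exact M.mul_mem (hMn.conj_mem e heM l) (M.inv_mem heM)
    exact hpM _ h3 (Nat.card L) hL (hLpow _ h2)
  have hEcomm : ∀ a ∈ E, ∀ b ∈ E, a * b = b * a :=
    fun a ha b hb => Cfsg.Agent.Lib.Helper1.ea_comm hE ha hb
  obtain ⟨Eb, hEbdef⟩ : ∃ Eb : Subgroup (G ⧸ K), Eb = E.map π := ⟨_, rfl⟩
  obtain ⟨Lb, hLbdef⟩ : ∃ Lb : Subgroup (G ⧸ K), Lb = L.map π := ⟨_, rfl⟩
  have hEbe : Cfsg.IsElementaryAbelian p Eb := by
    apply Cfsg.Agent.Lib.Helper1.ea_of_comm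
    · intro a ha b hb
      rw [hEbdef] at ha hb
      obtain ⟨a', ha', rfl⟩ := ha
      obtain ⟨b', hb', rfl⟩ := hb
      rw [← map_mul, ← map_mul, hEcomm a' ha' b' hb']
    · intro a ha
      rw [hEbdef] at ha
      obtain ⟨a', ha', rfl⟩ := ha
      rw [← map_pow, hE.2 a' ha', map_one]
  have hEbSb : Eb ≤ Sb := by rw [hEbdef, hSbdef]; exact Subgroup.map_mono hES
  have hLbN : Lb ≤ Subgroup.normalizer (Sb : Set (G ⧸ K)) := by
    rw [Subgroup.normalizer_eq_top_iff.mpr hSbn]; exact le_top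
  have hLbc : (Nat.card Lb).Coprime p := by
    rw [hLbdef]
    exact Nat.Coprime.coprime_dvd_left (Subgroup.card_map_dvd L π) hL
  have hfix : ∀ xb ∈ (Sb ⊓ Subgroup.centralizer (Eb : Set (G ⧸ K))), orderOf xb = p →
      Lb ≤ Subgroup.centralizer ({xb} : Set (G ⧸ K)) := by
    intro xb hxb hord
    have hxb1 : xb ∈ Sb := hxb.1
    have hxb2 : xb ∈ Subgroup.centralizer (Eb : Set (G ⧸ K)) := hxb.2
    rw [hSbdef] at hxb1
    obtain ⟨x, hxS, rfl⟩ := hxb1
    have hxp : x ^ p = 1 := by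
      apply hKS _ _ (Subgroup.pow_mem _ hxS p)
      rw [← hπ1, map_pow, ← hord]; exact pow_orderOf_eq_one _
    have hxE : ∀ e ∈ E, x * e = e * x := by
      intro e he
      have h1 : x * e * x⁻¹ * e⁻¹ ∈ K := by
        rw [← hπ1]
        rw [Subgroup.mem_centralizer_iff] at hxb2
        have h2 : π e * π x = π x * π e :=
          hxb2 (π e) (by rw [hEbdef]; exact Subgroup.mem_map_of_mem π he)
        simp only [map_mul, map_inv]
        rw [← h2]; group
      have h3 : x * e * x⁻¹ * e⁻¹ ∈ (S : Subgroup G) :=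
        Subgroup.mul_mem _ (Subgroup.mul_mem _ (Subgroup.mul_mem _ hxS (hES he))
          (Subgroup.inv_mem _ hxS)) (Subgroup.inv_mem _ (hES he))
      have h4 := hKS _ h1 h3
      calc x * e = x * e * x⁻¹ * e⁻¹ * (e * x) := by group
        _ = e * x := by rw [h4, one_mul]
    have hxinE : x ∈ E := mem_of_max_elemAb p E hE hEmax x hxp hxE
    intro lb hlb
    rw [hLbdef] at hlb
    obtain ⟨l, hl, rfl⟩ := hlb
    rw [Subgroup.mem_centralizer_iff]
    intro y hy
    rw [Set.mem_singleton_iff] at hy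
    rw [hy]
    have h1 := hLE l hl x hxinE
    rw [← hπ1] at h1
    simp only [map_mul, map_inv] at h1
    calc π x * π l = (π l * π x * (π l)⁻¹ * (π x)⁻¹)⁻¹ * (π l * π x) := by group
      _ = π l * π x := by rw [h1, inv_one, one_mul]
  have hcentr : Lb ≤ Subgroup.centralizer (Sb : Set (G ⧸ K)) :=
    Cfsg.Agent.S1443.result p hp2 Sb Eb Lb hSbp hEbSb hEbe hLbN hLbc hfix
  have hallp : ∀ xb ∈ (⊤ : Subgroup (G ⧸ K)), ∀ k : ℕ, xb ^ p ^ k = 1 → xb ∈ Sb := by
    intro xb _ k hk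
    obtain ⟨x, rfl⟩ := hπs xb
    have hxk : x ^ p ^ k ∈ K := by rw [← hπ1, map_pow]; exact hk
    have hxM : x ∈ M := by
      have h1 : ((QuotientGroup.mk' M) x) ^ p ^ k = 1 := by
        rw [← map_pow]; exact (QuotientGroup.eq_one_iff _).mpr (hKM hxk)
      have h3 : ((QuotientGroup.mk' M) x) ^ (Nat.card (G ⧸ M)) = 1 := pow_card_eq_one'
      have hMi : (M.index).Coprime p := by
        have h2 : (S : Subgroup G).relIndex M * M.index = (S : Subgroup G).index :=
          Subgroup.relIndex_mul_index hSM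
        have hnd : ¬ p ∣ M.index := by
          intro hd; apply S.not_dvd_index; rw [← h2]; exact Dvd.dvd.mul_left hd _
        exact ((Nat.Prime.coprime_iff_not_dvd hp).mpr hnd).symm
      have hcop : (p ^ k).Coprime (Nat.card (G ⧸ M)) := by
        rw [← Subgroup.index_eq_card]; exact Nat.Coprime.pow_left k hMi.symm
      have hd1 := orderOf_dvd_of_pow_eq_one h1
      have hd2 := orderOf_dvd_of_pow_eq_one h3
      have h5 := orderOf_eq_one_iff.mp
        (Nat.Coprime.eq_one_of_dvd (Nat.Coprime.coprime_dvd_left hd1 hcop) hd2)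
      exact (QuotientGroup.eq_one_iff x).mp h5
    rw [hSbM]; exact Subgroup.mem_map_of_mem π hxM
  have hcs := Cfsg.Agent.Lib.Helper3.inf_centralizer_le_of_pPrimeCore_eq_bot hK1 Sb ⊤ hSbp hallp
  intro l hl
  have hlb : π l ∈ Lb := by rw [hLbdef]; exact Subgroup.mem_map_of_mem π hl
  have h1 : π l ∈ Sb := hcs ⟨Subgroup.mem_top _, hcentr hlb⟩
  rw [← hπ1]
  obtain ⟨k, hk⟩ := hSbp ⟨π l, h1⟩
  have hk' : (π l) ^ p ^ k = 1 := congrArg Subtype.val hk
  have hn' : (π l) ^ (Nat.card L) = 1 := by rw [← map_pow, hLpow l hl, map_one]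
  have hd1 := orderOf_dvd_of_pow_eq_one hk'
  have hd2 := orderOf_dvd_of_pow_eq_one hn'
  have hcop : (p ^ k).Coprime (Nat.card L) := Nat.Coprime.pow_left k hL.symm
  exact orderOf_eq_one_iff.mp (Nat.Coprime.eq_one_of_dvd (Nat.Coprime.coprime_dvd_left hd1 hcop) hd2)

theorem plen_one_ea_main {G : Type u} [Group G] [Finite G] (p : ℕ) [Fact p.Prime] (hp2 : p ≠ 2)
    (hpl : Cfsg.PLengthLE p 1 G) (E L : Subgroup G) (hE : Cfsg.IsElementaryAbelian p E)
    (hEmax : ∀ B : Subgroup G, Cfsg.IsElementaryAbelian p B → E ≤ B → B = E)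
    (hL : (Nat.card L).Coprime p) (hEL : E ≤ Subgroup.normalizer (L : Set G)) :
    L ≤ Cfsg.pPrimeCore p G := by
  have hp : p.Prime := Fact.out
  have hEp : IsPGroup p E := by
    intro g
    refine ⟨1, ?_⟩
    rw [pow_one]
    exact Subtype.ext (hE.2 g.1 g.2)
  obtain ⟨S, hES⟩ := hEp.exists_le_sylow
  obtain ⟨K₀, hK₀n, hK₀c, hM₀n⟩ := plen_one_sylow p hpl S
  have hK₀K : K₀ ≤ Cfsg.pPrimeCore p G := le_sSup ⟨hK₀n, hK₀c⟩
  have hMn : (Cfsg.pPrimeCore p G ⊔ (S : Subgroup G)).Normal := by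
    have h1 : Cfsg.pPrimeCore p G ⊔ (S : Subgroup G)
        = Cfsg.pPrimeCore p G ⊔ (K₀ ⊔ (S : Subgroup G)) := by
      apply le_antisymm
      · exact sup_le le_sup_left (le_trans le_sup_right le_sup_right)
      · exact sup_le le_sup_left (sup_le (le_trans hK₀K le_sup_left) le_sup_right)
    rw [h1]
    exact Subgroup.sup_normal _ _
  exact plen_one_ea_aux p hp2 (Cfsg.pPrimeCore p G)
    (Cfsg.Agent.Lib.Helper3.pPrimeCore_coprime hp G) (pPrimeCore_quotient_eq_bot p G) S hMn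
    E L hE hEmax hL hEL hES

end Cfsg.Agent.Lib.Helper2
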