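import Mathlib
import Cfsg.Prelude
import Cfsg.Agent.Lib.Helper2.PConstr
import Cfsg.Agent.S4218

set_option autoImplicit false

namespace Cfsg.Agent.Lib.Helper2

universe u v

theorem isPSolvable_of_mulEquiv {A : Type u} {B : Type v} [Group A] [Group B] {p : ℕ}
    (e : A ≃* B) (h : Cfsg.IsPSolvable p A) : Cfsg.IsPSolvable p B := by
  obtain ⟨n, H, h0, hlast, hmono, hnorm, hfac⟩ := h
  refine ⟨n, fun i => (H i).map e.toMonoidHom, ?_, ?_, ?_, ?_, ?_⟩
  · show (H 0).map _ = ⊥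
    rw [h0, Subgroup.map_bot]
  · show (H (Fin.last n)).map _ = ⊤
    rw [hlast]; exact Subgroup.map_top_of_surjective _ e.surjective
  · intro i j hij; exact Subgroup.map_mono (hmono hij)
  · intro i; exact (hnorm i).map _ e.surjective
  · intro i
    have heq : ((H i.castSucc).map e.toMonoidHom).relIndex ((H i.succ).map e.toMonoidHom)
        = (H i.castSucc).relIndex (H i.succ) :=
      Subgroup.relIndex_map_map_of_injective _ _ e.injective
    rcases hfac i with ⟨m, hm⟩ | hc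
    · left; exact ⟨m, by rw [heq, hm]⟩
    · right; rw [heq]; exact hc

theorem isPSolvable_of_surjective {A : Type u} {B : Type v} [Group A] [Group B] {p : ℕ}
    [Fact p.Prime] (f : A →* B) (hf : Function.Surjective f) (h : Cfsg.IsPSolvable p A) :
    Cfsg.IsPSolvable p B :=
  isPSolvable_of_mulEquiv (QuotientGroup.quotientKerEquivOfSurjective f hf)
    (Cfsg.Agent.S4218.isPSolvable_quotient f.ker h)

/-- If the centralizer of a Sylow `p`-subgroup of `O_{p',p}(X)` is `p`-solvable, then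
`O_p(X / O_{p'}(X))` contains its centralizer. -/
theorem centralizer_pCore_le_of_psolv {X : Type u} [Group X] [Finite X] {p : ℕ} [hp : Fact p.Prime]
    (P : Sylow p ↥(Cfsg.pPrimePCore p X))
    (hsol : Cfsg.IsPSolvable p ↥(Subgroup.centralizer
      (((P : Subgroup ↥(Cfsg.pPrimePCore p X)).map (Cfsg.pPrimePCore p X).subtype : Subgroup X) :
        Set X))) :
    Subgroup.centralizer
        ((Cfsg.pCore p (X ⧸ Cfsg.pPrimeCore p X) : Subgroup _) : Set _) ≤
        Cfsg.pCore p (X ⧸ Cfsg.pPrimeCore p X) := by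
  have hPimg := sylow_pPrimePCore_map p P
  have hPGp : IsPGroup p ↥((P : Subgroup ↥(Cfsg.pPrimePCore p X)).map
      (Cfsg.pPrimePCore p X).subtype) := P.2.map _
  have hlift : ∀ cb ∈ Subgroup.centralizer
      ((Cfsg.pCore p (X ⧸ Cfsg.pPrimeCore p X) : Subgroup _) : Set _),
      ∃ c ∈ Subgroup.centralizer
        ((((P : Subgroup ↥(Cfsg.pPrimePCore p X)).map (Cfsg.pPrimePCore p X).subtype) :
          Subgroup X) : Set X), QuotientGroup.mk' (Cfsg.pPrimeCore p X) c = cb := by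
    intro cb hcb
    obtain ⟨c, rfl⟩ := QuotientGroup.mk'_surjective _ cb
    have hcN : QuotientGroup.mk' (Cfsg.pPrimeCore p X) c ∈ Subgroup.normalizer
        ((((P : Subgroup ↥(Cfsg.pPrimePCore p X)).map (Cfsg.pPrimePCore p X).subtype).map
          (QuotientGroup.mk' (Cfsg.pPrimeCore p X)) : Subgroup _) : Set _) := by
      rw [hPimg]
      exact Subgroup.centralizer_le_normalizer _ hcb
    obtain ⟨n, hn, hy⟩ := exists_mem_normalizer_of_quotient p (Cfsg.pPrimeCore p X)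
      (pPrimeCore_card_coprime p X) _ hPGp c hcN
    have hn1 : QuotientGroup.mk' (Cfsg.pPrimeCore p X) n = 1 := (QuotientGroup.eq_one_iff n).mpr hn
    have hyc : QuotientGroup.mk' (Cfsg.pPrimeCore p X) (n⁻¹ * c) =
        QuotientGroup.mk' (Cfsg.pPrimeCore p X) c := by
      rw [map_mul, map_inv, hn1, inv_one, one_mul]
    have hycent : n⁻¹ * c ∈ Subgroup.centralizer
        ((((P : Subgroup ↥(Cfsg.pPrimePCore p X)).map (Cfsg.pPrimePCore p X).subtype) :
          Subgroup X) : Set X) := by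
      rw [Subgroup.mem_centralizer_iff]
      intro x hx
      have hconj : (n⁻¹ * c) * x * (n⁻¹ * c)⁻¹ ∈
          (P : Subgroup ↥(Cfsg.pPrimePCore p X)).map (Cfsg.pPrimePCore p X).subtype :=
        (Subgroup.mem_normalizer_iff.mp hy x).mp hx
      have hmem : (n⁻¹ * c) * x * (n⁻¹ * c)⁻¹ * x⁻¹ ∈
          (P : Subgroup ↥(Cfsg.pPrimePCore p X)).map (Cfsg.pPrimePCore p X).subtype :=
        Subgroup.mul_mem _ hconj (Subgroup.inv_mem _ hx)
      have hxb : QuotientGroup.mk' (Cfsg.pPrimeCore p X) x ∈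
          Cfsg.pCore p (X ⧸ Cfsg.pPrimeCore p X) := by
        rw [← hPimg]; exact ⟨x, hx, rfl⟩
      have hcomm := Subgroup.mem_centralizer_iff.mp hcb _ hxb
      have hO : (n⁻¹ * c) * x * (n⁻¹ * c)⁻¹ * x⁻¹ ∈ Cfsg.pPrimeCore p X := by
        rw [← QuotientGroup.ker_mk' (Cfsg.pPrimeCore p X), MonoidHom.mem_ker]
        rw [map_mul, map_mul, map_mul, map_inv, map_inv, hyc, ← hcomm]
        group
      obtain ⟨k, hk⟩ := hPGp ⟨_, hmem⟩
      have hk' : ((n⁻¹ * c) * x * (n⁻¹ * c)⁻¹ * x⁻¹) ^ (p ^ k) = 1 := congrArg Subtype.val hk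
      have h1 := eq_one_of_mem_of_pow_prime_pow p _ (pPrimeCore_card_coprime p X) _ hO k hk'
      calc x * (n⁻¹ * c) = ((n⁻¹ * c) * x * (n⁻¹ * c)⁻¹ * x⁻¹)⁻¹ * ((n⁻¹ * c) * x) := by group
        _ = (n⁻¹ * c) * x := by rw [h1, inv_one, one_mul]
    exact ⟨n⁻¹ * c, hycent, hyc⟩
  obtain ⟨C, hCdef⟩ : ∃ C : Subgroup X, C = Subgroup.centralizer
      ((((P : Subgroup ↥(Cfsg.pPrimePCore p X)).map (Cfsg.pPrimePCore p X).subtype) :
        Subgroup X) : Set X) := ⟨_, rfl⟩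
  rw [← hCdef] at hsol hlift
  obtain ⟨D, hDdef⟩ : ∃ D : Subgroup (X ⧸ Cfsg.pPrimeCore p X), D = Subgroup.centralizer
      ((Cfsg.pCore p (X ⧸ Cfsg.pPrimeCore p X) : Subgroup _) : Set _) := ⟨_, rfl⟩
  rw [← hDdef] at hlift ⊢
  have hDn : D.Normal := by rw [hDdef]; exact Subgroup.normal_centralizer
  have hCD : ∀ c : ↥C, QuotientGroup.mk' (Cfsg.pPrimeCore p X) (c : X) ∈ D := by
    intro c
    rw [hDdef, Subgroup.mem_centralizer_iff]
    intro y hy
    rw [← hPimg] at hy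
    obtain ⟨x, hx, rfl⟩ := hy
    have hc : (c : X) ∈ Subgroup.centralizer
        ((((P : Subgroup ↥(Cfsg.pPrimePCore p X)).map (Cfsg.pPrimePCore p X).subtype) :
          Subgroup X) : Set X) := (le_of_eq hCdef) c.2
    rw [Subgroup.mem_centralizer_iff] at hc
    rw [← map_mul, ← map_mul, hc x hx]
  obtain ⟨ρ, hρdef⟩ : ∃ ρ : ↥C →* ↥D, ∀ c : ↥C,
      ((ρ c : ↥D) : X ⧸ Cfsg.pPrimeCore p X) = QuotientGroup.mk' (Cfsg.pPrimeCore p X) (c : X) :=
    ⟨((QuotientGroup.mk' (Cfsg.pPrimeCore p X)).comp C.subtype).codRestrict D hCD, fun c => rfl⟩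
  have hρs : Function.Surjective ρ := by
    intro d
    obtain ⟨c, hc, hcd⟩ := hlift d.1 d.2
    exact ⟨⟨c, hc⟩, Subtype.ext ((hρdef ⟨c, hc⟩).trans hcd)⟩
  have hDsol : Cfsg.IsPSolvable p ↥D := isPSolvable_of_surjective ρ hρs hsol
  have hQ1 : Cfsg.pPrimeCore p (X ⧸ Cfsg.pPrimeCore p X) = ⊥ := pPrimeCore_quotient_eq_bot p X
  have hDO : Cfsg.pPrimeCore p ↥D = ⊥ := by
    rw [eq_bot_iff]
    refine sSup_le ?_
    rintro N₁ ⟨hN₁n, hN₁c⟩
    have hsub : (N₁.map D.subtype).IsSubnormal := hN₁n.isSubnormal.trans' hDn.isSubnormal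
    have hcard : (Nat.card (N₁.map D.subtype)).Coprime p := by
      rw [Subgroup.card_map_of_injective D.subtype_injective]; exact hN₁c
    have hle := subnormal_pprime_le p _ hsub hcard
    rw [hQ1] at hle
    intro x hx
    have h1 : (x : X ⧸ Cfsg.pPrimeCore p X) ∈ N₁.map D.subtype := ⟨x, hx, rfl⟩
    have h2 := hle h1
    rw [Subgroup.mem_bot] at h2 ⊢
    exact Subtype.ext h2
  have hh := Cfsg.Agent.S4218.hh123 hDsol hDO
  have hcoreD : (Cfsg.pCore p ↥D).map D.subtype ≤ Cfsg.pCore p (X ⧸ Cfsg.pPrimeCore p X) := by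
    have hsub : ((Cfsg.pCore p ↥D).map D.subtype).IsSubnormal :=
      (Cfsg.pCore_normal p ↥D).isSubnormal.trans' hDn.isSubnormal
    exact subnormal_pgroup_le_pCore p _ hsub ((pCore_isPGroup' p ↥D).map _)
  intro d hd
  have hd' : (⟨d, hd⟩ : ↥D) ∈ Subgroup.centralizer ((Cfsg.pCore p ↥D : Subgroup ↥D) : Set ↥D) := by
    rw [Subgroup.mem_centralizer_iff]
    intro y hy
    have hyP : (y : X ⧸ Cfsg.pPrimeCore p X) ∈ Cfsg.pCore p (X ⧸ Cfsg.pPrimeCore p X) :=
      hcoreD ⟨y, hy, rfl⟩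
    have hd2 := hd
    rw [hDdef, Subgroup.mem_centralizer_iff] at hd2
    exact Subtype.ext (hd2 _ hyP)
  have h3 := hh hd'
  exact hcoreD ⟨⟨d, hd⟩, h3, rfl⟩

theorem pconstr_of_cent_psolv {X : Type u} [Group X] [Finite X] {p : ℕ} [Fact p.Prime]
    (P : Sylow p ↥(Cfsg.pPrimePCore p X))
    (hsol : Cfsg.IsPSolvable p ↥(Subgroup.centralizer
      (((P : Subgroup ↥(Cfsg.pPrimePCore p X)).map (Cfsg.pPrimePCore p X).subtype : Subgroup X) :
        Set X))) :
    Cfsg.IsPConstrained p X := by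
  have hcent := centralizer_pCore_le_of_psolv P hsol
  intro P' c hc
  have hPimg := sylow_pPrimePCore_map p P'
  show QuotientGroup.mk' (Cfsg.pPrimeCore p X) c ∈ Cfsg.pCore p (X ⧸ Cfsg.pPrimeCore p X)
  apply hcent
  rw [Subgroup.mem_centralizer_iff]
  intro y hy
  rw [← hPimg] at hy
  obtain ⟨x, hx, rfl⟩ := hy
  rw [Subgroup.mem_centralizer_iff] at hc
  rw [← map_mul, ← map_mul, hc x hx]

end Cfsg.Agent.Lib.Helper2
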