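import Mathlib
import Cfsg.Prelude
import Cfsg.Agent.Lib.Helper2.PConstrInv2
import Cfsg.Agent.Lib.Helper2.PLenOneEA
import Cfsg.Agent.S4218

set_option autoImplicit false
open scoped Pointwise

namespace Cfsg.Agent.Lib.Helper2

universe u

theorem inv_pprime_of_cent {X : Type u} [Group X] [Finite X] (p : ℕ) [Fact p.Prime] (hp : p ≠ 2)
    (hcentP : Subgroup.centralizer
        ((Cfsg.pCore p (X ⧸ Cfsg.pPrimeCore p X) : Subgroup _) : Set _) ≤
        Cfsg.pCore p (X ⧸ Cfsg.pPrimeCore p X))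
    (A : Subgroup X) (hAp : IsPGroup p ↥A)
    (hΩ : ∀ x ∈ Subgroup.centralizer (A : Set X), orderOf x = p → x ∈ A) (Q : Subgroup X)
    (hQ : ¬ p ∣ Nat.card ↥Q) (hAQ : A ≤ Subgroup.normalizer (Q : Set X)) :
    Q ≤ Cfsg.pPrimeCore p X := by
  have hpp : p.Prime := Fact.out
  have hOc : (Nat.card (Cfsg.pPrimeCore p X)).Coprime p := pPrimeCore_card_coprime p X
  have hΩb := lift_order_p_centralizer p (Cfsg.pPrimeCore p X) hOc A hAp hΩ
  obtain ⟨π, hπdef⟩ : ∃ π : X →* X ⧸ Cfsg.pPrimeCore p X,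
      π = QuotientGroup.mk' (Cfsg.pPrimeCore p X) := ⟨_, rfl⟩
  rw [← hπdef] at hΩb
  have hπ1 : ∀ g, π g = 1 ↔ g ∈ Cfsg.pPrimeCore p X := by
    intro g; rw [hπdef]; exact QuotientGroup.eq_one_iff g
  obtain ⟨Pb, hPbdef⟩ : ∃ Pb : Subgroup (X ⧸ Cfsg.pPrimeCore p X),
      Pb = Cfsg.pCore p (X ⧸ Cfsg.pPrimeCore p X) := ⟨_, rfl⟩
  have hPbp : IsPGroup p Pb := by rw [hPbdef]; exact pCore_isPGroup' p _
  have hPbn : Pb.Normal := by rw [hPbdef]; infer_instance
  have hPbc : Subgroup.centralizer (Pb : Set (X ⧸ Cfsg.pPrimeCore p X)) ≤ Pb := by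
    rw [hPbdef]; exact hcentP
  obtain ⟨Ab, hAbdef⟩ : ∃ Ab : Subgroup (X ⧸ Cfsg.pPrimeCore p X), Ab = A.map π := ⟨_, rfl⟩
  obtain ⟨Qb, hQbdef⟩ : ∃ Qb : Subgroup (X ⧸ Cfsg.pPrimeCore p X), Qb = Q.map π := ⟨_, rfl⟩
  rw [← hAbdef] at hΩb
  have hAbp : IsPGroup p Ab := by rw [hAbdef]; exact IsPGroup.map hAp π
  have hQbc : (Nat.card Qb).Coprime p := by
    rw [hQbdef]
    exact Nat.Coprime.coprime_dvd_left (Subgroup.card_map_dvd Q π)
      ((Nat.Prime.coprime_iff_not_dvd hpp).mpr hQ).symm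
  have hAbQb : Ab ≤ Subgroup.normalizer (Qb : Set (X ⧸ Cfsg.pPrimeCore p X)) := by
    rw [hAbdef, hQbdef]
    apply Cfsg.Agent.Lib.Lead.le_normalizer_of_conj_mem
    rintro _ ⟨a, ha, rfl⟩ _ ⟨q, hq, rfl⟩
    refine ⟨a * q * a⁻¹, Cfsg.Agent.Lib.Lead.conj_mem_of_mem_normalizer (hAQ ha) hq, ?_⟩
    rw [map_mul, map_mul, map_inv]
  have hAbPb : Ab ≤ Subgroup.normalizer (Pb : Set (X ⧸ Cfsg.pPrimeCore p X)) := by
    rw [Subgroup.normalizer_eq_top_iff.mpr hPbn]; exact le_top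
  have hQbPb : Qb ≤ Subgroup.normalizer (Pb : Set (X ⧸ Cfsg.pPrimeCore p X)) := by
    rw [Subgroup.normalizer_eq_top_iff.mpr hPbn]; exact le_top
  have hQP : ∀ g : X ⧸ Cfsg.pPrimeCore p X, g ∈ Qb → g ∈ Pb → g = 1 := by
    intro g hgQ hgP
    obtain ⟨e, he⟩ := hPbp ⟨g, hgP⟩
    have he' : g ^ p ^ e = 1 := congrArg Subtype.val he
    have h3 : g ^ (Nat.card Qb) = 1 :=
      congrArg Subtype.val (pow_card_eq_one' (G := ↥Qb) (x := ⟨g, hgQ⟩))
    have hd1 : orderOf g ∣ p ^ e := orderOf_dvd_of_pow_eq_one he'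
    have hd2 : orderOf g ∣ Nat.card Qb := orderOf_dvd_of_pow_eq_one h3
    have hcop : (p ^ e).Coprime (Nat.card Qb) := Nat.Coprime.pow_left e hQbc.symm
    exact orderOf_eq_one_iff.mp
      (Nat.Coprime.eq_one_of_dvd (Nat.Coprime.coprime_dvd_left hd1 hcop) hd2)
  have hord : ∀ y ∈ Pb ⊓ Subgroup.centralizer (Ab : Set (X ⧸ Cfsg.pPrimeCore p X)),
      orderOf y = p → y ∈ Subgroup.centralizer (Qb : Set (X ⧸ Cfsg.pPrimeCore p X)) := by
    intro y hy hyp
    have hyA : y ∈ Ab := hΩb y hy.2 hyp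
    have hyP : y ∈ Pb := hy.1
    rw [Subgroup.mem_centralizer_iff]
    intro q hq
    have h1 : q * y * q⁻¹ * y⁻¹ ∈ Pb := Pb.mul_mem (hPbn.conj_mem y hyP q) (Pb.inv_mem hyP)
    have h2 : q * y * q⁻¹ * y⁻¹ ∈ Qb := by
      have h4 : q * y * q⁻¹ * y⁻¹ = q * (y * q⁻¹ * y⁻¹) := by group
      rw [h4]
      exact Qb.mul_mem hq
        (Cfsg.Agent.Lib.Lead.conj_mem_of_mem_normalizer (hAbQb hyA) (Qb.inv_mem hq))
    have h3 := hQP _ h2 h1
    calc q * y = q * y * q⁻¹ * y⁻¹ * (y * q) := by group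
      _ = y * q := by rw [h3, one_mul]
  have hcent : Qb ≤ Subgroup.centralizer (Pb : Set (X ⧸ Cfsg.pPrimeCore p X)) :=
    pq_act_order_p hp Ab Qb hAbp hQbc hAbQb (Nat.card Pb) Pb le_rfl hPbp hAbPb hQbPb hord
  intro q hq
  rw [← hπ1]
  have hqb : π q ∈ Qb := by rw [hQbdef]; exact Subgroup.mem_map_of_mem π hq
  exact hQP _ hqb (hPbc (hcent hqb))


/-- Adjoining to an elementary abelian subgroup a commuting element of order dividing `p`. -/
theorem elemAb_adjoin {G : Type u} [Group G] (p : ℕ) (B : Subgroup G)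
    (hB : Cfsg.IsElementaryAbelian p B) (x : G) (hxp : x ^ p = 1)
    (hxB : ∀ b ∈ B, x * b = b * x) :
    Cfsg.IsElementaryAbelian p (Subgroup.closure ((B : Set G) ∪ {x})) := by
  have hEcomm : ∀ a ∈ B, ∀ b ∈ B, a * b = b * a :=
    fun a ha b hb => Cfsg.Agent.Lib.Helper1.ea_comm hB ha hb
  obtain ⟨T, hTdef⟩ : ∃ T : Set G, T = (B : Set G) ∪ {x} := ⟨_, rfl⟩
  rw [← hTdef]
  have hTcomm : ∀ a ∈ T, ∀ b ∈ T, a * b = b * a := by
    intro a ha b hb
    rw [hTdef] at ha hb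
    rcases ha with ha | ha <;> rcases hb with hb | hb
    · exact hEcomm a ha b hb
    · rw [Set.mem_singleton_iff] at hb; rw [hb]; exact (hxB a ha).symm
    · rw [Set.mem_singleton_iff] at ha; rw [ha]; exact hxB b hb
    · rw [Set.mem_singleton_iff] at ha hb; rw [ha, hb]
  have hTp : ∀ a ∈ T, a ^ p = 1 := by
    intro a ha
    rw [hTdef] at ha
    rcases ha with ha | ha
    · exact hB.2 a ha
    · rw [Set.mem_singleton_iff] at ha; rw [ha]; exact hxp
  have hcl1 : Subgroup.closure T ≤ Subgroup.centralizer T := by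
    rw [Subgroup.closure_le]
    intro a ha
    rw [SetLike.mem_coe, Subgroup.mem_centralizer_iff]
    intro b hb
    exact hTcomm b hb a ha
  have hclcomm : ∀ a ∈ Subgroup.closure T, ∀ b ∈ Subgroup.closure T, a * b = b * a := by
    intro a ha b hb
    have h1 : a ∈ Subgroup.centralizer ((Subgroup.closure T : Subgroup G) : Set G) := by
      rw [Subgroup.centralizer_closure]; exact hcl1 ha
    rw [Subgroup.mem_centralizer_iff] at h1
    exact (h1 b hb).symm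
  have hclp : ∀ a ∈ Subgroup.closure T, a ^ p = 1 := by
    intro a ha
    induction ha using Subgroup.closure_induction with
    | mem y hy => exact hTp y hy
    | one => exact one_pow p
    | mul y z hy hz ihy ihz =>
      rw [(Commute.mul_pow (hclcomm y hy z hz) p), ihy, ihz, one_mul]
    | inv y hy ihy => rw [inv_pow, ihy, inv_one]
  exact Cfsg.Agent.Lib.Helper1.ea_of_comm hclcomm hclp

/-- If `B` is generated by the elements of order `p` of a Sylow `p`-subgroup of `C₀ ≥ B` and is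
elementary abelian, then `B` contains every element of order dividing `p` of `C₀` commuting with
`B`. -/
theorem mem_of_omega_sylow {G : Type u} [Group G] [Finite G] {p : ℕ} [Fact p.Prime]
    (C₀ : Subgroup G) (P : Sylow p ↥C₀) (B : Subgroup G) (hB : Cfsg.IsElementaryAbelian p B)
    (hBC : B ≤ C₀)
    (hBP : B = Subgroup.closure {x : G | x ∈ ((P : Subgroup ↥C₀).map C₀.subtype : Subgroup G) ∧
      orderOf x = p})
    (x : G) (hxC : x ∈ C₀) (hxB : ∀ b ∈ B, x * b = b * x) (hxp : x ^ p = 1) : x ∈ B := by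
  have hE := elemAb_adjoin p B hB x hxp hxB
  obtain ⟨E, hEdef⟩ : ∃ E : Subgroup G, E = Subgroup.closure ((B : Set G) ∪ {x}) := ⟨_, rfl⟩
  rw [← hEdef] at hE
  have hBE : B ≤ E := by
    rw [hEdef]; intro b hb; exact Subgroup.subset_closure (Or.inl hb)
  have hxE : x ∈ E := by rw [hEdef]; exact Subgroup.subset_closure (Or.inr rfl)
  have hEC : E ≤ C₀ := by
    rw [hEdef, Subgroup.closure_le]
    intro y hy
    rcases hy with hy | hy
    · exact hBC hy
    · rw [Set.mem_singleton_iff] at hy; rw [hy]; exact hxC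
  have hE'p : IsPGroup p (E.subgroupOf C₀) := by
    intro g
    refine ⟨1, ?_⟩
    rw [pow_one]
    apply Subtype.ext
    apply Subtype.ext
    have h1 : ((g : ↥C₀) : G) ∈ E := Subgroup.mem_subgroupOf.mp g.2
    exact hE.2 _ h1
  obtain ⟨P', hEP'⟩ := hE'p.exists_le_sylow
  obtain ⟨c, hc⟩ := MulAction.exists_smul_eq ↥C₀ P' P
  have hconj : ∀ e ∈ E, (c : G) * e * (c : G)⁻¹ ∈ B := by
    intro e he
    by_cases he1 : e = 1
    · rw [he1]; simp
    · have heC : e ∈ C₀ := hEC he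
      have h1 : (⟨e, heC⟩ : ↥C₀) ∈ (P' : Subgroup ↥C₀) := hEP' (Subgroup.mem_subgroupOf.mpr he)
      have h2 : c * (⟨e, heC⟩ : ↥C₀) * c⁻¹ ∈ MulAut.conj c • (P' : Subgroup ↥C₀) :=
        Cfsg.Agent.Lib.Lead.conj_mem_conj_smul h1
      have h3 : c * (⟨e, heC⟩ : ↥C₀) * c⁻¹ ∈ (P : Subgroup ↥C₀) := by
        rw [← hc]; exact h2
      have h4 : (c : G) * e * (c : G)⁻¹ ∈ ((P : Subgroup ↥C₀).map C₀.subtype : Subgroup G) :=
        ⟨c * (⟨e, heC⟩ : ↥C₀) * c⁻¹, h3, rfl⟩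
      have h5 : ((c : G) * e * (c : G)⁻¹) ^ p = 1 := by
        rw [conj_pow, hE.2 e he]; group
      have h6 : (c : G) * e * (c : G)⁻¹ ≠ 1 := by
        intro h
        apply he1
        calc e = (c : G)⁻¹ * ((c : G) * e * (c : G)⁻¹) * (c : G) := by group
          _ = 1 := by rw [h]; group
      rw [hBP]
      exact Subgroup.subset_closure ⟨h4, orderOf_eq_prime h5 h6⟩
  have hmap : B.map (MulAut.conj (c : G)).toMonoidHom = B := by
    apply Subgroup.eq_of_le_of_card_ge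
    · rintro _ ⟨b, hb, rfl⟩
      exact hconj b (hBE hb)
    · rw [Subgroup.card_map_of_injective (MulAut.conj (c : G)).injective]
  have h7 : (c : G) * x * (c : G)⁻¹ ∈ B.map (MulAut.conj (c : G)).toMonoidHom := by
    rw [hmap]; exact hconj x hxE
  obtain ⟨b, hb, hbx⟩ := h7
  have h8 : (c : G) * b * (c : G)⁻¹ = (c : G) * x * (c : G)⁻¹ := hbx
  have h9 : b = x := by
    calc b = (c : G)⁻¹ * ((c : G) * b * (c : G)⁻¹) * (c : G) := by group
      _ = (c : G)⁻¹ * ((c : G) * x * (c : G)⁻¹) * (c : G) := by rw [h8]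
      _ = x := by group
  rw [← h9]; exact hb

theorem psolv_inv_main {G : Type u} [Group G] [Finite G] {p : ℕ} [Fact p.Prime] (hp : p ≠ 2)
    (hG : Cfsg.IsPSolvable p G) (B : Subgroup G) (hB : Cfsg.IsElementaryAbelian p B)
    (b₀ : G) (hb₀ : b₀ ∈ B) (P : Sylow p ↥(Subgroup.centralizer ({b₀} : Set G)))
    (hBP : B = Subgroup.closure {x : G | x ∈ ((P : Subgroup ↥(Subgroup.centralizer ({b₀} : Set G))).map
      (Subgroup.centralizer ({b₀} : Set G)).subtype : Subgroup G) ∧ orderOf x = p})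
    (Q : Subgroup G) (hQ : ¬ p ∣ Nat.card Q) (hinv : ∀ b ∈ B, ∀ x ∈ Q, b * x * b⁻¹ ∈ Q) :
    Q ≤ Cfsg.pPrimeCore p G := by
  have hcent := Cfsg.Agent.S4218.hh123
    (Cfsg.Agent.S4218.isPSolvable_quotient (Cfsg.pPrimeCore p G) hG) (pPrimeCore_quotient_eq_bot p G)
  have hBp : IsPGroup p B := by
    intro g
    refine ⟨1, ?_⟩
    rw [pow_one]
    exact Subtype.ext (hB.2 g.1 g.2)
  have hBQ : B ≤ Subgroup.normalizer (Q : Set G) :=
    Cfsg.Agent.Lib.Lead.le_normalizer_of_conj_mem _ _ hinv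
  have hBcomm : ∀ a ∈ B, ∀ b ∈ B, a * b = b * a :=
    fun a ha b hb => Cfsg.Agent.Lib.Helper1.ea_comm hB ha hb
  apply inv_pprime_of_cent p hp hcent B hBp ?_ Q hQ hBQ
  intro x hx hxp
  have hxB : ∀ b ∈ B, x * b = b * x := by
    intro b hb
    rw [Subgroup.mem_centralizer_iff] at hx
    exact (hx b hb).symm
  have hBC : B ≤ Subgroup.centralizer ({b₀} : Set G) := by
    intro b hb
    rw [Subgroup.mem_centralizer_iff]
    intro y hy
    rw [Set.mem_singleton_iff] at hy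
    rw [hy]; exact hBcomm b₀ hb₀ b hb
  have hxC : x ∈ Subgroup.centralizer ({b₀} : Set G) := by
    rw [Subgroup.mem_centralizer_iff]
    intro y hy
    rw [Set.mem_singleton_iff] at hy
    rw [hy]; exact (hxB b₀ hb₀).symm
  have hxpow : x ^ p = 1 := by
    have h := pow_orderOf_eq_one x
    rw [hxp] at h
    exact h
  exact mem_of_omega_sylow (Subgroup.centralizer ({b₀} : Set G)) P B hB hBC hBP x hxC hxB hxpow

end Cfsg.Agent.Lib.Helper2
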