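import Mathlib
import Cfsg.Agent.Lib.Helper2.GenCoprime2

set_option autoImplicit false

namespace Cfsg.Agent.Lib.Helper2

open scoped commutatorElement

universe u

/-- If `t` commutes with every element of `X`, conjugation by `t` preserves the centralizer of
`X`. -/
theorem conj_mem_centralizer_of_comm {S : Type u} [Group S] (X : Subgroup S) (t a : S)
    (ht : ∀ x ∈ X, t * x = x * t) (ha : a ∈ Subgroup.centralizer (X : Set S)) :
    t * a * t⁻¹ ∈ Subgroup.centralizer (X : Set S) := by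
  rw [Subgroup.mem_centralizer_iff]
  intro x hx
  have h1 := ht x hx
  have h2 : x * a = a * x := Subgroup.mem_centralizer_iff.mp ha x hx
  have h3 : x * t⁻¹ = t⁻¹ * x := by
    calc x * t⁻¹ = t⁻¹ * (t * x) * t⁻¹ := by group
      _ = t⁻¹ * (x * t) * t⁻¹ := by rw [h1]
      _ = t⁻¹ * x := by group
  calc x * (t * a * t⁻¹) = (x * t) * a * t⁻¹ := by group
    _ = (t * x) * a * t⁻¹ := by rw [h1]
    _ = t * (x * a) * t⁻¹ := by group
    _ = t * (a * x) * t⁻¹ := by rw [h2]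
    _ = t * a * (x * t⁻¹) := by group
    _ = t * a * (t⁻¹ * x) := by rw [h3]
    _ = t * a * t⁻¹ * x := by group

/-- Let an abelian group `Q` act on a normal `p`-subgroup `P`, and let `X₁, X₂ ≤ Q` have orders
coprime to `P`. If every `Q`-invariant subgroup of `P` is generated by its fixed points under
`X₁` and under `X₂`, and `C_P(X₁) ∩ C_P(X₂) = 1`, then `C_P(X₁)` and `C_P(X₂)` commute
elementwise. -/
theorem two_fix_comm {S : Type u} [Group S] [Finite S] {p : ℕ} [Fact p.Prime]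
    (P Q X₁ X₂ : Subgroup S) (hPp : IsPGroup p ↥P) (hPn : P.Normal)
    (hQc : ∀ a ∈ Q, ∀ b ∈ Q, a * b = b * a)
    (h₁ : X₁ ≤ Q) (h₂ : X₂ ≤ Q)
    (hcop₁ : (Nat.card ↥X₁).Coprime (Nat.card ↥P)) (hcop₂ : (Nat.card ↥X₂).Coprime (Nat.card ↥P))
    (hgen : ∀ Y : Subgroup S, Y ≤ P → Q ≤ Subgroup.normalizer (Y : Set S) →
      Y ≤ (Y ⊓ Subgroup.centralizer (X₁ : Set S)) ⊔ (Y ⊓ Subgroup.centralizer (X₂ : Set S)))
    (hint : (P ⊓ Subgroup.centralizer (X₁ : Set S)) ⊓ (P ⊓ Subgroup.centralizer (X₂ : Set S)) = ⊥) :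
    ∀ a ∈ P ⊓ Subgroup.centralizer (X₁ : Set S), ∀ b ∈ P ⊓ Subgroup.centralizer (X₂ : Set S),
      a * b = b * a := by
  classical
  obtain ⟨P₁, hP₁⟩ : ∃ P₁, P₁ = P ⊓ Subgroup.centralizer (X₁ : Set S) := ⟨_, rfl⟩
  obtain ⟨P₂, hP₂⟩ : ∃ P₂, P₂ = P ⊓ Subgroup.centralizer (X₂ : Set S) := ⟨_, rfl⟩
  rw [← hP₁, ← hP₂] at hint
  rw [← hP₁, ← hP₂]
  have hP₁P : P₁ ≤ P := by rw [hP₁]; exact inf_le_left
  have hP₂P : P₂ ≤ P := by rw [hP₂]; exact inf_le_left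
  have hmem₁ : ∀ a, a ∈ P → a ∈ Subgroup.centralizer (X₁ : Set S) → a ∈ P₁ := by
    intro a h h'; rw [hP₁]; exact Subgroup.mem_inf.mpr ⟨h, h'⟩
  have hmem₂ : ∀ a, a ∈ P → a ∈ Subgroup.centralizer (X₂ : Set S) → a ∈ P₂ := by
    intro a h h'; rw [hP₂]; exact Subgroup.mem_inf.mpr ⟨h, h'⟩
  have hc₁ : ∀ a ∈ P₁, a ∈ Subgroup.centralizer (X₁ : Set S) := by
    intro a ha; rw [hP₁] at ha; exact (Subgroup.mem_inf.mp ha).2
  have hc₂ : ∀ a ∈ P₂, a ∈ Subgroup.centralizer (X₂ : Set S) := by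
    intro a ha; rw [hP₂] at ha; exact (Subgroup.mem_inf.mp ha).2
  -- Q-invariance
  have hQP₁ : ∀ t ∈ Q, ∀ a ∈ P₁, t * a * t⁻¹ ∈ P₁ := by
    intro t ht a ha
    exact hmem₁ _ (hPn.conj_mem a (hP₁P ha) t)
      (conj_mem_centralizer_of_comm X₁ t a (fun x hx => hQc t ht x (h₁ hx)) (hc₁ a ha))
  have hQP₂ : ∀ t ∈ Q, ∀ a ∈ P₂, t * a * t⁻¹ ∈ P₂ := by
    intro t ht a ha
    exact hmem₂ _ (hPn.conj_mem a (hP₂P ha) t)
      (conj_mem_centralizer_of_comm X₂ t a (fun x hx => hQc t ht x (h₂ hx)) (hc₂ a ha))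
  have hX₁P₂ : X₁ ≤ Subgroup.normalizer (P₂ : Set S) :=
    Cfsg.Agent.Lib.Helper4.le_normalizer_of_conj_mem (fun s hs d hd => hQP₂ s (h₁ hs) d hd)
  have hX₂P₂ : X₂ ≤ Subgroup.normalizer (P₂ : Set S) :=
    Cfsg.Agent.Lib.Helper4.le_normalizer_of_conj_mem (fun s hs d hd => hQP₂ s (h₂ hs) d hd)
  have hsol₁ : Group.IsSolvable ↥X₁ :=
    isSolvable_of_comm (fun a b => Subtype.ext (hQc a (h₁ a.2) b (h₁ b.2)))
  have hsol₂ : Group.IsSolvable ↥X₂ :=
    isSolvable_of_comm (fun a b => Subtype.ext (hQc a (h₂ a.2) b (h₂ b.2)))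
  have hbot : ∀ c, c ∈ P₁ → c ∈ P₂ → c = 1 := by
    intro c h h'
    have : c ∈ P₁ ⊓ P₂ := Subgroup.mem_inf.mpr ⟨h, h'⟩
    rw [hint, Subgroup.mem_bot] at this
    exact this
  -- P₂ = [P₂, X₁]
  have hdec₂ : P₂ ≤ ⁅P₂, X₁⁆ := by
    intro b hb
    have hcop : (Nat.card ↥X₁).Coprime (Nat.card ↥P₂) :=
      Nat.Coprime.coprime_dvd_right (Subgroup.card_dvd_of_le hP₂P) hcop₁
    obtain ⟨x', hx', c, hc, rfl⟩ :=
      Cfsg.Agent.Lib.Lead.coprime_commutator_decomp X₁ P₂ hX₁P₂ hcop (Or.inl hsol₁) b hb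
    have hc' := Subgroup.mem_inf.mp hc
    have hc1 : c = 1 := hbot c (hmem₁ c (hP₂P hc'.1) hc'.2) hc'.1
    rw [hc1, mul_one]; exact hx'
  -- normalizing elements of P₁ centralize P₂
  have hN : ∀ a ∈ P₁, a ∈ Subgroup.normalizer (P₂ : Set S) → ∀ b ∈ P₂, a * b = b * a := by
    intro a ha haN
    obtain ⟨T, hT⟩ : ∃ T, T = P₁ ⊓ Subgroup.normalizer (P₂ : Set S) := ⟨_, rfl⟩
    have hTP₁ : T ≤ P₁ := by rw [hT]; exact inf_le_left
    have hTN : T ≤ Subgroup.normalizer (P₂ : Set S) := by rw [hT]; exact inf_le_right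
    have hX₂T : X₂ ≤ Subgroup.normalizer (T : Set S) := by
      apply Cfsg.Agent.Lib.Helper4.le_normalizer_of_conj_mem
      intro s hs d hd
      rw [hT]
      refine Subgroup.mem_inf.mpr ⟨hQP₁ s (h₂ hs) d (hTP₁ hd), ?_⟩
      exact Subgroup.mul_mem _ (Subgroup.mul_mem _ (hX₂P₂ hs) (hTN hd))
        (Subgroup.inv_mem _ (hX₂P₂ hs))
    have hcop : (Nat.card ↥X₂).Coprime (Nat.card ↥T) :=
      Nat.Coprime.coprime_dvd_right (Subgroup.card_dvd_of_le (hTP₁.trans hP₁P)) hcop₂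
    have hTdec : T ≤ ⁅T, X₂⁆ := by
      intro t ht
      obtain ⟨x', hx', c, hc, rfl⟩ :=
        Cfsg.Agent.Lib.Lead.coprime_commutator_decomp X₂ T hX₂T hcop (Or.inl hsol₂) t ht
      have hc' := Subgroup.mem_inf.mp hc
      have hc1 : c = 1 :=
        hbot c (hTP₁ hc'.1) (hmem₂ c (hP₁P (hTP₁ hc'.1)) hc'.2)
      rw [hc1, mul_one]; exact hx'
    have hcomm : ⁅T, X₂⁆ ≤ Subgroup.centralizer (P₂ : Set S) := by
      rw [Subgroup.commutator_le]
      intro t ht x hx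
      rw [Subgroup.mem_centralizer_iff]
      intro b hb
      have hxb : x * b = b * x := Subgroup.mem_centralizer_iff.mp (hc₂ b hb) x hx
      have hb' : t⁻¹ * b * t ∈ P₂ := by
        have h := (Subgroup.mem_normalizer_iff.mp (Subgroup.inv_mem _ (hTN ht)) b).mp hb
        rw [inv_inv] at h; exact h
      have hxb' : x * (t⁻¹ * b * t) = (t⁻¹ * b * t) * x :=
        Subgroup.mem_centralizer_iff.mp (hc₂ _ hb') x hx
      have hxb2 : x⁻¹ * b = b * x⁻¹ := by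
        calc x⁻¹ * b = x⁻¹ * (b * x) * x⁻¹ := by group
          _ = x⁻¹ * (x * b) * x⁻¹ := by rw [hxb]
          _ = b * x⁻¹ := by group
      rw [commutatorElement_def]
      symm
      calc t * x * t⁻¹ * x⁻¹ * b = t * x * t⁻¹ * (x⁻¹ * b) := by group
        _ = t * x * t⁻¹ * (b * x⁻¹) := by rw [hxb2]
        _ = t * (x * (t⁻¹ * b * t)) * t⁻¹ * x⁻¹ := by group
        _ = t * ((t⁻¹ * b * t) * x) * t⁻¹ * x⁻¹ := by rw [hxb']
        _ = b * (t * x * t⁻¹ * x⁻¹) := by group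
    have haT : a ∈ T := by rw [hT]; exact Subgroup.mem_inf.mpr ⟨ha, haN⟩
    have haC := hcomm (hTdec haT)
    intro b hb
    exact (Subgroup.mem_centralizer_iff.mp haC b hb).symm
  -- the upper central series of P, inside S
  obtain ⟨Zi, hZi⟩ : ∃ Zi : ℕ → Subgroup S,
      Zi = fun i => (Subgroup.upperCentralSeries ↥P i).map P.subtype := ⟨_, rfl⟩
  have hZle : ∀ i, Zi i ≤ P := by
    intro i; rw [hZi]; exact Subgroup.map_subtype_le _
  have hZsucc : ∀ i x, x ∈ Zi (i + 1) ↔ x ∈ P ∧ ∀ y ∈ P, x * y * x⁻¹ * y⁻¹ ∈ Zi i := by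
    intro i x
    rw [hZi]
    constructor
    · rintro ⟨x', hx', rfl⟩
      refine ⟨x'.2, fun y hy => ?_⟩
      exact ⟨x' * ⟨y, hy⟩ * x'⁻¹ * (⟨y, hy⟩ : ↥P)⁻¹,
        (Subgroup.mem_upperCentralSeries_succ_iff.mp hx') ⟨y, hy⟩, rfl⟩
    · rintro ⟨hxP, h⟩
      refine ⟨⟨x, hxP⟩, ?_, rfl⟩
      show (⟨x, hxP⟩ : ↥P) ∈ Subgroup.upperCentralSeries ↥P (i + 1)
      rw [Subgroup.mem_upperCentralSeries_succ_iff]
      intro y'
      obtain ⟨w, hw, hweq⟩ := h y' y'.2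
      have hwe : w = (⟨x, hxP⟩ : ↥P) * y' * (⟨x, hxP⟩ : ↥P)⁻¹ * y'⁻¹ := Subtype.ext hweq
      rw [commutatorElement_def, ← hwe]; exact hw
  have hZ0 : ∀ x ∈ Zi 0, x = 1 := by
    intro x hx
    rw [hZi] at hx
    obtain ⟨x', hx', rfl⟩ := hx
    have hx'' : x' ∈ Subgroup.upperCentralSeries ↥P 0 := hx'
    rw [Subgroup.upperCentralSeries_zero, Subgroup.mem_bot] at hx''
    rw [hx'']; rfl
  have hZconj : ∀ i, ∀ t : S, ∀ x ∈ Zi i, t * x * t⁻¹ ∈ Zi i := by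
    intro i
    induction i with
    | zero =>
      intro t x hx
      rw [hZ0 x hx]
      have : t * 1 * t⁻¹ = 1 := by group
      rw [this]; exact Subgroup.one_mem _
    | succ i ih =>
      intro t x hx
      obtain ⟨hxP, hx2⟩ := (hZsucc i x).mp hx
      refine (hZsucc i _).mpr ⟨hPn.conj_mem x hxP t, fun y hy => ?_⟩
      have hy₁ : t⁻¹ * y * t ∈ P := by
        have h := hPn.conj_mem y hy t⁻¹
        rw [inv_inv] at h; exact h
      have e : t * x * t⁻¹ * y * (t * x * t⁻¹)⁻¹ * y⁻¹ =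
          t * (x * (t⁻¹ * y * t) * x⁻¹ * (t⁻¹ * y * t)⁻¹) * t⁻¹ := by group
      rw [e]
      exact ih t _ (hx2 _ hy₁)
  have hZQ : ∀ i, Q ≤ Subgroup.normalizer (Zi i : Set S) := fun i =>
    Cfsg.Agent.Lib.Helper4.le_normalizer_of_conj_mem (fun s _ d hd => hZconj i s d hd)
  haveI : Group.IsNilpotent ↥P := hPp.isNilpotent
  obtain ⟨n, hn⟩ := Group.IsNilpotent.nilpotent' (G := ↥P)
  have hZn : ∀ a ∈ P, a ∈ Zi n := by
    intro a ha
    rw [hZi]
    exact ⟨⟨a, ha⟩, by rw [hn]; exact Subgroup.mem_top _, rfl⟩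
  -- main induction
  have hmain : ∀ i, ∀ a ∈ P₁, a ∈ Zi i → ∀ b ∈ P₂, a * b = b * a := by
    intro i
    induction i with
    | zero =>
      intro a _ haZ b _
      rw [hZ0 a haZ, one_mul, mul_one]
    | succ i ih =>
      intro a ha haZ
      have haC : ∀ x ∈ X₁, x * a = a * x := fun x hx =>
        Subgroup.mem_centralizer_iff.mp (hc₁ a ha) x hx
      -- decomposition of elements of Zi i
      have hYdec : ∀ c ∈ Zi i, ∃ u ∈ P₁, u ∈ Zi i ∧ ∃ v ∈ P₂, c = u * v := by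
        intro c hc
        have hg := hgen (Zi i) (hZle i) (hZQ i) hc
        have hnorm : Zi i ⊓ Subgroup.centralizer (X₁ : Set S) ≤
            Subgroup.normalizer ((Zi i ⊓ Subgroup.centralizer (X₂ : Set S) : Subgroup S) : Set S) := by
          apply Cfsg.Agent.Lib.Helper4.le_normalizer_of_conj_mem
          intro u hu v hv
          have hu' := Subgroup.mem_inf.mp hu
          have hv' := Subgroup.mem_inf.mp hv
          have huv := ih u (hmem₁ u (hZle i hu'.1) hu'.2) hu'.1 v (hmem₂ v (hZle i hv'.1) hv'.2)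
          have e : u * v * u⁻¹ = v := by rw [huv]; group
          rw [e]; exact hv
        obtain ⟨u, hu, v, hv, rfl⟩ :=
          Cfsg.Agent.Lib.Helper3.exists_mul_of_mem_sup_of_le_normalizer _ _ hnorm hg
        have hu' := Subgroup.mem_inf.mp hu
        have hv' := Subgroup.mem_inf.mp hv
        exact ⟨u, hmem₁ u (hZle i hu'.1) hu'.2, hu'.1, v, hmem₂ v (hZle i hv'.1) hv'.2, rfl⟩
      have hconj : ∀ b ∈ P₂, a * b * a⁻¹ ∈ P₂ := by
        have hK : ⁅P₂, X₁⁆ ≤ P₂ ⊓ P₂.comap (MulAut.conj a).toMonoidHom := by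
          rw [Subgroup.commutator_le]
          intro b hb x hx
          have hxb : x * b⁻¹ * x⁻¹ ∈ P₂ := hQP₂ x (h₁ hx) _ (Subgroup.inv_mem _ hb)
          have hcomm_mem : ⁅b, x⁆ ∈ P₂ := by
            rw [commutatorElement_def]
            have e : b * x * b⁻¹ * x⁻¹ = b * (x * b⁻¹ * x⁻¹) := by group
            rw [e]; exact Subgroup.mul_mem _ hb hxb
          refine Subgroup.mem_inf.mpr ⟨hcomm_mem, ?_⟩
          show a * ⁅b, x⁆ * a⁻¹ ∈ P₂
          obtain ⟨u, hu₁, huZ, v, hv, hc⟩ := hYdec _ (((hZsucc i a).mp haZ).2 b (hP₂P hb))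
          have hax : a * x * a⁻¹ = x := by rw [← haC x hx]; group
          have hux0 : x * u = u * x := Subgroup.mem_centralizer_iff.mp (hc₁ u hu₁) x hx
          have hux : x * u⁻¹ * x⁻¹ = u⁻¹ := by
            calc x * u⁻¹ * x⁻¹ = u⁻¹ * (u * x) * u⁻¹ * x⁻¹ := by group
              _ = u⁻¹ * (x * u) * u⁻¹ * x⁻¹ := by rw [hux0]
              _ = u⁻¹ := by group
          have hab : a * b * a⁻¹ = u * v * b := by
            calc a * b * a⁻¹ = (a * b * a⁻¹ * b⁻¹) * b := by group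
              _ = u * v * b := by rw [hc]
          have e1 : a * ⁅b, x⁆ * a⁻¹ =
              (a * b * a⁻¹) * (a * x * a⁻¹) * (a * b * a⁻¹)⁻¹ * (a * x * a⁻¹)⁻¹ := by
            rw [commutatorElement_def]; group
          have e2 : u * v * b * x * (u * v * b)⁻¹ * x⁻¹ =
              u * (v * b * x * b⁻¹ * v⁻¹ * x⁻¹) * (x * u⁻¹ * x⁻¹) := by group
          have hw : v * b * x * b⁻¹ * v⁻¹ * x⁻¹ ∈ P₂ := by
            have e : v * b * x * b⁻¹ * v⁻¹ * x⁻¹ = (v * b) * (x * (v * b)⁻¹ * x⁻¹) := by group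
            rw [e]
            exact Subgroup.mul_mem _ (Subgroup.mul_mem _ hv hb)
              (hQP₂ x (h₁ hx) _ (Subgroup.inv_mem _ (Subgroup.mul_mem _ hv hb)))
          have huw := ih u hu₁ huZ _ hw
          have e3 : u * (v * b * x * b⁻¹ * v⁻¹ * x⁻¹) * u⁻¹ = v * b * x * b⁻¹ * v⁻¹ * x⁻¹ := by
            rw [huw]; group
          rw [e1, hax, hab, e2, hux, e3]
          exact hw
        intro b hb
        exact (Subgroup.mem_inf.mp (hK (hdec₂ hb))).2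
      have haN : a ∈ Subgroup.normalizer (P₂ : Set S) :=
        Cfsg.Agent.Lib.Lead.mem_normalizer_of_conj_mem P₂ a hconj
      exact hN a ha haN
  intro a ha b hb
  exact hmain n a ha (hZn a (hP₁P ha)) b hb

end Cfsg.Agent.Lib.Helper2
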