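import Mathlib
import Cfsg.Prelude.Def_Classical

set_option autoImplicit false

namespace Cfsg.Agent.Lib.Helper2

/-- A Gaussian integer divisible by three. -/
def gaussZ3s (z : ℤ√(-1)) : Prop := z.re % 3 = 0 ∧ z.im % 3 = 0

instance gaussZ3sDecidable (z : ℤ√(-1)) : Decidable (gaussZ3s z) := by
  unfold gaussZ3s
  infer_instance

theorem gaussZ3s_map {F : Type*} [Field F] (θ : ℤ√(-1) →+* F) (h3 : (3 : F) = 0)
    (z : ℤ√(-1)) (h : gaussZ3s z) : θ z = 0 := by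
  obtain ⟨h1, h2⟩ := h
  have hd : ((3 : ℤ) : ℤ√(-1)) ∣ z :=
    (Zsqrtd.intCast_dvd 3 z).mpr ⟨Int.dvd_of_emod_eq_zero h1, Int.dvd_of_emod_eq_zero h2⟩
  obtain ⟨w, hw⟩ := hd
  rw [hw, map_mul, map_intCast]
  have h3' : ((3 : ℤ) : F) = 0 := by
    rw [Int.cast_ofNat]
    exact h3
  rw [h3', zero_mul]

theorem gaussZ3s_unit {F : Type*} [Field F] (θ : ℤ√(-1) →+* F) (h3 : (3 : F) = 0)
    (z w : ℤ√(-1)) (h : gaussZ3s (z * w - 1)) : θ z ≠ 0 := by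
  intro hz
  have h0 := gaussZ3s_map θ h3 _ h
  rw [map_sub, map_mul, hz, zero_mul, map_one, zero_sub, neg_eq_zero] at h0
  exact one_ne_zero h0

/-- All entries of a 3 × 3 Gaussian-integer matrix are divisible by three. -/
def gaussZ33 (M : Matrix (Fin 3) (Fin 3) (ℤ√(-1))) : Prop :=
  ∀ a b : Fin 3, (M a b).re % 3 = 0 ∧ (M a b).im % 3 = 0

instance gaussZ33Decidable (M : Matrix (Fin 3) (Fin 3) (ℤ√(-1))) : Decidable (gaussZ33 M) := by
  unfold gaussZ33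
  infer_instance

theorem gaussZ33_eq_one {F : Type*} [Field F] (θ : ℤ√(-1) →+* F) (h3 : (3 : F) = 0)
    (W : Matrix (Fin 3) (Fin 3) (ℤ√(-1))) (h : gaussZ33 (W - 1)) :
    θ.mapMatrix W = 1 := by
  ext a b
  have h0 := gaussZ3s_map θ h3 _ (h a b)
  rw [Matrix.sub_apply, map_sub, sub_eq_zero] at h0
  show θ (W a b) = (1 : Matrix (Fin 3) (Fin 3) F) a b
  rw [h0, Matrix.one_apply, Matrix.one_apply, apply_ite θ, map_one, map_zero]

theorem u33_det {F : Type*} [Field F] (θ : ℤ√(-1) →+* F) (h3 : (3 : F) = 0)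
    (M : Matrix (Fin 3) (Fin 3) (ℤ√(-1)))
    (h : gaussZ3s (M 0 0 * M 1 1 * M 2 2 - M 0 0 * M 1 2 * M 2 1
      - M 0 1 * M 1 0 * M 2 2 + M 0 1 * M 1 2 * M 2 0
      + M 0 2 * M 1 0 * M 2 1 - M 0 2 * M 1 1 * M 2 0 - 1)) :
    (θ.mapMatrix M).det = 1 := by
  have h0 := gaussZ3s_map θ h3 _ h
  rw [map_sub, sub_eq_zero, map_one] at h0
  rw [Matrix.det_fin_three, ← h0]
  simp only [map_sub, map_add, map_mul]
  rfl

theorem u33_herm {F : Type*} [Field F] (θ : ℤ√(-1) →+* F) (h3 : (3 : F) = 0)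
    (M : Matrix (Fin 3) (Fin 3) (ℤ√(-1)))
    (h : gaussZ33 (M.transpose * M.map (fun x => x ^ 3) - 1)) (u v : Fin 3 → F) :
    Cfsg.hermForm 3 F 3 (Matrix.mulVec (θ.mapMatrix M) u) (Matrix.mulVec (θ.mapMatrix M) v) =
      Cfsg.hermForm 3 F 3 u v := by
  have hjk : ∀ j k : Fin 3, θ (M 0 j) * θ (M 0 k) ^ 3 + θ (M 1 j) * θ (M 1 k) ^ 3 +
      θ (M 2 j) * θ (M 2 k) ^ 3 = if j = k then 1 else 0 := by
    intro j k
    have h0 := gaussZ3s_map θ h3 _ (h j k)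
    rw [Matrix.sub_apply, map_sub, sub_eq_zero, Matrix.mul_apply, Fin.sum_univ_three] at h0
    simp only [Matrix.transpose_apply, Matrix.map_apply, map_add, map_mul, map_pow] at h0
    rw [h0, Matrix.one_apply, apply_ite θ, map_one, map_zero]
  have hcube : ∀ a b c : F, (a + b + c) ^ 3 = a ^ 3 + b ^ 3 + c ^ 3 := by
    intro a b c
    linear_combination (a ^ 2 * b + a ^ 2 * c + b ^ 2 * a + b ^ 2 * c + c ^ 2 * a + c ^ 2 * b
      + 2 * a * b * c) * h3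
  have e : ∀ (w : Fin 3 → F) (i : Fin 3), (Matrix.mulVec (θ.mapMatrix M) w) i =
      θ (M i 0) * w 0 + θ (M i 1) * w 1 + θ (M i 2) * w 2 := by
    intro w i
    rw [Matrix.mulVec, dotProduct, Fin.sum_univ_three]
    rfl
  have h00 := hjk 0 0
  have h01 := hjk 0 1
  have h02 := hjk 0 2
  have h10 := hjk 1 0
  have h11 := hjk 1 1
  have h12 := hjk 1 2
  have h20 := hjk 2 0
  have h21 := hjk 2 1
  have h22 := hjk 2 2
  rw [if_pos rfl] at h00 h11 h22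
  rw [if_neg (by decide)] at h01 h02 h10 h12 h20 h21
  unfold Cfsg.hermForm
  rw [Fin.sum_univ_three, Fin.sum_univ_three, e u 0, e u 1, e u 2, e v 0, e v 1, e v 2,
    hcube, hcube, hcube]
  linear_combination (u 0 * v 0 ^ 3) * h00 + (u 0 * v 1 ^ 3) * h01 + (u 0 * v 2 ^ 3) * h02
    + (u 1 * v 0 ^ 3) * h10 + (u 1 * v 1 ^ 3) * h11 + (u 1 * v 2 ^ 3) * h12
    + (u 2 * v 0 ^ 3) * h20 + (u 2 * v 1 ^ 3) * h21 + (u 2 * v 2 ^ 3) * h22

end Cfsg.Agent.Lib.Helper2
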