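import Mathlib

set_option autoImplicit false

namespace Cfsg.Agent.Lib.Helper2

open Polynomial

/-- Evaluated form of the divisibility `(X ^ d - 1) * Φ_n ∣ X ^ n - 1`. -/
theorem zs_dvd_int (a : ℤ) {d n : ℕ} (h : d ∈ n.properDivisors) :
    (a ^ d - 1) * (cyclotomic n ℤ).eval a ∣ a ^ n - 1 := by
  obtain ⟨g, hg⟩ := X_pow_sub_one_mul_cyclotomic_dvd_X_pow_sub_one_of_dvd ℤ h
  refine ⟨g.eval a, ?_⟩
  have h2 := congrArg (Polynomial.eval a) hg
  simp only [eval_sub, eval_pow, eval_X, eval_one, eval_mul] at h2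
  exact h2

/-- The value `Φ_n(a)` as a positive natural number with its divisibility properties. -/
theorem zs_exists_N (a n : ℕ) (ha : 1 < a) :
    ∃ N : ℕ, (N : ℤ) = (cyclotomic n ℤ).eval (a : ℤ) ∧ 0 < N ∧
      ∀ d ∈ n.properDivisors, (a ^ d - 1) * N ∣ a ^ n - 1 := by
  have hpos : 0 < (cyclotomic n ℤ).eval (a : ℤ) := cyclotomic_pos' n (by exact_mod_cast ha)
  refine ⟨((cyclotomic n ℤ).eval (a : ℤ)).toNat, Int.toNat_of_nonneg hpos.le, ?_, ?_⟩
  · have := hpos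
    omega
  · intro d hd
    have h1 := zs_dvd_int (a : ℤ) hd
    rw [← Int.natCast_dvd_natCast]
    have e1 : ((a ^ d - 1 : ℕ) : ℤ) = (a : ℤ) ^ d - 1 := by
      rw [Nat.cast_sub (Nat.one_le_pow d a (by omega))]
      simp
    have e2 : ((a ^ n - 1 : ℕ) : ℤ) = (a : ℤ) ^ n - 1 := by
      rw [Nat.cast_sub (Nat.one_le_pow n a (by omega))]
      simp
    rw [Nat.cast_mul, e1, e2, Int.toNat_of_nonneg hpos.le]
    exact h1

/-- Divisibility of `a ^ k - 1` in terms of `ZMod`. -/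
theorem zs_dvd_iff (r a k : ℕ) (ha : 0 < a) : r ∣ a ^ k - 1 ↔ (a : ZMod r) ^ k = 1 := by
  rw [← ZMod.natCast_eq_zero_iff, Nat.cast_sub (Nat.one_le_pow k a ha), Nat.cast_pow,
    Nat.cast_one, sub_eq_zero]

/-- Key step: a common prime divisor of `Φ_n(a)` and `a ^ d - 1` (`d` a proper divisor of `n`)
divides `n / d`. -/
theorem zs_key (r a n d N : ℕ) (ha : 1 < a) (hd : d ∈ n.properDivisors)
    (hdiv : (a ^ d - 1) * N ∣ a ^ n - 1) (hrN : r ∣ N) (hrd : r ∣ a ^ d - 1) : r ∣ n / d := by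
  have ha0 : 0 < a := by omega
  rw [Nat.mem_properDivisors] at hd
  obtain ⟨⟨t, ht⟩, hdn⟩ := hd
  have hd0 : 0 < d := by
    rcases Nat.eq_zero_or_pos d with h | h
    · subst h
      rw [Nat.zero_mul] at ht
      omega
    · exact h
  have ht' : n / d = t := by
    rw [ht]
    exact Nat.mul_div_cancel_left t hd0
  rw [ht']
  have hx1 : 0 < a ^ d - 1 := by
    have h2 : 2 ≤ a ^ d := by
      calc 2 ≤ a := ha
        _ = a ^ 1 := (pow_one a).symm
        _ ≤ a ^ d := Nat.pow_le_pow_right ha0 hd0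
    omega
  have e : ((a : ℤ) ^ d - 1) * ∑ i ∈ Finset.range t, ((a : ℤ) ^ d) ^ i = (a : ℤ) ^ n - 1 := by
    rw [mul_comm ((a : ℤ) ^ d - 1) _, geom_sum_mul, ← pow_mul, ← ht]
  have hS : a ^ n - 1 = (a ^ d - 1) * ∑ i ∈ Finset.range t, (a ^ d) ^ i := by
    have h0 : ((a ^ n - 1 : ℕ) : ℤ)
        = (((a ^ d - 1) * ∑ i ∈ Finset.range t, (a ^ d) ^ i : ℕ) : ℤ) := by
      rw [Nat.cast_sub (Nat.one_le_pow n a ha0), Nat.cast_mul,
        Nat.cast_sub (Nat.one_le_pow d a ha0)]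
      push_cast
      exact e.symm
    exact Nat.cast_injective h0
  rw [hS] at hdiv
  have hNS : N ∣ ∑ i ∈ Finset.range t, (a ^ d) ^ i := Nat.dvd_of_mul_dvd_mul_left hx1 hdiv
  have hrS : r ∣ ∑ i ∈ Finset.range t, (a ^ d) ^ i := dvd_trans hrN hNS
  have h1 : (a : ZMod r) ^ d = 1 := (zs_dvd_iff r a d ha0).mp hrd
  have h5 : ((∑ i ∈ Finset.range t, (a ^ d) ^ i : ℕ) : ZMod r) = (t : ZMod r) := by
    rw [Nat.cast_sum]
    simp [h1]
  rw [← ZMod.natCast_eq_zero_iff, h5] at hrS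
  rw [← ZMod.natCast_eq_zero_iff]
  exact hrS

/-- Structure of `n` relative to a non-primitive prime divisor `r` of `Φ_n(a)`. -/
theorem zs_struct (r a n N : ℕ) [hr : Fact r.Prime] (ha : 1 < a) (hn : 1 < n)
    (hdiv : ∀ d ∈ n.properDivisors, (a ^ d - 1) * N ∣ a ^ n - 1) (hrN : r ∣ N)
    (k : ℕ) (hk0 : 0 < k) (hkn : k < n) (hrk : r ∣ a ^ k - 1) :
    ∃ m j : ℕ, 0 < m ∧ m ∣ r - 1 ∧ 0 < j ∧ n = m * r ^ j ∧
      (∀ e : ℕ, r ∣ a ^ e - 1 ↔ m ∣ e) := by
  have ha0 : 0 < a := by omega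
  have hiff : ∀ e : ℕ, r ∣ a ^ e - 1 ↔ orderOf (a : ZMod r) ∣ e := by
    intro e
    rw [zs_dvd_iff r a e ha0, orderOf_dvd_iff_pow_eq_one]
  obtain ⟨m, hm⟩ : ∃ m, m = orderOf (a : ZMod r) := ⟨_, rfl⟩
  rw [← hm] at hiff
  have h1n : 1 ∈ n.properDivisors := by
    rw [Nat.mem_properDivisors]
    exact ⟨one_dvd n, hn⟩
  have hNn : N ∣ a ^ n - 1 := dvd_trans (dvd_mul_left N _) (hdiv 1 h1n)
  have hrn : r ∣ a ^ n - 1 := dvd_trans hrN hNn
  have hmn : m ∣ n := (hiff n).mp hrn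
  have hmk : m ∣ k := (hiff k).mp hrk
  have hm0 : 0 < m := Nat.pos_of_dvd_of_pos hmk hk0
  have hmlt : m < n := lt_of_le_of_lt (Nat.le_of_dvd hk0 hmk) hkn
  have ha_ne : (a : ZMod r) ≠ 0 := by
    intro h0
    have h2 : (a : ZMod r) ^ k = 1 := (zs_dvd_iff r a k ha0).mp hrk
    rw [h0, zero_pow (by omega)] at h2
    exact zero_ne_one h2
  have hmr : m ∣ r - 1 := by
    rw [hm]
    exact ZMod.orderOf_dvd_card_sub_one ha_ne
  obtain ⟨t, ht⟩ := hmn
  have ht0 : 0 < t := by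
    rcases Nat.eq_zero_or_pos t with h | h
    · subst h
      rw [Nat.mul_zero] at ht
      omega
    · exact h
  have hmprop : m ∈ n.properDivisors := by
    rw [Nat.mem_properDivisors]
    exact ⟨⟨t, ht⟩, hmlt⟩
  have hrt : r ∣ t := by
    have h3 := zs_key r a n m N ha hmprop (hdiv m hmprop) hrN ((hiff m).mpr dvd_rfl)
    have h4 : n / m = t := by
      rw [ht]
      exact Nat.mul_div_cancel_left t hm0
    rw [h4] at h3
    exact h3
  have hpow : ∀ {s : ℕ}, s.Prime → s ∣ t → s = r := by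
    intro s hs hst
    by_contra hne
    obtain ⟨u, hu⟩ := hst
    have hu0 : 0 < u := by
      rcases Nat.eq_zero_or_pos u with h | h
      · subst h
        rw [Nat.mul_zero] at hu
        omega
      · exact h
    have hmu : 0 < m * u := Nat.mul_pos hm0 hu0
    have hnmu : n = m * u * s := by
      rw [ht, hu]
      ring
    have hd : m * u ∈ n.properDivisors := by
      rw [Nat.mem_properDivisors]
      refine ⟨⟨s, hnmu⟩, ?_⟩
      rw [hnmu]
      exact (lt_mul_iff_one_lt_right hmu).mpr hs.one_lt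
    have h3 := zs_key r a n (m * u) N ha hd (hdiv _ hd) hrN ((hiff _).mpr (dvd_mul_right m u))
    have h4 : n / (m * u) = s := by
      rw [hnmu]
      exact Nat.mul_div_cancel_left s hmu
    rw [h4] at h3
    exact hne ((Nat.prime_dvd_prime_iff_eq hr.out hs).mp h3).symm
  have ht_eq := Nat.eq_prime_pow_of_unique_prime_dvd (Nat.pos_iff_ne_zero.mp ht0) hpow
  obtain ⟨j, hj⟩ : ∃ j, j = t.primeFactorsList.length := ⟨_, rfl⟩
  rw [← hj] at ht_eq
  have hj0 : 0 < j := by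
    rcases Nat.eq_zero_or_pos j with h | h
    · rw [h, pow_zero] at ht_eq
      rw [ht_eq] at hrt
      have h5 := Nat.le_of_dvd one_pos hrt
      have h6 := hr.out.one_lt
      omega
    · exact h
  refine ⟨m, j, hm0, hmr, hj0, ?_, hiff⟩
  rw [ht, ht_eq]

/-- `Φ_{n' r}(x) = Φ_{n'}(x ^ r)` when `r ∣ n'`. -/
theorem zs_expand_dvd (r n' : ℕ) (hr : r.Prime) (h : r ∣ n') (x : ℤ) :
    (cyclotomic (n' * r) ℤ).eval x = (cyclotomic n' ℤ).eval (x ^ r) := by
  rw [← cyclotomic_expand_eq_cyclotomic hr h ℤ, expand_eval]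

/-- `Φ_{m r}(x) Φ_m(x) = Φ_m(x ^ r)` when `r ∤ m`. -/
theorem zs_expand_ndvd (r m : ℕ) (hr : r.Prime) (h : ¬ r ∣ m) (x : ℤ) :
    (cyclotomic (m * r) ℤ).eval x * (cyclotomic m ℤ).eval x
      = (cyclotomic m ℤ).eval (x ^ r) := by
  rw [← expand_eval, cyclotomic_expand_eq_cyclotomic_mul hr h ℤ, eval_mul]

/-- Lower bound for cyclotomic values. -/
theorem zs_lower (n q : ℕ) (hn : 1 < n) (hq : 1 < q) :
    (q - 1) ^ n.totient < ((cyclotomic n ℤ).eval (q : ℤ)).natAbs :=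
  sub_one_pow_totient_lt_natAbs_cyclotomic_eval hn (by omega)

/-- Upper bound for `Φ_m(2)`. -/
theorem zs_upper (m : ℕ) : ((cyclotomic m ℤ).eval (2 : ℤ)).natAbs ≤ 3 ^ m.totient := by
  have h1 := cyclotomic_eval_le_add_one_pow_totient (q := (2 : ℝ)) (by norm_num) m
  have h2 : (cyclotomic m ℝ).eval (2 : ℝ) = (((cyclotomic m ℤ).eval (2 : ℤ) : ℤ) : ℝ) := by
    have h3 := eval_intCast_map (Int.castRingHom ℝ) (cyclotomic m ℤ) 2
    rw [map_cyclotomic_int] at h3
    simpa using h3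
  have hpos : 0 < (cyclotomic m ℤ).eval (2 : ℤ) := cyclotomic_pos' m (by norm_num)
  rw [h2] at h1
  have h4 : (cyclotomic m ℤ).eval (2 : ℤ) ≤ 3 ^ m.totient := by
    have h5 : (((cyclotomic m ℤ).eval (2 : ℤ) : ℤ) : ℝ) ≤ (((3 : ℤ) ^ m.totient : ℤ) : ℝ) := by
      push_cast
      norm_num at h1
      exact h1
    exact_mod_cast h5
  have h6 : (((cyclotomic m ℤ).eval (2 : ℤ)).natAbs : ℤ) = (cyclotomic m ℤ).eval (2 : ℤ) :=
    Int.natAbs_of_nonneg hpos.le
  have h7 : (((cyclotomic m ℤ).eval (2 : ℤ)).natAbs : ℤ) ≤ ((3 ^ m.totient : ℕ) : ℤ) := by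
    rw [h6]
    push_cast
    exact h4
  exact_mod_cast h7

/-- `3 r + 1 ≤ 2 ^ r` for `r ≥ 5`. -/
theorem zs_three_mul_lt (r : ℕ) (h : 5 ≤ r) : 3 * r + 1 ≤ 2 ^ r := by
  induction r, h using Nat.le_induction with
  | base => norm_num
  | succ k hk ih =>
    rw [pow_succ]
    omega

/-- The case `n = 2` of Zsigmondy's theorem. -/
theorem zs_two (a : ℕ) (ha : 1 < a) (h2 : ¬ ∃ m : ℕ, a + 1 = 2 ^ m) :
    ∃ r : ℕ, r.Prime ∧ r ∣ a ^ 2 - 1 ∧ ∀ k : ℕ, 0 < k → k < 2 → ¬ r ∣ a ^ k - 1 := by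
  rcases Nat.eq_two_pow_or_exists_odd_prime_and_dvd (a + 1) with h | ⟨r, hr, hra, hodd⟩
  · exact absurd h h2
  · refine ⟨r, hr, ?_, ?_⟩
    · have h3 := Nat.pow_two_sub_pow_two a 1
      rw [one_pow] at h3
      rw [h3]
      exact dvd_mul_of_dvd_left hra _
    · intro k hk0 hk2 hrk
      have hk1 : k = 1 := by omega
      subst hk1
      rw [pow_one] at hrk
      have h4 : r ∣ (a - 1) + 2 := by
        have h5 : (a - 1) + 2 = a + 1 := by omega
        rw [h5]
        exact hra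
      have h6 : r ∣ 2 := (Nat.dvd_add_right hrk).mp h4
      have h7 : r = 2 := (Nat.prime_dvd_prime_iff_eq hr Nat.prime_two).mp h6
      rw [h7] at hodd
      have h8 := Nat.odd_iff.mp hodd
      omega

/-- Zsigmondy's theorem for `n ≥ 3`. -/
theorem zs_main (a n : ℕ) (ha : 1 < a) (hn : 3 ≤ n) (h6 : ¬ (a = 2 ∧ n = 6)) :
    ∃ r : ℕ, r.Prime ∧ r ∣ a ^ n - 1 ∧ ∀ k : ℕ, 0 < k → k < n → ¬ r ∣ a ^ k - 1 := by
  by_contra hcon
  have hcon' : ∀ r : ℕ, r.Prime → r ∣ a ^ n - 1 →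
      ∃ k : ℕ, 0 < k ∧ k < n ∧ r ∣ a ^ k - 1 := by
    intro r hr hrn
    by_contra h
    apply hcon
    refine ⟨r, hr, hrn, ?_⟩
    intro k hk0 hkn hrk
    exact h ⟨k, hk0, hkn, hrk⟩
  have ha0 : 0 < a := by omega
  obtain ⟨N, hNZ, hN0, hdiv⟩ := zs_exists_N a n ha
  have h1n : 1 ∈ n.properDivisors := by
    rw [Nat.mem_properDivisors]
    exact ⟨one_dvd n, by omega⟩
  have hNn : N ∣ a ^ n - 1 := dvd_trans (dvd_mul_left N _) (hdiv 1 h1n)
  have hNbound : (a - 1) ^ n.totient < N := by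
    have h := zs_lower n a (by omega) ha
    rw [← hNZ, Int.natAbs_natCast] at h
    exact h
  have hN1 : 1 < N := lt_of_le_of_lt (Nat.one_le_pow _ _ (by omega)) hNbound
  have hstr : ∀ r : ℕ, r.Prime → r ∣ N → ∃ m j : ℕ, 0 < m ∧ m ∣ r - 1 ∧ 0 < j ∧
      n = m * r ^ j ∧ (∀ e : ℕ, r ∣ a ^ e - 1 ↔ m ∣ e) := by
    intro r hr hrN
    haveI : Fact r.Prime := ⟨hr⟩
    obtain ⟨k, hk0, hkn, hrk⟩ := hcon' r hr (dvd_trans hrN hNn)
    exact zs_struct r a n N ha (by omega) hdiv hrN k hk0 hkn hrk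
  obtain ⟨r, hr, hrN⟩ := Nat.exists_prime_and_dvd (show N ≠ 1 by omega)
  haveI hrF : Fact r.Prime := ⟨hr⟩
  obtain ⟨m, j, hm0, hmr, hj0, hnm, hiff⟩ := hstr r hr hrN
  obtain ⟨j₀, rfl⟩ : ∃ j₀, j = j₀ + 1 := ⟨j - 1, by omega⟩
  have hmltr : m < r := by
    have h1 := Nat.le_of_dvd (by have := hr.one_lt; omega) hmr
    have h2 := hr.one_lt
    omega
  -- uniqueness of the prime divisor of `N`
  have huniq : ∀ {s : ℕ}, s.Prime → s ∣ N → s = r := by
    intro s hs hsN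
    by_contra hne
    obtain ⟨m', j', hm0', hmr', hj0', hnm', -⟩ := hstr s hs hsN
    have hm'lt : m' < s := by
      have h1 := Nat.le_of_dvd (by have := hs.one_lt; omega) hmr'
      have h2 := hs.one_lt
      omega
    have h1 : s ∣ m := by
      have h2 : s ∣ m * r ^ (j₀ + 1) := by
        rw [← hnm, hnm']
        exact dvd_mul_of_dvd_right (dvd_pow_self s (by omega)) m'
      rcases (Nat.Prime.dvd_mul hs).mp h2 with h3 | h3
      · exact h3
      · exact absurd ((Nat.prime_dvd_prime_iff_eq hs hr).mp (hs.dvd_of_dvd_pow h3)) hne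
    have h1' : r ∣ m' := by
      have h2 : r ∣ m' * s ^ j' := by
        rw [← hnm', hnm]
        exact dvd_mul_of_dvd_right (dvd_pow_self r (by omega)) m
      rcases (Nat.Prime.dvd_mul hr).mp h2 with h3 | h3
      · exact h3
      · exact absurd ((Nat.prime_dvd_prime_iff_eq hr hs).mp (hr.dvd_of_dvd_pow h3)).symm hne
    have h4 := Nat.le_of_dvd hm0 h1
    have h5 := Nat.le_of_dvd hm0' h1'
    omega
  have hNpow := Nat.eq_prime_pow_of_unique_prime_dvd (by omega : N ≠ 0) huniq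
  -- the divisor `d = n / r`
  have hnd : n = (m * r ^ j₀) * r := by
    rw [hnm, pow_succ]
    ring
  have hd : m * r ^ j₀ ∈ n.properDivisors := by
    rw [Nat.mem_properDivisors]
    refine ⟨⟨r, hnd⟩, ?_⟩
    have h1 : m * r ^ j₀ < m * r ^ j₀ * r :=
      (lt_mul_iff_one_lt_right (Nat.mul_pos hm0 (pow_pos hr.pos j₀))).mpr hr.one_lt
    omega
  have hrd : r ∣ a ^ (m * r ^ j₀) - 1 := (hiff _).mpr (dvd_mul_right m _)
  have hdd := hdiv _ hd
  obtain ⟨x, hx⟩ : ∃ x, x = a ^ (m * r ^ j₀) := ⟨_, rfl⟩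
  rw [← hx] at hrd hdd
  have hxn : a ^ n = x ^ r := by
    rw [hx, ← pow_mul, ← hnd]
  rw [hxn] at hdd
  have hx2 : 2 ≤ x := by
    rw [hx]
    calc 2 ≤ a := ha
      _ = a ^ 1 := (pow_one a).symm
      _ ≤ a ^ (m * r ^ j₀) := Nat.pow_le_pow_right ha0 (Nat.mul_pos hm0 (pow_pos hr.pos j₀))
  -- `r ^ 2` does not divide `N`
  have hsq : ¬ r ^ 2 ∣ N := by
    intro hsqN
    rcases hr.eq_two_or_odd' with h2 | hodd
    · subst h2
      have e : x ^ 2 - 1 = (x - 1) * (x + 1) := by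
        have h3 := Nat.pow_two_sub_pow_two x 1
        rw [one_pow] at h3
        rw [h3, mul_comm]
      rw [e] at hdd
      have hN1' : N ∣ x + 1 := Nat.dvd_of_mul_dvd_mul_left (by omega) hdd
      have hsqN' : 4 ∣ N := by
        norm_num at hsqN
        exact hsqN
      have h4 : 4 ∣ x + 1 := dvd_trans hsqN' hN1'
      have hm1 : m = 1 := by
        have h5 := Nat.le_of_dvd (by norm_num) hmr
        omega
      have hj1 : 1 ≤ j₀ := by
        by_contra hj
        have hj' : j₀ = 0 := by omega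
        rw [hj', hm1] at hnd
        norm_num at hnd
        omega
      obtain ⟨i, rfl⟩ : ∃ i, j₀ = i + 1 := ⟨j₀ - 1, by omega⟩
      have hxsq : x = (a ^ (2 ^ i)) ^ 2 := by
        rw [hx, hm1, one_mul, ← pow_mul, pow_succ]
      obtain ⟨y, hy⟩ : ∃ y, y = a ^ (2 ^ i) := ⟨_, rfl⟩
      rw [← hy] at hxsq
      rw [hxsq] at h4
      have h5 : (y ^ 2 + 1) % 4 = 1 ∨ (y ^ 2 + 1) % 4 = 2 := by
        have h6 : y % 4 = 0 ∨ y % 4 = 1 ∨ y % 4 = 2 ∨ y % 4 = 3 := by omega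
        rw [Nat.add_mod, Nat.pow_mod]
        rcases h6 with h | h | h | h <;> rw [h] <;> norm_num
      obtain ⟨w, hw⟩ : ∃ w, w = y ^ 2 + 1 := ⟨_, rfl⟩
      rw [← hw] at h4 h5
      omega
    · have hx1 : 1 < x := by omega
      have hnx : ¬ r ∣ x := by
        intro hrx
        have h1 : r ∣ 1 := by
          have h2 : r ∣ (x - 1) + 1 := by
            rw [Nat.sub_add_cancel (by omega)]
            exact hrx
          exact (Nat.dvd_add_right hrd).mp h2
        have h3 := Nat.le_of_dvd one_pos h1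
        have h4 := hr.one_lt
        omega
      have hlte := padicValNat.pow_sub_pow hodd hx1 hrd hnx (n := r) hr.ne_zero
      rw [one_pow, padicValNat_self] at hlte
      have h1 : r ^ (padicValNat r (x - 1) + 2) ∣ x ^ r - 1 := by
        rw [pow_add]
        exact dvd_trans (Nat.mul_dvd_mul pow_padicValNat_dvd hsqN) hdd
      have hne0 : x ^ r - 1 ≠ 0 := by
        have h2 : 2 ≤ x ^ r := by
          calc 2 ≤ x := hx2
            _ = x ^ 1 := (pow_one x).symm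
            _ ≤ x ^ r := Nat.pow_le_pow_right (by omega) hr.pos
        omega
      have h2 := (padicValNat_dvd_iff_le hne0).mp h1
      omega
  -- hence `N = r`
  obtain ⟨L, hL⟩ : ∃ L, L = N.primeFactorsList.length := ⟨_, rfl⟩
  rw [← hL] at hNpow
  have hL1 : L = 1 := by
    rcases Nat.lt_or_ge L 2 with h | h
    · interval_cases L
      · rw [pow_zero] at hNpow
        omega
      · rfl
    · exfalso
      apply hsq
      rw [hNpow]
      exact pow_dvd_pow r h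
  rw [hL1, pow_one] at hNpow
  have hrn : r ∣ n := by
    rw [hnm]
    exact dvd_mul_of_dvd_right (dvd_pow_self r (by omega)) m
  rcases Nat.lt_or_ge a 3 with ha3 | ha3
  swap
  · -- `a ≥ 3`
    have h1 : r - 1 ∣ n.totient := by
      have h2 := Nat.totient_dvd_of_dvd hrn
      rw [Nat.totient_prime hr] at h2
      exact h2
    have h2 : r - 1 ≤ n.totient := Nat.le_of_dvd (Nat.totient_pos.mpr (by omega)) h1
    have h3 : 2 ^ (r - 1) ≤ (a - 1) ^ n.totient :=
      calc 2 ^ (r - 1) ≤ 2 ^ n.totient := Nat.pow_le_pow_right (by omega) h2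
        _ ≤ (a - 1) ^ n.totient := Nat.pow_le_pow_left (by omega) _
    have h4 : r - 1 < 2 ^ (r - 1) := Nat.lt_two_pow_self
    have h5 : (a - 1) ^ n.totient < r := by
      rw [← hNpow]
      exact hNbound
    have h7 : r - 1 < r - 1 :=
      calc r - 1 < 2 ^ (r - 1) := h4
        _ ≤ (a - 1) ^ n.totient := h3
        _ ≤ r - 1 := Nat.le_sub_one_of_lt h5
    exact lt_irrefl _ h7
  · -- `a = 2`
    have ha2 : a = 2 := by omega
    subst ha2
    have hm2 : 2 ≤ m := by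
      by_contra hlt
      have hm1 : m = 1 := by omega
      have h1 : r ∣ 2 ^ 1 - 1 := (hiff 1).mpr (by rw [hm1])
      have e1 : 2 ^ 1 - 1 = 1 := by norm_num
      rw [e1] at h1
      have h3 := Nat.le_of_dvd one_pos h1
      have h4 := hr.one_lt
      omega
    rcases Nat.eq_zero_or_pos j₀ with hj | hj
    · -- `n = m r`
      subst hj
      have hnm' : n = m * r := by
        rw [hnm]
        simp
      have hrm : ¬ r ∣ m := fun h => by
        have h1 := Nat.le_of_dvd hm0 h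
        omega
      have hid := zs_expand_ndvd r m hr hrm 2
      have hNZ2 : (N : ℤ) = (cyclotomic (m * r) ℤ).eval (2 : ℤ) := by
        rw [hNZ, hnm']
        norm_num
      rw [← hNZ2] at hid
      have hAB : N * ((cyclotomic m ℤ).eval (2 : ℤ)).natAbs
          = ((cyclotomic m ℤ).eval ((2 : ℤ) ^ r)).natAbs := by
        rw [← hid, Int.natAbs_mul, Int.natAbs_natCast]
      have hA := zs_upper m
      have hB := zs_lower m (2 ^ r) (by omega) (Nat.one_lt_pow hr.ne_zero (by norm_num))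
      have hcast : ((2 ^ r : ℕ) : ℤ) = (2 : ℤ) ^ r := by simp
      rw [hcast, ← hAB] at hB
      have he : 1 ≤ m.totient := Nat.totient_pos.mpr hm0
      rcases Nat.lt_or_ge r 5 with hr5 | hr5
      · have h4 : r ≠ 4 := by
          intro h
          rw [h] at hr
          norm_num at hr
        have hr3' : r = 3 := by omega
        subst hr3'
        have hm_le : m ≤ 3 - 1 := Nat.le_of_dvd (by norm_num) hmr
        exact h6 ⟨rfl, by omega⟩
      · have h3r : 3 * r ≤ 2 ^ r - 1 := by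
          have h1 := zs_three_mul_lt r hr5
          omega
        have h7 : (3 * r) ^ m.totient ≤ (2 ^ r - 1) ^ m.totient := Nat.pow_le_pow_left h3r _
        have h8 : 3 ^ m.totient * r ≤ (3 * r) ^ m.totient := by
          rw [mul_pow]
          exact Nat.mul_le_mul_left _ (Nat.le_self_pow (by omega) r)
        have h9 : N * ((cyclotomic m ℤ).eval (2 : ℤ)).natAbs ≤ r * 3 ^ m.totient := by
          rw [hNpow]
          exact Nat.mul_le_mul_left _ hA
        have h11 : 3 ^ m.totient * r < 3 ^ m.totient * r :=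
          calc 3 ^ m.totient * r ≤ (2 ^ r - 1) ^ m.totient := le_trans h8 h7
            _ < N * ((cyclotomic m ℤ).eval (2 : ℤ)).natAbs := hB
            _ ≤ r * 3 ^ m.totient := h9
            _ = 3 ^ m.totient * r := Nat.mul_comm _ _
        exact lt_irrefl _ h11
    · -- `r ∣ n / r`
      have hrn' : r ∣ m * r ^ j₀ := dvd_mul_of_dvd_right (dvd_pow_self r (by omega)) m
      have hNZ2 : (N : ℤ) = (cyclotomic (m * r ^ j₀) ℤ).eval ((2 : ℤ) ^ r) := by
        rw [hNZ, hnd, zs_expand_dvd r (m * r ^ j₀) hr hrn']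
        norm_num
      have h1n' : 1 < m * r ^ j₀ := by
        calc 1 < m := by omega
          _ = m * 1 := (mul_one m).symm
          _ ≤ m * r ^ j₀ := Nat.mul_le_mul_left m (Nat.one_le_pow _ _ hr.pos)
      have hB := zs_lower (m * r ^ j₀) (2 ^ r) h1n' (Nat.one_lt_pow hr.ne_zero (by norm_num))
      have hcast : ((2 ^ r : ℕ) : ℤ) = (2 : ℤ) ^ r := by simp
      rw [hcast, ← hNZ2, Int.natAbs_natCast] at hB
      have h7 : 2 ^ r - 1 ≤ (2 ^ r - 1) ^ (m * r ^ j₀).totient :=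
        Nat.le_self_pow (by
          have h8 := Nat.totient_pos.mpr (show 0 < m * r ^ j₀ by omega)
          omega) _
      have h8 : r < 2 ^ r := Nat.lt_two_pow_self
      rw [hNpow] at hB
      omega

/-- Zsigmondy's theorem. -/
theorem zsigmondy_nat (a n : ℕ) (ha : 1 < a) (hn : 1 < n) (h6 : ¬ (a = 2 ∧ n = 6))
    (h2 : ¬ (n = 2 ∧ ∃ m : ℕ, a + 1 = 2 ^ m)) :
    ∃ r : ℕ, r.Prime ∧ r ∣ a ^ n - 1 ∧ ∀ k : ℕ, 0 < k → k < n → ¬ r ∣ a ^ k - 1 := by
  rcases Nat.lt_or_ge n 3 with h | h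
  · have hn2 : n = 2 := by omega
    subst hn2
    exact zs_two a ha (fun hm => h2 ⟨rfl, hm⟩)
  · exact zs_main a n ha h h6

end Cfsg.Agent.Lib.Helper2
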